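import Cfsg.Agent.Lib.Helper25.Hecke9
import Cfsg.Prelude.Def_Perm
import Mathlib.RepresentationTheory.Invariants

set_option autoImplicit false

namespace Cfsg.Agent.Lib.Helper25

open Cfsg
open scoped ComplexConjugate

universe u v

section general

variable {G : Type u} [Group G] {V W U : Type*} [AddCommGroup V] [Module ℂ V]
  [AddCommGroup W] [Module ℂ W] [AddCommGroup U] [Module ℂ U]

theorem mem_inv_iff (ρ : Representation ℂ G V) (σ : Representation ℂ G W) (F : V →ₗ[ℂ] W) :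
    F ∈ (ρ.linHom σ).invariants ↔ ∀ g, F ∘ₗ ρ g = σ g ∘ₗ F := by
  rw [Representation.mem_invariants]
  constructor
  · intro h g
    have h1 := h g
    rw [Representation.linHom_apply] at h1
    conv_lhs => rw [← h1]
    apply LinearMap.ext
    intro x
    simp only [LinearMap.comp_apply]
    rw [← Module.End.mul_apply (ρ g⁻¹), ← map_mul, inv_mul_cancel, map_one, Module.End.one_apply]
  · intro h g
    rw [Representation.linHom_apply, ← LinearMap.comp_assoc, ← h g]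
    apply LinearMap.ext
    intro x
    simp only [LinearMap.comp_apply]
    rw [← Module.End.mul_apply (ρ g), ← map_mul, mul_inv_cancel, map_one, Module.End.one_apply]

theorem sum_linHom_mem [Fintype G] (ρ : Representation ℂ G V) (σ : Representation ℂ G W)
    (F₀ : V →ₗ[ℂ] W) : ∑ g, σ g ∘ₗ F₀ ∘ₗ ρ g⁻¹ ∈ (ρ.linHom σ).invariants := by
  rw [Representation.mem_invariants]
  intro h
  rw [map_sum]
  apply Fintype.sum_equiv (Equiv.mulLeft h)
  intro g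
  rw [Representation.linHom_apply]
  apply LinearMap.ext
  intro x
  simp only [LinearMap.comp_apply, Equiv.coe_mulLeft, map_mul, mul_inv_rev, Module.End.mul_apply]

theorem comp_mem_inv {ρ : Representation ℂ G V} {σ : Representation ℂ G W}
    {τ : Representation ℂ G U} {F : V →ₗ[ℂ] W} {S : U →ₗ[ℂ] V}
    (hF : F ∈ (ρ.linHom σ).invariants) (hS : S ∈ (τ.linHom ρ).invariants) :
    F ∘ₗ S ∈ (τ.linHom σ).invariants := by
  rw [mem_inv_iff] at hF hS ⊢
  intro g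
  rw [LinearMap.comp_assoc, hS g, ← LinearMap.comp_assoc, hF g, LinearMap.comp_assoc]

end general

section sect

variable {G : Type u} [Group G] [Fintype G] {M : Type*} [AddCommGroup M] [Module ℂ M] {n : ℕ}

theorem trace_proj_smulRight (i : Fin n) (w : Fin n → ℂ) :
    LinearMap.trace ℂ (Fin n → ℂ) ((LinearMap.proj i : (Fin n → ℂ) →ₗ[ℂ] ℂ).smulRight w) = w i := by
  rw [LinearMap.trace_eq_matrix_trace ℂ (Pi.basisFun ℂ (Fin n)), Matrix.trace]
  simp only [Matrix.diag_apply, LinearMap.toMatrix_apply, Pi.basisFun_apply, Pi.basisFun_repr,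
    LinearMap.smulRight_apply, LinearMap.proj_apply, Pi.smul_apply, smul_eq_mul]
  rw [Finset.sum_eq_single i]
  · simp
  · intro j _ hj
    simp [hj.symm]
  · intro h
    exact absurd (Finset.mem_univ _) h

omit [Fintype G] in
theorem trace_conj_rho (ρ : Representation ℂ G (Fin n → ℂ)) (A : Module.End ℂ (Fin n → ℂ)) (g : G) :
    LinearMap.trace ℂ _ (ρ g ∘ₗ A ∘ₗ ρ g⁻¹) = LinearMap.trace ℂ _ A := by
  have : ρ g ∘ₗ A ∘ₗ ρ g⁻¹ = ρ g * (A * ρ g⁻¹) := rfl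
  rw [this, LinearMap.trace_mul_comm, mul_assoc, ← map_mul, inv_mul_cancel, map_one, mul_one]

/-- a nonzero equivariant map onto an irreducible representation splits up to a scalar -/
theorem exists_section (P : Representation ℂ G M) (ρ : Representation ℂ G (Fin n → ℂ))
    [ρ.IsIrreducible] {F : M →ₗ[ℂ] (Fin n → ℂ)} (hF : F ∈ (P.linHom ρ).invariants) (h0 : F ≠ 0) :
    ∃ σ ∈ (ρ.linHom P).invariants, ∃ c : ℂ, c ≠ 0 ∧ F ∘ₗ σ = c • LinearMap.id := by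
  obtain ⟨x, hx⟩ : ∃ x, F x ≠ 0 := by
    by_contra hcon
    push Not at hcon
    exact h0 (LinearMap.ext hcon)
  obtain ⟨i, hi⟩ : ∃ i, F x i ≠ 0 := by
    by_contra hcon
    push Not at hcon
    exact hx (funext hcon)
  let σ₀ : (Fin n → ℂ) →ₗ[ℂ] M := (LinearMap.proj i : (Fin n → ℂ) →ₗ[ℂ] ℂ).smulRight x
  let σ : (Fin n → ℂ) →ₗ[ℂ] M := ∑ g, P g ∘ₗ σ₀ ∘ₗ ρ g⁻¹
  have hσ : σ ∈ (ρ.linHom P).invariants := sum_linHom_mem ρ P σ₀
  have hFσ := comp_mem_inv hF hσ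
  obtain ⟨c, hc⟩ := Helper24.schur_scalar ρ (F ∘ₗ σ) ((mem_inv_iff ρ ρ _).1 hFσ)
  refine ⟨σ, hσ, c, ?_, hc⟩
  intro hc0
  rw [hc0, zero_smul] at hc
  have hF' := (mem_inv_iff P ρ F).1 hF
  have h1 : F ∘ₗ σ = ∑ g, ρ g ∘ₗ (F ∘ₗ σ₀) ∘ₗ ρ g⁻¹ := by
    apply LinearMap.ext
    intro v
    simp only [σ, LinearMap.comp_apply, LinearMap.sum_apply, map_sum]
    apply Finset.sum_congr rfl
    intro g _
    exact LinearMap.congr_fun (hF' g) _
  have h2 : F ∘ₗ σ₀ = (LinearMap.proj i : (Fin n → ℂ) →ₗ[ℂ] ℂ).smulRight (F x) := by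
    apply LinearMap.ext
    intro v
    simp [σ₀]
  have h3 : LinearMap.trace ℂ _ (F ∘ₗ σ) = (Fintype.card G : ℂ) * F x i := by
    rw [h1, map_sum, Finset.sum_congr rfl (fun g _ => trace_conj_rho ρ _ g), Finset.sum_const,
      Finset.card_univ, nsmul_eq_mul, h2, trace_proj_smulRight]
  rw [hc, map_zero] at h3
  have hG : (Fintype.card G : ℂ) ≠ 0 := by exact_mod_cast Fintype.card_ne_zero
  exact (mul_ne_zero hG hi) h3.symm

/-- commutativity of the centraliser ring forces multiplicity at most one -/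
theorem eq_smul_of_comm (P : Representation ℂ G M) (ρ : Representation ℂ G (Fin n → ℂ))
    [ρ.IsIrreducible]
    (hcomm : ∀ S T : M →ₗ[ℂ] M, S ∈ (P.linHom P).invariants → T ∈ (P.linHom P).invariants →
      S ∘ₗ T = T ∘ₗ S)
    {F F' : M →ₗ[ℂ] (Fin n → ℂ)} (hF : F ∈ (P.linHom ρ).invariants) (h0 : F ≠ 0)
    (hF' : F' ∈ (P.linHom ρ).invariants) : ∃ c : ℂ, c • F = F' := by
  obtain ⟨σ, hσ, c, hc0, hc⟩ := exists_section P ρ hF h0
  obtain ⟨c', hc'⟩ := Helper24.schur_scalar ρ (F' ∘ₗ σ)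
    ((mem_inv_iff ρ ρ _).1 (comp_mem_inv hF' hσ))
  have h1 := hcomm (σ ∘ₗ F) (σ ∘ₗ F') (comp_mem_inv hσ hF) (comp_mem_inv hσ hF')
  have h2 : F ∘ₗ ((σ ∘ₗ F) ∘ₗ (σ ∘ₗ F')) = (c * c) • F' := by
    have : F ∘ₗ ((σ ∘ₗ F) ∘ₗ (σ ∘ₗ F')) = (F ∘ₗ σ) ∘ₗ (F ∘ₗ σ) ∘ₗ F' := by
      simp only [LinearMap.comp_assoc]
    rw [this, hc]
    apply LinearMap.ext
    intro x
    simp [mul_smul]
  have h3 : F ∘ₗ ((σ ∘ₗ F') ∘ₗ (σ ∘ₗ F)) = (c * c') • F := by
    have : F ∘ₗ ((σ ∘ₗ F') ∘ₗ (σ ∘ₗ F)) = (F ∘ₗ σ) ∘ₗ (F' ∘ₗ σ) ∘ₗ F := by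
      simp only [LinearMap.comp_assoc]
    rw [this, hc, hc']
    apply LinearMap.ext
    intro x
    simp [mul_smul]
  rw [h1, h3] at h2
  refine ⟨c' / c, ?_⟩
  have h4 : (c * c)⁻¹ • ((c * c') • F) = (c * c)⁻¹ • ((c * c) • F') := by rw [h2]
  rw [smul_smul, smul_smul, inv_mul_cancel₀ (mul_ne_zero hc0 hc0), one_smul] at h4
  rw [← h4]
  congr 1
  field_simp

end sect

end Cfsg.Agent.Lib.Helper25
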