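import Cfsg.Agent.Lib.Helper25.CentRing1

set_option autoImplicit false

namespace Cfsg.Agent.Lib.Helper25

open Cfsg
open scoped ComplexConjugate

universe u v

variable {G : Type u} [Group G] [Fintype G] {Ω : Type v} [Fintype Ω] [MulAction G Ω]

omit [Fintype G] [Fintype Ω] in
theorem permRep_apply (g : G) (f : Ω → ℂ) (x : Ω) : permRep ℂ G Ω g f x = f (g⁻¹ • x) := rfl

omit [Fintype G] in
theorem character_permRep (g : G) :
    (permRep ℂ G Ω).character g = (Nat.card (MulAction.fixedBy Ω g) : ℂ) := by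
  classical
  show LinearMap.trace ℂ _ (permRep ℂ G Ω g) = _
  rw [LinearMap.trace_eq_matrix_trace ℂ (Pi.basisFun ℂ Ω), Matrix.trace]
  simp only [Matrix.diag_apply, LinearMap.toMatrix_apply, Pi.basisFun_apply, Pi.basisFun_repr,
    permRep_apply, Pi.single_apply]
  rw [Finset.sum_boole, Nat.card_eq_fintype_card, Fintype.card_subtype]
  congr 2
  ext x
  simp only [Finset.mem_filter, Finset.mem_univ, true_and, MulAction.mem_fixedBy]
  rw [inv_smul_eq_iff, eq_comm]

theorem finrank_inv_eq {n : ℕ} (ρ : Representation ℂ G (Fin n → ℂ)) :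
    (Module.finrank ℂ ((permRep ℂ G Ω).linHom ρ).invariants : ℂ)
      = classInner (fun g : G => (Nat.card (MulAction.fixedBy Ω g) : ℂ)) ρ.character := by
  have hG : (Nat.card G : ℂ) ≠ 0 := by exact_mod_cast Nat.card_pos.ne'
  letI : Invertible (Nat.card G : ℂ) := invertibleOfNonzero hG
  rw [← Representation.card_inv_mul_sum_char_eq_finrank]
  unfold classInner
  congr 1
  apply Fintype.sum_equiv (Equiv.inv G)
  intro g
  rw [Representation.char_linHom, character_permRep, Equiv.inv_apply,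
    Helper2.IsCharacter.conj_eq_inv ⟨n, ρ, rfl⟩, inv_inv]

/-- equivariant maps to irreducible representations separate the points -/
theorem exists_sep (y : Ω → ℂ) (hy : y ≠ 0) :
    ∃ (n : ℕ) (ρ : Representation ℂ G (Fin n → ℂ)), ρ.IsIrreducible ∧
      ∃ F ∈ ((permRep ℂ G Ω).linHom ρ).invariants, F y ≠ 0 := by
  classical
  have : Fintype (IrrCharacter G) := Fintype.ofFinite _
  have hG : (Nat.card G : ℂ) ≠ 0 := by exact_mod_cast Nat.card_pos.ne'
  let w : IrrCharacter G → (Ω → ℂ) := fun χ => ∑ g : G, (χ : G → ℂ) g⁻¹ • permRep ℂ G Ω g y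
  have hsum : ∑ χ : IrrCharacter G, conj ((χ : G → ℂ) 1) • w χ = (Nat.card G : ℂ) • y := by
    simp only [w, Finset.smul_sum, smul_smul]
    rw [Finset.sum_comm]
    have h1 : ∀ g : G, (∑ χ : IrrCharacter G,
        (conj ((χ : G → ℂ) 1) * (χ : G → ℂ) g⁻¹) • permRep ℂ G Ω g y)
        = if g = 1 then (Nat.card G : ℂ) • y else 0 := by
      intro g
      rw [← Finset.sum_smul]
      have h2 := sum_irr_reg (G := G) g⁻¹
      simp only [mul_comm ((_ : G → ℂ) g⁻¹)] at h2
      rw [h2]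
      by_cases hg : g = 1
      · rw [hg]; simp
      · rw [if_neg hg, if_neg (by simpa using hg), zero_smul]
    rw [Finset.sum_congr rfl (fun g _ => h1 g)]
    simp
  obtain ⟨χ, hχ⟩ : ∃ χ : IrrCharacter G, w χ ≠ 0 := by
    by_contra hcon
    push Not at hcon
    simp only [hcon, smul_zero, Finset.sum_const_zero] at hsum
    exact (smul_ne_zero hG hy) hsum.symm
  obtain ⟨ω, hω⟩ : ∃ ω, w χ ω ≠ 0 := by
    by_contra hcon
    push Not at hcon
    exact hχ (funext hcon)
  obtain ⟨n, ρ, hirr, hρ⟩ := χ.2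
  refine ⟨n, ρ, hirr, ?_⟩
  let A : Module.End ℂ (Fin n → ℂ) := ∑ g : G, (permRep ℂ G Ω g⁻¹ y ω) • ρ g
  have htr : LinearMap.trace ℂ _ A = w χ ω := by
    simp only [A, map_sum, map_smul, w, Finset.sum_apply, Pi.smul_apply, smul_eq_mul]
    apply Fintype.sum_equiv (Equiv.inv G)
    intro g
    rw [Equiv.inv_apply, inv_inv, mul_comm, ← hρ]
    rfl
  have hA : A ≠ 0 := by
    intro h
    rw [h, map_zero] at htr
    exact hω htr.symm
  obtain ⟨v, hv⟩ : ∃ v, A v ≠ 0 := by
    by_contra hcon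
    push Not at hcon
    exact hA (LinearMap.ext hcon)
  let F₀ : (Ω → ℂ) →ₗ[ℂ] (Fin n → ℂ) := (LinearMap.proj ω : (Ω → ℂ) →ₗ[ℂ] ℂ).smulRight v
  refine ⟨∑ g, ρ g ∘ₗ F₀ ∘ₗ permRep ℂ G Ω g⁻¹, sum_linHom_mem _ ρ F₀, ?_⟩
  have : (∑ g, ρ g ∘ₗ F₀ ∘ₗ permRep ℂ G Ω g⁻¹) y = A v := by
    simp only [LinearMap.sum_apply, LinearMap.comp_apply, F₀, LinearMap.smulRight_apply,
      LinearMap.proj_apply, map_smul, A, LinearMap.smul_apply]
  rw [this]
  exact hv

end Cfsg.Agent.Lib.Helper25
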