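import Mathlib
import Cfsg.Agent.Lib.Helper25.AbQuot

set_option autoImplicit false

namespace Cfsg.Agent.Lib.Helper25

open Cfsg
open scoped ComplexConjugate

universe u

variable {G : Type u} [Group G]

theorem normal_of_le_center' (N : Subgroup G) (hN : N ≤ Subgroup.center G) : N.Normal :=
  ⟨fun n hn g => by
    have h := Subgroup.mem_center_iff.1 (hN hn) g
    have : g * n * g⁻¹ = n := by rw [h]; group
    rw [this]; exact hn⟩

/-- a central element acts through the central character. -/
theorem central_mul [Fintype G] (N : Subgroup G) [Fintype N] (hN : N ≤ Subgroup.center G)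
    {ψ : N → ℂ} (hψ : IsIrrCharacter N ψ) {χ : G → ℂ} (hχ : IsIrrCharacter G χ)
    (hover : classInner (fun n : N => χ n) ψ ≠ 0) (c : N) (y : G) :
    χ (c * y) * ψ 1 = ψ c * χ y := by
  have hNn := normal_of_le_center' N hN
  have hinv : ∀ g : G, conjFun N ψ g = ψ := by
    intro g
    rw [conjFun_eq_self_iff]
    intro n
    congr 1
    apply Subtype.ext
    have h := Subgroup.mem_center_iff.1 (hN n.2) g
    show g * n * g⁻¹ = n
    rw [h]; group
  have hres := restrict_eq_smul_of_invariant N hχ hψ hover hinv
  have hc := congrFun hres c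
  have h1 := congrFun hres 1
  simp only [Pi.smul_apply, smul_eq_mul, OneMemClass.coe_one] at hc h1
  have hχ1 := Helper7.irr_apply_one_ne_zero hχ
  obtain ⟨n, ρ, hρ, rfl⟩ := hχ
  obtain ⟨ω, hω⟩ := Helper2.schur ρ (ρ c) (by
    intro g
    have h := Subgroup.mem_center_iff.1 (hN c.2) g
    show ρ c * ρ g = ρ g * ρ c
    rw [← map_mul, ← map_mul, h])
  have e1 : ρ.character (c * y) = ω * ρ.character y := by
    simp only [Representation.character, map_mul, hω]
    rw [show (ω • (LinearMap.id : (Fin n → ℂ) →ₗ[ℂ] (Fin n → ℂ))) * ρ y = ω • ρ y from by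
      ext v; simp]
    rw [map_smul, smul_eq_mul]
  have e2 : ρ.character c = ω * ρ.character 1 := by
    have := e1
    simp only [Representation.character, hω, map_smul, map_one, smul_eq_mul]
    rfl
  rw [e1]
  have h3 : ω * ψ 1 = ψ c := by
    rw [e2, h1] at hc
    have he : classInner (fun n_1 : N => ρ.character n_1) ψ ≠ 0 := hover
    apply mul_left_cancel₀ he
    rw [← hc]; ring
  rw [← h3]; ring

end Cfsg.Agent.Lib.Helper25
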