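import Cfsg.Agent.Lib.Helper25.ClassCount
import Cfsg.Agent.Lib.Helper25.Central1
import Cfsg.Agent.Lib.Helper25.AbQuot
import Cfsg.Agent.Lib.Helper25.Cop1
import Cfsg.Agent.Lib.Helper2.CharDeg

set_option autoImplicit false

namespace Cfsg.Agent.Lib.Helper25

open scoped ComplexConjugate
open Cfsg

universe u

variable {G : Type u} [Group G] [Fintype G] (N : Subgroup G) [Fintype N]

/-- special elements -/
def IsSpecialElt (g : G) : Prop := ∀ x : G, x⁻¹ * g⁻¹ * x * g ∈ N → x * g = g * x

theorem central_indicator (hN : N ≤ Subgroup.center G) {ψ : N → ℂ} (hψ : IsIrrCharacter N ψ)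
    (hψ1 : ψ 1 = 1) {χ : G → ℂ} (hχ : IsIrrCharacter G χ) (g : G)
    [Decidable (classInner (fun n : N => χ n) ψ ≠ 0)] :
    ∑ c : N, conj (ψ c) * χ (c * g)
      = if classInner (fun n : N => χ n) ψ ≠ 0 then (Nat.card N : ℂ) * χ g else 0 := by
  split_ifs with h
  · have h1 : ∀ c : N, conj (ψ c) * χ (c * g) = (ψ c * conj (ψ c)) * χ g := by
      intro c
      have := central_mul N hN hψ hχ h c g
      rw [hψ1, mul_one] at this
      rw [this]
      ring
    simp_rw [h1]
    rw [← Finset.sum_mul, Helper2.sum_char_mul_conj hψ]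
  · push Not at h
    have hχc := Helper7.isCharacter_of_irr hχ
    have hr0 : (fun l : N => χ l) ≠ 0 := by
      intro h0
      exact Helper7.irr_apply_one_ne_zero hχ (congrFun h0 1)
    obtain ⟨φ, hφ, hne⟩ := Helper2.IsCharacter.exists_constituent
      (Helper7.isCharacter_restrict hχc N) hr0
    have hφψ : φ ≠ ψ := by
      rintro rfl
      exact hne h
    have h1 : ∀ c : N, conj (ψ c) * χ (c * g) * φ 1 = (φ c * conj (ψ c)) * χ g := by
      intro c
      have := central_mul N hN hφ hχ hne c g
      rw [mul_assoc, this]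
      ring
    have h2 : (∑ c : N, conj (ψ c) * χ (c * g)) * φ 1 = 0 := by
      rw [Finset.sum_mul]
      simp_rw [h1]
      rw [← Finset.sum_mul]
      have h3 := Helper7.classInner_irr_ne hφ hψ hφψ
      unfold classInner at h3
      have hNc : (Nat.card N : ℂ)⁻¹ ≠ 0 := inv_ne_zero (by exact_mod_cast Nat.card_pos.ne')
      rw [(mul_eq_zero.mp h3).resolve_left hNc, zero_mul]
    exact (mul_eq_zero.mp h2).resolve_right (Helper7.irr_apply_one_ne_zero hφ)

open Classical in
theorem sum_conj_special (hN : N ≤ Subgroup.center G) (l : N →* ℂˣ)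
    (hfaith : ∀ n : N, l n = 1 → n = 1) (g : G) :
    ∑ c : N, (if IsConj ((c : G) * g) g then conj ((l c : ℂˣ) : ℂ) else 0)
      = if IsSpecialElt N g then 1 else 0 := by
  have hcen : ∀ (n : N) (y : G), y * n = n * y := fun n y => Subgroup.mem_center_iff.mp (hN n.2) y
  split_ifs with hs
  · rw [Finset.sum_eq_single 1]
    · rw [if_pos (by rw [OneMemClass.coe_one, one_mul])]
      simp
    · intro c _ hc
      rw [if_neg]
      intro hconj
      apply hc
      obtain ⟨y, hy⟩ := isConj_iff.mp hconj.symm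
      have e1 : y * g = c * g * y := by rw [← hy]; group
      have h1 : y⁻¹ * g⁻¹ * y * g = (c : G) := by
        calc y⁻¹ * g⁻¹ * y * g = y⁻¹ * g⁻¹ * (y * g) := by group
          _ = y⁻¹ * g⁻¹ * (c * g * y) := by rw [e1]
          _ = y⁻¹ * (g⁻¹ * c) * g * y := by group
          _ = y⁻¹ * (c * g⁻¹) * g * y := by rw [hcen c g⁻¹]
          _ = (y⁻¹ * c) * y := by group
          _ = c * y⁻¹ * y := by rw [hcen c y⁻¹]
          _ = c := by group
      have h2 := hs y (by rw [h1]; exact c.2)
      rw [h2] at e1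
      have h3 : (c : G) = 1 := by
        have : 1 * (g * y) = c * (g * y) := by rw [one_mul, ← mul_assoc]; exact e1
        exact (mul_right_cancel this).symm
      exact Subtype.ext h3
    · intro h
      exact absurd (Finset.mem_univ _) h
  · unfold IsSpecialElt at hs
    push Not at hs
    obtain ⟨x, hxN, hx⟩ := hs
    set n₀ : N := ⟨x⁻¹ * g⁻¹ * x * g, hxN⟩ with hn₀
    have hn₀c : (n₀ : G) = x⁻¹ * g⁻¹ * x * g := rfl
    have hn₀1 : l n₀ ≠ 1 := by
      intro h
      have h1 := congrArg Subtype.val (hfaith n₀ h)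
      rw [hn₀c] at h1
      apply hx
      have : x * g = g * x * (x⁻¹ * g⁻¹ * x * g) := by group
      rw [this, h1]
      simp
    have e2 : x * g * x⁻¹ = n₀ * g := by
      have h1 : x * g = g * x * n₀ := by rw [hn₀c]; group
      calc x * g * x⁻¹ = g * x * n₀ * x⁻¹ := by rw [h1]
        _ = g * (x * n₀) * x⁻¹ := by group
        _ = g * (n₀ * x) * x⁻¹ := by rw [hcen n₀ x]
        _ = g * n₀ := by group
        _ = n₀ * g := hcen n₀ g
    have hiff : ∀ c : N, IsConj (((c * n₀ : N) : G) * g) g ↔ IsConj ((c : G) * g) g := by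
      intro c
      have h1 : IsConj ((c : G) * g) (((c * n₀ : N) : G) * g) := by
        rw [isConj_iff]
        refine ⟨x, ?_⟩
        calc x * (c * g) * x⁻¹ = (x * c) * g * x⁻¹ := by group
          _ = (c * x) * g * x⁻¹ := by rw [hcen c x]
          _ = c * (x * g * x⁻¹) := by group
          _ = c * (n₀ * g) := by rw [e2]
          _ = ((c * n₀ : N) : G) * g := by rw [Subgroup.coe_mul]; group
      exact ⟨fun h => h1.trans h, fun h => h1.symm.trans h⟩
    set T := ∑ c : N, (if IsConj ((c : G) * g) g then conj ((l c : ℂˣ) : ℂ) else 0) with hT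
    have h3 : T = conj ((l n₀ : ℂˣ) : ℂ) * T := by
      conv_lhs => rw [hT, ← Equiv.sum_comp (Equiv.mulRight n₀)]
      rw [hT, Finset.mul_sum]
      apply Finset.sum_congr rfl
      intro c _
      simp only [Equiv.coe_mulRight]
      by_cases hc : IsConj ((c : G) * g) g
      · have hc2 := (hiff c).mpr hc
        simp only [hc, hc2, if_true, map_mul, Units.val_mul]
        ring
      · have hc2 : ¬ IsConj (((c * n₀ : N) : G) * g) g := fun h => hc ((hiff c).mp h)
        simp only [hc, hc2, if_false, mul_zero]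
    have h4 : (1 - conj ((l n₀ : ℂˣ) : ℂ)) * T = 0 := by linear_combination h3
    rcases mul_eq_zero.mp h4 with h5 | h5
    · exfalso
      apply hn₀1
      apply Units.ext
      have h6 : conj ((l n₀ : ℂˣ) : ℂ) = 1 := by linear_combination -h5
      have h7 := congrArg conj h6
      simpa using h7
    · exact h5

open Classical in
theorem sum_over_norm (hN : N ≤ Subgroup.center G) (l : N →* ℂˣ)
    (hfaith : ∀ n : N, l n = 1 → n = 1) [Fintype (IrrCharacter G)] (g : G) :
    (Nat.card N : ℂ) * ∑ χ : IrrCharacter G,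
      (if classInner (fun n : N => (χ : G → ℂ) n) (fun n => ((l n : ℂˣ) : ℂ)) ≠ 0
        then (χ : G → ℂ) g * conj ((χ : G → ℂ) g) else 0)
      = if IsSpecialElt N g then (Nat.card (Subgroup.centralizer ({g} : Set G)) : ℂ) else 0 := by
  have hcen : ∀ (n : N) (y : G), y * n = n * y := fun n y => Subgroup.mem_center_iff.mp (hN n.2) y
  have hl := Helper7.isIrrCharacter_of_hom l
  have h1 : ∀ χ : IrrCharacter G, (Nat.card N : ℂ) *
      (if classInner (fun n : N => (χ : G → ℂ) n) (fun n => ((l n : ℂˣ) : ℂ)) ≠ 0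
        then (χ : G → ℂ) g * conj ((χ : G → ℂ) g) else 0)
      = ∑ c : N, conj ((l c : ℂˣ) : ℂ) * ((χ : G → ℂ) (c * g) * conj ((χ : G → ℂ) g)) := by
    intro χ
    have h2 := central_indicator N hN hl (by simp) χ.2 g
    have h3 : ∑ c : N, conj ((l c : ℂˣ) : ℂ) * ((χ : G → ℂ) (c * g) * conj ((χ : G → ℂ) g))
        = (∑ c : N, conj ((l c : ℂˣ) : ℂ) * (χ : G → ℂ) (c * g)) * conj ((χ : G → ℂ) g) := by
      rw [Finset.sum_mul]
      exact Finset.sum_congr rfl fun c _ => by ring
    rw [h3, h2]
    split_ifs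
    · ring
    · simp
  rw [Finset.mul_sum]
  simp_rw [h1]
  rw [Finset.sum_comm]
  simp_rw [← Finset.mul_sum]
  have h4 : ∀ c : N, conj ((l c : ℂˣ) : ℂ) *
      ∑ χ : IrrCharacter G, (χ : G → ℂ) (c * g) * conj ((χ : G → ℂ) g)
      = (Nat.card (Subgroup.centralizer ({g} : Set G)) : ℂ) *
        (if IsConj ((c : G) * g) g then conj ((l c : ℂˣ) : ℂ) else 0) := by
    intro c
    rw [Helper7.column_orthogonality]
    have e : Subgroup.centralizer ({(c : G) * g} : Set G) = Subgroup.centralizer ({g} : Set G) := by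
      ext x
      rw [Subgroup.mem_centralizer_singleton_iff, Subgroup.mem_centralizer_singleton_iff]
      constructor
      · intro h
        have h5 : c * (x * g) = c * (g * x) := by
          calc c * (x * g) = (c * x) * g := by group
            _ = (x * c) * g := by rw [hcen c x]
            _ = x * (c * g) := by group
            _ = c * g * x := h
            _ = c * (g * x) := by group
        exact mul_left_cancel h5
      · intro h
        calc x * (c * g) = (x * c) * g := by group
          _ = (c * x) * g := by rw [hcen c x]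
          _ = c * (x * g) := by group
          _ = c * (g * x) := by rw [h]
          _ = c * g * x := by group
    rw [e]
    split_ifs
    · ring
    · simp
  simp_rw [h4]
  rw [← Finset.mul_sum, sum_conj_special N hN l hfaith g]
  split_ifs
  · ring
  · simp

open Classical in
theorem card_over_mul (hN : N ≤ Subgroup.center G) (l : N →* ℂˣ)
    (hfaith : ∀ n : N, l n = 1 → n = 1) :
    Nat.card N * (Nat.card {χ : IrrCharacter G //
      classInner (fun n : N => (χ : G → ℂ) n) (fun n => ((l n : ℂˣ) : ℂ)) ≠ 0} * Nat.card G)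
      = ∑ g : G, if IsSpecialElt N g then Nat.card (Subgroup.centralizer ({g} : Set G)) else 0 := by
  have := Helper2.finite_irrCharacter (G := G)
  have : Fintype (IrrCharacter G) := Fintype.ofFinite _
  have h1 : ∀ g : G, ((if IsSpecialElt N g then Nat.card (Subgroup.centralizer ({g} : Set G))
      else 0 : ℕ) : ℂ) = (Nat.card N : ℂ) * ∑ χ : IrrCharacter G,
      (if classInner (fun n : N => (χ : G → ℂ) n) (fun n => ((l n : ℂˣ) : ℂ)) ≠ 0
        then (χ : G → ℂ) g * conj ((χ : G → ℂ) g) else 0) := by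
    intro g
    rw [sum_over_norm N hN l hfaith g]
    split_ifs <;> simp
  have h2 : ((∑ g : G, if IsSpecialElt N g then Nat.card (Subgroup.centralizer ({g} : Set G))
      else 0 : ℕ) : ℂ) = ((Nat.card N * (Nat.card {χ : IrrCharacter G //
      classInner (fun n : N => (χ : G → ℂ) n) (fun n => ((l n : ℂˣ) : ℂ)) ≠ 0} * Nat.card G) : ℕ) : ℂ) := by
    rw [Nat.cast_sum]
    simp_rw [h1]
    push_cast
    rw [← Finset.mul_sum, Finset.sum_comm]
    congr 1
    have h3 : ∀ χ : IrrCharacter G, ∑ g : G,
        (if classInner (fun n : N => (χ : G → ℂ) n) (fun n => ((l n : ℂˣ) : ℂ)) ≠ 0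
          then (χ : G → ℂ) g * conj ((χ : G → ℂ) g) else 0)
        = if classInner (fun n : N => (χ : G → ℂ) n) (fun n => ((l n : ℂˣ) : ℂ)) ≠ 0
          then (Nat.card G : ℂ) else 0 := by
      intro χ
      split_ifs
      · exact Helper2.sum_char_mul_conj χ.2
      · simp
    simp_rw [h3]
    rw [← Finset.sum_filter, Finset.sum_const, nsmul_eq_mul,
      Nat.card_eq_fintype_card (α := {χ : IrrCharacter G //
      classInner (fun n : N => (χ : G → ℂ) n) (fun n => ((l n : ℂˣ) : ℂ)) ≠ 0}),
      Fintype.card_subtype]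
  exact_mod_cast h2.symm

end Cfsg.Agent.Lib.Helper25
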