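import Cfsg.Agent.Lib.Helper25.CentralCount

set_option autoImplicit false

namespace Cfsg.Agent.Lib.Helper25

open scoped ComplexConjugate
open Cfsg

universe u

variable {G : Type u} [Group G] [Fintype G] (N : Subgroup G) [Fintype N]

omit [Fintype G] [Fintype N] in
theorem isSpecialElt_mul (hN : N ≤ Subgroup.center G) {g : G} (hg : IsSpecialElt N g) (n : N) :
    IsSpecialElt N (g * n) := by
  have hcen : ∀ (n : N) (y : G), y * n = n * y := fun n y => Subgroup.mem_center_iff.mp (hN n.2) y
  intro x hx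
  have e1 : x⁻¹ * (g * n)⁻¹ * x * (g * n) = x⁻¹ * g⁻¹ * x * g := by
    calc x⁻¹ * (g * n)⁻¹ * x * (g * n) = x⁻¹ * (n : G)⁻¹ * (g⁻¹ * x * g * n) := by group
      _ = x⁻¹ * (n : G)⁻¹ * (n * (g⁻¹ * x * g)) := by rw [hcen n (g⁻¹ * x * g)]
      _ = x⁻¹ * g⁻¹ * x * g := by group
  rw [e1] at hx
  have h1 := hg x hx
  calc x * (g * n) = (x * g) * n := by group
    _ = g * (x * n) := by rw [h1]; group
    _ = g * (n * x) := by rw [hcen n x]
    _ = g * n * x := by group

omit [Fintype G] [Fintype N] in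
theorem isSpecialElt_conj [hNn : N.Normal] {g : G} (hg : IsSpecialElt N g) (y : G) :
    IsSpecialElt N (y * g * y⁻¹) := by
  intro x hx
  have h1 : (y⁻¹ * x * y)⁻¹ * g⁻¹ * (y⁻¹ * x * y) * g ∈ N := by
    have := hNn.conj_mem _ hx y⁻¹
    have e : y⁻¹ * (x⁻¹ * (y * g * y⁻¹)⁻¹ * x * (y * g * y⁻¹)) * y⁻¹⁻¹
        = (y⁻¹ * x * y)⁻¹ * g⁻¹ * (y⁻¹ * x * y) * g := by group
    rwa [e] at this
  have h2 := hg _ h1
  calc x * (y * g * y⁻¹) = y * ((y⁻¹ * x * y) * g) * y⁻¹ := by group
    _ = y * (g * (y⁻¹ * x * y)) * y⁻¹ := by rw [h2]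
    _ = y * g * y⁻¹ * x := by group

open Classical in
theorem card_special_classes_mul [hNn : N.Normal] (hN : N ≤ Subgroup.center G) :
    Nat.card N * (Nat.card {C : ConjClasses (G ⧸ N) // ∃ g : G,
      ConjClasses.mk (g : G ⧸ N) = C ∧ IsSpecialElt N g} * Nat.card G)
      = ∑ g : G, if IsSpecialElt N g then Nat.card (Subgroup.centralizer ({g} : Set G)) else 0 := by
  have : Fintype (G ⧸ N) := Fintype.ofFinite _
  set pb : G ⧸ N → Prop := fun h => ∃ g : G, (g : G ⧸ N) = h ∧ IsSpecialElt N g with hpb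
  have hpb_iff : ∀ g : G, pb (g : G ⧸ N) ↔ IsSpecialElt N g := by
    intro g
    constructor
    · rintro ⟨g', hg', hs⟩
      have h1 : g'⁻¹ * g ∈ N := QuotientGroup.eq.mp hg'
      have := isSpecialElt_mul N hN hs ⟨_, h1⟩
      simpa using this
    · intro h
      exact ⟨g, rfl, h⟩
  have hpb_inv : ∀ h y, pb h → pb (y * h * y⁻¹) := by
    rintro _ y ⟨g, rfl, hs⟩
    obtain ⟨y, rfl⟩ := QuotientGroup.mk_surjective y
    exact ⟨y * g * y⁻¹, by simp, isSpecialElt_conj N hs y⟩
  have hCL := card_classes_mul_card pb hpb_inv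
  have hcong : Nat.card {C : ConjClasses (G ⧸ N) // ∃ g : G,
      ConjClasses.mk (g : G ⧸ N) = C ∧ IsSpecialElt N g}
      = Nat.card {C : ConjClasses (G ⧸ N) // ∃ h, ConjClasses.mk h = C ∧ pb h} := by
    apply Nat.card_congr
    apply Equiv.subtypeEquivRight
    intro C
    constructor
    · rintro ⟨g, rfl, hs⟩
      exact ⟨g, rfl, g, rfl, hs⟩
    · rintro ⟨_, rfl, g, rfl, hs⟩
      exact ⟨g, rfl, hs⟩
  have hcardG : Nat.card G = Nat.card N * Nat.card (G ⧸ N) := by
    rw [← N.card_mul_index, Subgroup.index_eq_card]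
  have hE3 : ∀ g : G, (if IsSpecialElt N g then Nat.card (Subgroup.centralizer ({g} : Set G))
      else 0) = Nat.card N * (if pb (g : G ⧸ N) then
        Nat.card (Subgroup.centralizer ({(g : G ⧸ N)} : Set (G ⧸ N))) else 0) := by
    intro g
    by_cases hs : IsSpecialElt N g
    · rw [if_pos hs, if_pos ((hpb_iff g).mpr hs)]
      have e1 : Subgroup.centralizer ({(g : G ⧸ N)} : Set (G ⧸ N))
          = (Subgroup.centralizer ({g} : Set G)).map (QuotientGroup.mk' N) := by
        ext z
        obtain ⟨x, rfl⟩ := QuotientGroup.mk_surjective z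
        rw [Subgroup.mem_centralizer_singleton_iff]
        constructor
        · intro h
          refine ⟨x, ?_, rfl⟩
          rw [SetLike.mem_coe, Subgroup.mem_centralizer_singleton_iff]
          apply hs
          rw [← QuotientGroup.eq_one_iff]
          simp only [QuotientGroup.mk_mul, QuotientGroup.mk_inv]
          rw [mul_assoc, h]
          group
        · rintro ⟨x', hx', hxx⟩
          rw [SetLike.mem_coe, Subgroup.mem_centralizer_singleton_iff] at hx'
          rw [← hxx]
          show (QuotientGroup.mk' N x') * (QuotientGroup.mk' N g)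
            = (QuotientGroup.mk' N g) * (QuotientGroup.mk' N x')
          rw [← map_mul, ← map_mul, hx']
      have e2 : ((Subgroup.centralizer ({g} : Set G)).map (QuotientGroup.mk' N)).index
          = (Subgroup.centralizer ({g} : Set G)).index := by
        apply Subgroup.index_map_eq _ (QuotientGroup.mk'_surjective N)
        rw [QuotientGroup.ker_mk']
        intro n hn
        rw [Subgroup.mem_centralizer_singleton_iff]
        exact (Subgroup.mem_center_iff.mp (hN hn) g).symm
      have e3 := (Subgroup.centralizer ({g} : Set G)).card_mul_index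
      have e4 := (Subgroup.centralizer ({(g : G ⧸ N)} : Set (G ⧸ N))).card_mul_index
      rw [e1, e2] at e4
      rw [hcardG, ← e4, ← mul_assoc] at e3
      rw [e1]
      exact Nat.eq_of_mul_eq_mul_right
        (Nat.pos_of_ne_zero (Subgroup.index_ne_zero_of_finite)) e3
    · rw [if_neg hs, if_neg (fun h => hs ((hpb_iff g).mp h)), mul_zero]
  simp_rw [hE3]
  rw [← Finset.mul_sum]
  congr 1
  have h5 := sum_comp_surjective_hom (QuotientGroup.mk' N) (QuotientGroup.mk'_surjective N)
    (fun h : G ⧸ N => (((if pb h then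
        Nat.card (Subgroup.centralizer ({h} : Set (G ⧸ N))) else 0 : ℕ)) : ℂ))
  rw [QuotientGroup.ker_mk'] at h5
  have h6 : ∑ g : G, (if pb (g : G ⧸ N) then
        Nat.card (Subgroup.centralizer ({(g : G ⧸ N)} : Set (G ⧸ N))) else 0)
      = Nat.card N * ∑ h : G ⧸ N, (if pb h then
        Nat.card (Subgroup.centralizer ({h} : Set (G ⧸ N))) else 0) := by
    exact_mod_cast h5
  rw [h6, ← hCL, hcong, hcardG]
  ring

end Cfsg.Agent.Lib.Helper25
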