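import Cfsg.Agent.Lib.Helper7.CharColumn

set_option autoImplicit false

namespace Cfsg.Agent.Lib.Helper25

open Cfsg

/-- counting the conjugacy classes satisfying an invariant predicate -/
theorem card_classes_mul_card {H : Type*} [Group H] [Fintype H] (p : H → Prop) [DecidablePred p]
    (hp : ∀ h y, p h → p (y * h * y⁻¹)) :
    Nat.card {C : ConjClasses H // ∃ h, ConjClasses.mk h = C ∧ p h} * Nat.card H
      = ∑ h : H, if p h then Nat.card (Subgroup.centralizer ({h} : Set H)) else 0 := by
  classical
  set S : Finset (ConjClasses H) := (Finset.univ.filter p).image ConjClasses.mk with hS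
  have h1 : Nat.card {C : ConjClasses H // ∃ h, ConjClasses.mk h = C ∧ p h} = S.card := by
    rw [Nat.card_congr (Equiv.subtypeEquivRight (q := fun C => C ∈ S) (fun C => by
      rw [hS, Finset.mem_image]
      constructor
      · rintro ⟨h, rfl, hh⟩
        exact ⟨h, Finset.mem_filter.mpr ⟨Finset.mem_univ _, hh⟩, rfl⟩
      · rintro ⟨h, hh, rfl⟩
        exact ⟨h, rfl, (Finset.mem_filter.mp hh).2⟩))]
    simp
  rw [h1, ← Finset.sum_filter, ← Finset.sum_fiberwise_of_maps_to (t := S)
    (g := ConjClasses.mk) (fun h hh => Finset.mem_image_of_mem _ hh)]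
  rw [Finset.sum_congr rfl (g := fun _ => Nat.card H), Finset.sum_const, smul_eq_mul]
  intro C hC
  obtain ⟨h₀, hh₀, rfl⟩ := Finset.mem_image.mp hC
  have hp₀ := (Finset.mem_filter.mp hh₀).2
  have e1 : (Finset.univ.filter p).filter (fun h => ConjClasses.mk h = ConjClasses.mk h₀)
      = Finset.univ.filter (IsConj h₀) := by
    ext h
    simp only [Finset.mem_filter, Finset.mem_univ, true_and, ConjClasses.mk_eq_mk_iff_isConj]
    constructor
    · rintro ⟨-, h2⟩
      exact h2.symm
    · intro h2
      obtain ⟨y, hy⟩ := isConj_iff.mp h2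
      exact ⟨hy ▸ hp h₀ y hp₀, h2.symm⟩
  rw [e1]
  have e2 : ∀ h ∈ Finset.univ.filter (IsConj h₀),
      Nat.card (Subgroup.centralizer ({h} : Set H))
        = Nat.card (Subgroup.centralizer ({h₀} : Set H)) := by
    intro h hh
    have h2 := (Finset.mem_filter.mp hh).2
    have e3 : Finset.univ.filter (IsConj h) = Finset.univ.filter (IsConj h₀) := by
      ext z
      simp only [Finset.mem_filter, Finset.mem_univ, true_and]
      exact ⟨fun h3 => h2.trans h3, fun h3 => h2.symm.trans h3⟩
    have e4 := Helper7.card_filter_isConj h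
    have e5 := Helper7.card_filter_isConj h₀
    rw [e3, e5] at e4
    have e6 := (Subgroup.centralizer ({h} : Set H)).card_mul_index
    have e7 := (Subgroup.centralizer ({h₀} : Set H)).card_mul_index
    rw [← e4, ← e7] at e6
    exact Nat.eq_of_mul_eq_mul_right
      (Nat.pos_of_ne_zero (Subgroup.index_ne_zero_of_finite)) e6
  rw [Finset.sum_congr rfl e2, Finset.sum_const, smul_eq_mul, Helper7.card_filter_isConj, mul_comm]
  exact Subgroup.card_mul_index _

end Cfsg.Agent.Lib.Helper25
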