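import Cfsg.Agent.Lib.Helper25.CopAct1

set_option autoImplicit false

namespace Cfsg.Agent.Lib.Helper25

open scoped ComplexConjugate
open Cfsg

universe u

theorem classInner_irrPerm {N : Type u} [Group N] [Fintype N] (α : MulAut N) {f : N → ℂ}
    (hf : ∀ x, f (α x) = f x) (φ : IrrCharacter N) :
    classInner f ((irrPerm N α φ : IrrCharacter N) : N → ℂ) = classInner f (φ : N → ℂ) := by
  have h1 := classInner_comp_mulEquiv (α⁻¹ : MulAut N) f (φ : N → ℂ)
  rw [← h1]
  congr 1
  funext x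
  have := hf ((α⁻¹ : MulAut N) x)
  rw [← this]
  simp

theorem exists_inv_below {𝒜 : Type*} [Group 𝒜] [Finite 𝒜] {G : Type u} [Group G] [Finite G]
    (a : 𝒜 →* MulAut G) (N : Subgroup G) [hN : N.Normal] [Fintype N]
    (hst : ∀ s l, a s l ∈ N ↔ l ∈ N) (hcop : (Nat.card 𝒜).Coprime N.index)
    (hsolv : Group.IsSolvable 𝒜 ∨ Group.IsSolvable (G ⧸ N)) {χ : G → ℂ} (hχ : IsIrrCharacter G χ)
    (hinv : ∀ s g, χ (a s g) = χ g) :
    ∃ θ : IrrCharacter N, classInner (fun n : N => χ n) (θ : N → ℂ) ≠ 0 ∧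
      ∀ s (n : N), (θ : N → ℂ) (restrictAutHom a N hst s n) = (θ : N → ℂ) n := by
  classical
  cases nonempty_fintype G
  have := Helper2.finite_irrCharacter (G := N)
  have hχc := Helper7.isCharacter_of_irr hχ
  have hcf := Helper7.isClassFunction_of_isCharacter hχc
  set b := restrictAutHom a N hst with hb
  set c : G →* MulAut N := MulAut.conjNormal with hc
  have hcapp : ∀ (g : G) (n : N), ((c g n : N) : G) = g * n * g⁻¹ := fun g n => rfl
  set f := (irrPerm N).comp c with hf
  have hNker : N ≤ f.ker := by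
    intro n hn
    rw [MonoidHom.mem_ker]
    ext φ x
    rw [hf, MonoidHom.comp_apply, irrPerm_apply, ← map_inv]
    have h1 := Helper7.isClassFunction_of_isCharacter (Helper7.isCharacter_of_irr φ.2) x
      (⟨n, hn⟩⁻¹ : N)
    rw [Equiv.Perm.one_apply, ← h1]
    congr 1
  have key := glauberman_perm ((irrPerm N).comp b).range f.range ?_ ?_ ?_
    {θ : IrrCharacter N | classInner (fun n : N => χ n) (θ : N → ℂ) ≠ 0} ?_ ?_ ?_ ?_
  · obtain ⟨θ, hθX, hθ⟩ := key
    exact ⟨θ, hθX, (irrPerm_fixed_iff b θ).mp hθ⟩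
  · rintro _ ⟨s, rfl⟩ _ ⟨g, rfl⟩
    refine ⟨a s g, ?_⟩
    rw [hf, MonoidHom.comp_apply, MonoidHom.comp_apply, MonoidHom.comp_apply, ← map_inv,
      ← map_mul, ← map_mul]
    congr 1
    ext n
    rw [hcapp, MulAut.mul_apply, MulAut.mul_apply, hb, restrictAutHom_coe, hcapp, map_mul, map_mul,
      map_inv, ← restrictAutHom_coe a N hst s]
    simp
  · refine Nat.Coprime.coprime_dvd_left (Subgroup.card_range_dvd _) ?_
    refine Nat.Coprime.coprime_dvd_right ?_ hcop
    rw [← Subgroup.index_ker]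
    exact Subgroup.index_dvd_of_le hNker
  · rcases hsolv with h | h
    · left
      exact Group.isSolvable_of_surjective (MonoidHom.rangeRestrict_surjective _)
    · right
      have hk : N ≤ f.rangeRestrict.ker := by
        rw [MonoidHom.ker_rangeRestrict]
        exact hNker
      refine Group.isSolvable_of_surjective (f := QuotientGroup.lift N f.rangeRestrict hk) ?_
      intro y
      obtain ⟨g, rfl⟩ := MonoidHom.rangeRestrict_surjective f y
      exact ⟨(g : G ⧸ N), rfl⟩
  · have hr0 : (fun l : N => χ l) ≠ 0 := by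
      intro h0
      exact Helper7.irr_apply_one_ne_zero hχ (congrFun h0 1)
    obtain ⟨φ, hφ, hne⟩ := Helper2.IsCharacter.exists_constituent
      (Helper7.isCharacter_restrict hχc N) hr0
    exact ⟨⟨φ, hφ⟩, hne⟩
  · rintro _ ⟨s, rfl⟩ x hx
    rw [Set.mem_setOf_eq, MonoidHom.comp_apply, classInner_irrPerm]
    · exact hx
    · intro n
      rw [hb, restrictAutHom_coe, hinv]
  · rintro _ ⟨g, rfl⟩ x hx
    rw [Set.mem_setOf_eq, hf, MonoidHom.comp_apply, classInner_irrPerm]
    · exact hx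
    · intro n
      rw [hcapp]
      exact hcf n g
  · intro x hx y hy
    obtain ⟨g, hg⟩ : ∃ g : G, (y : N → ℂ) = conjFun N (x : N → ℂ) g := by
      by_contra hcon
      exact hy (classInner_restrict_eq_zero_of_not_conj N hχ x.2 y.2 hx hcon)
    refine ⟨_, ⟨g⁻¹, rfl⟩, ?_⟩
    apply Subtype.ext
    rw [hg]
    funext n
    rw [hf, MonoidHom.comp_apply, irrPerm_apply, ← map_inv, inv_inv, conjFun_apply]
    rfl

end Cfsg.Agent.Lib.Helper25
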