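import Mathlib
import Cfsg.Agent.Lib.Helper25.Glaub15
import Cfsg.Agent.Lib.Helper25.CliffordCorr
import Cfsg.Agent.Lib.Helper25.IndChar

set_option autoImplicit false

namespace Cfsg.Agent.Lib.Helper25

open Cfsg
open scoped ComplexConjugate

universe u

variable {Γ : Type u} [Group Γ]

/-- A nonzero multiplicity of an irreducible character of a normal subgroup divides the degree. -/
theorem mult_dvd_degree {D : Type u} [Group D] [Finite D] (H : Subgroup D) [hH : H.Normal]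
    [Fintype H] {β : D → ℂ} (hβ : IsIrrCharacter D β) {θ : H → ℂ} (hθ : IsIrrCharacter H θ)
    {r d : ℕ} (hr : classInner (fun n : H => β n) θ = r) (hr0 : r ≠ 0) (hd : β 1 = d) :
    r ∣ d := by
  classical
  cases nonempty_fintype D
  have hconst : classInner (fun n : H => β n) θ ≠ 0 := by rw [hr]; exact_mod_cast hr0
  have h := congrFun (clifford' H hβ hθ hconst) 1
  simp only [OneMemClass.coe_one, Pi.smul_apply, Finset.sum_apply, smul_eq_mul] at h
  have hk : ∃ k : ℕ, ∑ ψ ∈ Finset.univ.image (conjFun H θ), ψ 1 = (k : ℂ) := by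
    have : ∀ ψ ∈ Finset.univ.image (conjFun H θ), ∃ k : ℕ, ψ 1 = (k : ℂ) := by
      intro ψ hψ
      obtain ⟨g, -, rfl⟩ := Finset.mem_image.1 hψ
      obtain ⟨k, -, hk⟩ := Helper7.irr_apply_one (isIrrCharacter_conjFun H hθ g)
      exact ⟨k, hk⟩
    choose! k hk using this
    exact ⟨∑ ψ ∈ Finset.univ.image (conjFun H θ), k ψ, by
      rw [Nat.cast_sum]; exact Finset.sum_congr rfl hk⟩
  obtain ⟨k, hk⟩ := hk
  rw [hk, hr, hd] at h
  exact ⟨k, by exact_mod_cast h⟩

theorem mult_dvd_card [Finite Γ] (D E : Subgroup Γ) [Fintype E] (hED : E ≤ D)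
    (hn : ∀ d ∈ D, ∀ e ∈ E, d * e * d⁻¹ ∈ E) {β : D → ℂ} (hβ : IsIrrCharacter D β) {ξ : E → ℂ}
    (hξ : IsIrrCharacter E ξ) {r : ℕ} (hr : classInner (β ∘ Subgroup.inclusion hED) ξ = r)
    (hr0 : r ≠ 0) : r ∣ Nat.card D := by
  classical
  have hnorm : (E.subgroupOf D).Normal := by
    constructor
    intro e he d
    rw [Subgroup.mem_subgroupOf] at he ⊢
    exact hn d d.2 e he
  let _ : Fintype (E.subgroupOf D) := Fintype.ofFinite _
  obtain ⟨d, -, hd⟩ := Helper7.irr_apply_one hβ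
  have h1 := classInner_subgroupOf E hED (β ∘ Subgroup.inclusion hED) ξ
  rw [hr] at h1
  have h2 := mult_dvd_degree (E.subgroupOf D) hβ (isIrrCharacter_subgroupOf E hED hξ) h1 hr0 hd
  have h3 := Helper7.charDegree_dvd_card ⟨β, hβ⟩
  have h4 : charDegree β = d := by simp [charDegree, hd]
  rw [h4] at h3
  exact h2.trans h3

theorem exists_irr_over [Finite Γ] (G N : Subgroup Γ) [Fintype N] (hNG : N ≤ G) {θ : N → ℂ}
    (hθ : IsIrrCharacter N θ) :
    ∃ χ : G → ℂ, IsIrrCharacter G χ ∧ classInner (χ ∘ Subgroup.inclusion hNG) θ ≠ 0 := by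
  classical
  let _ : Fintype G := Fintype.ofFinite _
  let _ : Fintype (N.subgroupOf G) := Fintype.ofFinite _
  have hθ' := isIrrCharacter_subgroupOf N hNG hθ
  set θ' : N.subgroupOf G → ℂ := fun x => θ ⟨(x : G), Subgroup.mem_subgroupOf.mp x.2⟩ with hθ'def
  have hind := isCharacter_indFun (N.subgroupOf G) θ' (Helper7.isCharacter_of_irr hθ')
  have hne : indFun (N.subgroupOf G) θ' ≠ 0 := by
    intro h
    have h1 := indFun_one (N.subgroupOf G) θ'
    rw [h] at h1
    have h2 : ((N.subgroupOf G).index : ℂ) ≠ 0 := by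
      exact_mod_cast Subgroup.index_ne_zero_of_finite
    exact (mul_ne_zero h2 (Helper7.irr_apply_one_ne_zero hθ')) h1.symm
  obtain ⟨χ, hχ, hc⟩ := exists_irr_constituent hind hne
  refine ⟨χ, hχ, ?_⟩
  rw [frobenius_reciprocity _ _ _ (Helper7.isClassFunction_of_isCharacter
    (Helper7.isCharacter_of_irr hχ))] at hc
  have h1 := classInner_subgroupOf N hNG (χ ∘ Subgroup.inclusion hNG) θ
  rw [← h1]
  intro h0
  apply hc
  rw [← Helper7.classInner_conj_symm]
  have : classInner (fun h : N.subgroupOf G => χ h) θ' = 0 := h0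
  rw [this, map_zero]

theorem exists_inv_over_aux [Finite Γ] (S : Subgroup Γ) (hsolv : Group.IsSolvable S) :
    ∀ (n : ℕ) (G : Subgroup Γ), Nat.card G = n → (∀ s ∈ S, ∀ g ∈ G, s * g * s⁻¹ ∈ G) →
    (Nat.card G).Coprime (Nat.card S) → ∀ (N : Subgroup Γ) [Fintype N] (hNG : N ≤ G),
    (∀ g ∈ G, ∀ x ∈ N, g * x * g⁻¹ ∈ N) → (∀ s ∈ S, ∀ x ∈ N, s * x * s⁻¹ ∈ N) →
    ∀ θ : N → ℂ, IsIrrCharacter N θ → InvUnder N S θ →
    ∃ χ : G → ℂ, IsIrrCharacter G χ ∧ classInner (χ ∘ Subgroup.inclusion hNG) θ ≠ 0 ∧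
      InvUnder G S χ := by
  classical
  intro n
  induction n using Nat.strong_induction_on with
  | _ n ih =>
  intro G hn hnorm hcop N _ hNG hNn hNS θ hθ hθi
  by_cases hc : S ≤ Subgroup.centralizer (G : Set Γ)
  · obtain ⟨χ, hχ, h0⟩ := exists_irr_over G N hNG hθ
    refine ⟨χ, hχ, h0, ?_⟩
    intro s hs g g' hg
    have h2 := Subgroup.mem_centralizer_iff.1 (hc hs) g g.2
    have : g' = g := Subtype.ext (by rw [hg, ← h2]; group)
    rw [this]
  obtain ⟨p, M, hp, hpS, hMS, hMn, hact, hnc⟩ := exists_normal_actsP G S hsolv hnorm hc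
  have hMsolv : Group.IsSolvable M :=
    Group.isSolvable_of_isSolvable_injective (Subgroup.inclusion_injective hMS)
  set D : Subgroup Γ := G ⊓ Subgroup.centralizer (M : Set Γ) with hD
  set E : Subgroup Γ := N ⊓ Subgroup.centralizer (M : Set Γ) with hE
  have hDG : D ≤ G := inf_le_left
  have hEN : E ≤ N := inf_le_left
  have hED : E ≤ D := inf_le_inf_right _ hNG
  let _ : Fintype D := Fintype.ofFinite _
  let _ : Fintype E := Fintype.ofFinite _
  have hcopp : (Nat.card G).Coprime p := Nat.Coprime.coprime_dvd_right hpS hcop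
  have hGM : GlaubP p (Subgroup.inclusion hDG) (InvUnder G M) :=
    glaub_pact hp G M hMsolv hact (fun s hs => hnorm s (hMS hs)) hcopp D hD hDG
  have hactN : ActsP p N M := fun s hs => by
    obtain ⟨k, hk⟩ := hact s hs
    exact ⟨k, fun g hg => hk g (hNG hg)⟩
  have hNM : GlaubP p (Subgroup.inclusion hEN) (InvUnder N M) :=
    glaub_pact hp N M hMsolv hactN (fun s hs => hNS s (hMS hs))
      (Nat.Coprime.coprime_dvd_left (Subgroup.card_dvd_of_le hNG) hcopp) E hE hEN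
  have hDn := conj_mem_inf_centralizer G S M hnorm hMn
  have hEn := conj_mem_inf_centralizer N S M hNS hMn
  obtain ⟨ξ, hξ, hcξ⟩ := hNM.ex θ hθ (hθi.mono hMS)
  have hξi : InvUnder E S ξ := GlaubP.down N S M E hEN hNS hEn hMS hNM hθ hξ hθi hcξ
  have hlt : Nat.card D < n := hn ▸ card_lt_of_not_centralize G M hnc
  have hEnD : ∀ d ∈ D, ∀ e ∈ E, d * e * d⁻¹ ∈ E := by
    intro d hd e he
    obtain ⟨hd1, hd2⟩ := mem_inf_centralizer.1 hd
    obtain ⟨he1, he2⟩ := mem_inf_centralizer.1 he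
    refine mem_inf_centralizer.2 ⟨hNn d hd1 e he1, fun m hm => ?_⟩
    have c1 : Commute m d := hd2 m hm
    have c2 : Commute m e := he2 m hm
    exact ((c1.mul_right c2).mul_right c1.inv_right).eq
  have hcopD : (Nat.card D).Coprime (Nat.card S) :=
    Nat.Coprime.coprime_dvd_left (Subgroup.card_dvd_of_le hDG) hcop
  obtain ⟨β, hβ, hβ0, hβi⟩ := ih _ hlt D rfl hDn hcopD E hED hEnD hEn ξ hξ hξi
  obtain ⟨χ, hχ, hχM, hcχ⟩ := hGM.surj β hβ
  have hχS : InvUnder G S χ := GlaubP.up G S M D hDG hnorm hDn hMn hGM hχ hβ hχM hcχ hβi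
  refine ⟨χ, hχ, ?_, hχS⟩
  have hχc := Helper7.isCharacter_of_irr hχ
  obtain ⟨X, hX⟩ := Helper7.classInner_char_nat
    (Helper7.isCharacter_comp_hom hχc ((Subgroup.inclusion hDG).comp (Subgroup.inclusion hED)))
    (Helper7.isCharacter_of_irr hξ)
  obtain ⟨r, hr⟩ := Helper7.classInner_char_nat
    (Helper7.isCharacter_comp_hom (Helper7.isCharacter_of_irr hβ) (Subgroup.inclusion hED))
    (Helper7.isCharacter_of_irr hξ)
  obtain ⟨m₀, hm₀, hpm₀⟩ := hcχ
  obtain ⟨q, hq⟩ := mult_comp (Subgroup.inclusion hDG) (Subgroup.inclusion hED) hχc hβ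
    (hGM.other hχ hχM hβ ⟨m₀, hm₀, hpm₀⟩) (Helper7.isCharacter_of_irr hξ) hX hm₀ hr
  have hr0 : r ≠ 0 := by
    rintro rfl
    apply hβ0
    rw [hr]; simp
  have hpr : ¬ p ∣ r := by
    intro h
    have h1 := h.trans (mult_dvd_card D E hED hEnD hβ hξ hr hr0)
    have h2 : (Nat.card D).Coprime p :=
      Nat.Coprime.coprime_dvd_left (Subgroup.card_dvd_of_le hDG) hcopp
    exact hp.one_lt.ne' (Nat.dvd_one.1 (h2 ▸ Nat.dvd_gcd h1 dvd_rfl))
  have hpX : ¬ p ∣ X := by
    intro h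
    rw [hq, Nat.dvd_add_left (dvd_mul_right _ _)] at h
    rcases hp.dvd_mul.1 h with h | h
    · exact hpm₀ h
    · exact hpr h
  obtain ⟨b, hb⟩ := Helper7.classInner_char_nat
    (Helper7.isCharacter_comp_hom hχc (Subgroup.inclusion hNG)) (Helper7.isCharacter_of_irr hθ)
  obtain ⟨c, hcc, hpc⟩ := hcξ
  have hψi : InvUnder N M (χ ∘ Subgroup.inclusion hNG) := by
    intro m hm x x' hx
    exact hχM m hm _ _ hx
  obtain ⟨q', hq'⟩ := mult_modEq_of_inv hp N M E hEN (fun s hs => hNS s (hMS hs)) hactN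
    (fun e he m hm => (mem_inf_centralizer.1 he).2 m hm) hNM
    (Helper7.isCharacter_comp_hom hχc (Subgroup.inclusion hNG)) hψi hθ (hθi.mono hMS) hξ
    ⟨c, hcc, hpc⟩
    (X := X) hX hb hcc
  rw [hb]
  intro hb0
  have : b = 0 := by exact_mod_cast hb0
  apply hpX
  rw [hq', this]
  simp

end Cfsg.Agent.Lib.Helper25
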