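import Cfsg.Agent.Lib.Helper25.CopAct2
import Cfsg.Agent.Lib.Helper25.Glaub16
import Cfsg.Agent.Lib.Helper25.DetExt

set_option autoImplicit false

namespace Cfsg.Agent.Lib.Helper25

open scoped ComplexConjugate
open Cfsg

universe u

/-- multiplication by linear characters as permutations of `Irr` -/
noncomputable def mulPerm (T : Type u) [Group T] : (T →* ℂˣ) →* Equiv.Perm (IrrCharacter T) where
  toFun f :=
    { toFun := fun ψ => ⟨fun t => (f t : ℂ) * (ψ : T → ℂ) t, isIrrCharacter_linear_mul f ψ.2⟩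
      invFun := fun ψ => ⟨fun t => ((f⁻¹ : T →* ℂˣ) t : ℂ) * (ψ : T → ℂ) t,
        isIrrCharacter_linear_mul f⁻¹ ψ.2⟩
      left_inv := fun ψ => Subtype.ext (by
        funext t
        simp)
      right_inv := fun ψ => Subtype.ext (by
        funext t
        simp) }
  map_one' := by
    ext ψ t
    simp
  map_mul' f g := by
    ext ψ t
    simp [mul_assoc]

theorem mulPerm_apply {T : Type u} [Group T] (f : T →* ℂˣ) (ψ : IrrCharacter T) (t : T) :
    ((mulPerm T f ψ : IrrCharacter T) : T → ℂ) t = (f t : ℂ) * (ψ : T → ℂ) t := rfl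

theorem indFun_aut_invariant {G : Type u} [Group G] [Fintype G] (T : Subgroup G) (α : MulAut G)
    (hst : ∀ l, α l ∈ T ↔ l ∈ T) {ψ : T → ℂ} (hψ : ∀ t : T, ψ (restrictAut T α hst t) = ψ t)
    (g : G) : indFun T ψ (α g) = indFun T ψ g := by
  rw [indFun_apply, indFun_apply]
  congr 1
  rw [← Equiv.sum_comp α.toEquiv]
  apply Finset.sum_congr rfl
  intro x _
  have e1 : (α.toEquiv x)⁻¹ * α g * α.toEquiv x = α (x⁻¹ * g * x) := by
    simp
  rw [e1]
  by_cases h : x⁻¹ * g * x ∈ T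
  · rw [extendByZero_mem T ψ h, extendByZero_mem T ψ ((hst _).2 h)]
    exact hψ ⟨_, h⟩
  · rw [extendByZero_not_mem T ψ h, extendByZero_not_mem T ψ (fun h' => h ((hst _).1 h'))]

theorem inertia_stable {𝒜 : Type*} [Group 𝒜] {G : Type u} [Group G]
    (a : 𝒜 →* MulAut G) (M : Subgroup G) [hM : M.Normal]
    (hst : ∀ s l, a s l ∈ M ↔ l ∈ M) {η : M → ℂ}
    (hinv : ∀ s (m : M), η (restrictAutHom a M hst s m) = η m) (s : 𝒜) (l : G) :
    a s l ∈ inertia M η ↔ l ∈ inertia M η := by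
  have key : ∀ (s : 𝒜) (l : G), l ∈ inertia M η → a s l ∈ inertia M η := by
    intro s l hl
    rw [mem_inertia] at hl ⊢
    intro m
    obtain ⟨m', rfl⟩ := (restrictAutHom a M hst s).surjective m
    have e : (⟨a s l * ((restrictAutHom a M hst s m' : M) : G) * (a s l)⁻¹,
        hM.conj_mem _ (restrictAutHom a M hst s m').2 _⟩ : M)
        = restrictAutHom a M hst s ⟨l * m' * l⁻¹, hM.conj_mem m' m'.2 l⟩ := by
      apply Subtype.ext
      show a s l * a s m' * (a s l)⁻¹ = a s (l * m' * l⁻¹)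
      simp
    rw [e, hinv, hinv, hl]
  refine ⟨fun h => ?_, key s l⟩
  have := key s⁻¹ _ h
  simpa using this

end Cfsg.Agent.Lib.Helper25
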