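import Cfsg.Agent.Lib.Helper25.CopAct3

set_option autoImplicit false

namespace Cfsg.Agent.Lib.Helper25

open scoped ComplexConjugate
open Cfsg

universe u

/-- linear characters trivial on a subgroup -/
def linKer {T : Type u} [Group T] (M : Subgroup T) : Subgroup (T →* ℂˣ) where
  carrier := {f | M ≤ f.ker}
  one_mem' := by
    intro m _
    simp
  mul_mem' := by
    intro f g hf hg m hm
    have h1 : f m = 1 := hf hm
    have h2 : g m = 1 := hg hm
    rw [MonoidHom.mem_ker, MonoidHom.mul_apply, h1, h2, one_mul]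
  inv_mem' := by
    intro f hf m hm
    have h1 : f m = 1 := hf hm
    rw [MonoidHom.mem_ker, MonoidHom.inv_apply, h1, inv_one]

theorem mem_linKer {T : Type u} [Group T] (M : Subgroup T) (f : T →* ℂˣ) :
    f ∈ linKer M ↔ M ≤ f.ker := Iff.rfl

theorem pow_index_linKer {T : Type u} [Group T] (M : Subgroup T) [M.Normal] {f : T →* ℂˣ}
    (hf : f ∈ linKer M) : f ^ M.index = 1 := by
  ext t
  rw [MonoidHom.pow_apply, ← map_pow]
  have : f (t ^ M.index) = 1 := hf (Subgroup.pow_index_mem M t)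
  rw [this]
  rfl

theorem exists_inv_above_abelian {𝒜 : Type*} [Group 𝒜] [Finite 𝒜] {G : Type u} [Group G]
    [Finite G] (a : 𝒜 →* MulAut G) (M : Subgroup G) [hM : M.Normal] [Fintype M]
    (hst : ∀ s l, a s l ∈ M ↔ l ∈ M) (hab : ∀ x y : G, x * y * x⁻¹ * y⁻¹ ∈ M)
    (hcop : (Nat.card 𝒜).Coprime M.index) {η : M → ℂ} (hη : IsIrrCharacter M η)
    (hinv : ∀ s (m : M), η (restrictAutHom a M hst s m) = η m) :
    ∃ χ : G → ℂ, IsIrrCharacter G χ ∧ classInner (fun m : M => χ m) η ≠ 0 ∧
      ∀ s g, χ (a s g) = χ g := by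
  classical
  cases nonempty_fintype G
  have hcfη := Helper7.isClassFunction_of_isCharacter (Helper7.isCharacter_of_irr hη)
  set T := inertia M η with hT
  have hMT : M ≤ T := le_inertia M hcfη
  have hstT : ∀ s l, a s l ∈ T ↔ l ∈ T := inertia_stable a M hst hinv
  have : Fintype T := Fintype.ofFinite _
  have : Fintype (M.subgroupOf T) := Fintype.ofFinite _
  have := Helper2.finite_irrCharacter (G := T)
  set b := restrictAutHom a T hstT with hb
  set K : Subgroup (Equiv.Perm (IrrCharacter T)) := (linKer (M.subgroupOf T)).map (mulPerm T)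
    with hK
  have key := glauberman_perm ((irrPerm T).comp b).range K ?_ ?_ ?_
    {ψ : IrrCharacter T | classInner (fun m : M => (ψ : T → ℂ) ⟨m, hMT m.2⟩) η ≠ 0} ?_ ?_ ?_ ?_
  · obtain ⟨ψ, hψX, hψ⟩ := key
    have hψ' := (irrPerm_fixed_iff b ψ).mp hψ
    have hχ : IsIrrCharacter G (indFun T (ψ : T → ℂ)) :=
      isIrrCharacter_indFun_of_inertia M T hη (mem_inertia M η) hMT ψ.2 hψX
    refine ⟨_, hχ, ?_, ?_⟩
    · have hcf := Helper7.isClassFunction_of_isCharacter (Helper7.isCharacter_of_irr hχ)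
      have c1 : classInner (fun t : T => indFun T (ψ : T → ℂ) t) (ψ : T → ℂ) ≠ 0 := by
        have h1 : classInner (indFun T (ψ : T → ℂ)) (indFun T (ψ : T → ℂ)) = 1 :=
          Helper7.classInner_irr_self hχ
        rw [frobenius_reciprocity T _ _ hcf] at h1
        rw [← classInner_conj_symm, h1]
        simp
      rw [← (clifford_corr_core M T hη (mem_inertia M η) hMT ψ.2 hψX hχ c1).2]
      exact hψX
    · intro s g
      exact indFun_aut_invariant T (a s) (hstT s) (hψ' s) g
  · -- normalisation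
    rintro _ ⟨s, rfl⟩ _ ⟨f, hf, rfl⟩
    refine ⟨f.comp ((b s)⁻¹ : MulAut T).toMonoidHom, ?_, ?_⟩
    · intro m hm
      rw [MonoidHom.mem_ker, MonoidHom.comp_apply]
      apply hf
      rw [Subgroup.mem_subgroupOf] at hm ⊢
      show (((b s)⁻¹ : MulAut T) m : G) ∈ M
      rw [← map_inv, hb, restrictAutHom_coe, hst]
      exact hm
    · ext ψ t
      rw [mulPerm_apply]
      show _ = ((irrPerm T (b s) (mulPerm T f ((irrPerm T (b s))⁻¹ ψ)) : IrrCharacter T) : T → ℂ) t
      rw [irrPerm_apply, mulPerm_apply, ← map_inv (irrPerm T), irrPerm_apply, inv_inv]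
      simp
  · -- coprimality
    refine Nat.Coprime.coprime_dvd_left (Subgroup.card_range_dvd _) ?_
    apply Nat.coprime_of_dvd
    intro q hq hq1 hq2
    have := Fact.mk hq
    obtain ⟨k, hk⟩ := exists_prime_orderOf_dvd_card' q hq2
    obtain ⟨f, hf, hfk⟩ := k.2
    have h1 : k ^ (M.subgroupOf T).index = 1 := by
      apply Subtype.ext
      rw [Subgroup.coe_pow, ← hfk, ← map_pow, pow_index_linKer _ hf, map_one]
      rfl
    have h2 : q ∣ (M.subgroupOf T).index := hk ▸ orderOf_dvd_of_pow_eq_one h1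
    have h3 : (M.subgroupOf T).index ∣ M.index := by
      have := Subgroup.relIndex_mul_index hMT
      exact ⟨_, this.symm⟩
    exact hq.one_lt.ne' (Nat.dvd_one.1 (hcop ▸ Nat.dvd_gcd hq1 (h2.trans h3)))
  · right
    apply Group.isSolvable_of_comm
    rintro ⟨_, f, hf, rfl⟩ ⟨_, g, hg, rfl⟩
    apply Subtype.ext
    show mulPerm T f * mulPerm T g = mulPerm T g * mulPerm T f
    rw [← map_mul, ← map_mul]
    exact congrArg _ (mul_comm f g)
  · obtain ⟨ψ, hψ, h0⟩ := exists_irr_over T M hMT hη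
    exact ⟨⟨ψ, hψ⟩, h0⟩
  · rintro _ ⟨s, rfl⟩ ψ hψ
    rw [Set.mem_ofPred_eq] at hψ ⊢
    have h1 := classInner_comp_mulEquiv (restrictAutHom a M hst s)
      (fun m : M => ((((irrPerm T).comp b) s ψ : IrrCharacter T) : T → ℂ) ⟨m, hMT m.2⟩) η
    rw [← h1]
    convert hψ using 2
    · funext m
      rw [MonoidHom.comp_apply, irrPerm_apply]
      have e : (⟨((restrictAutHom a M hst s m : M) : G), hMT (restrictAutHom a M hst s m).2⟩ : T)
          = b s ⟨m, hMT m.2⟩ := Subtype.ext rfl
      rw [e]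
      simp
    · funext m
      exact hinv s m
  · rintro _ ⟨f, hf, rfl⟩ ψ hψ
    rw [Set.mem_ofPred_eq] at hψ ⊢
    convert hψ using 2
    funext m
    rw [mulPerm_apply]
    have : f ⟨m, hMT m.2⟩ = 1 := hf (Subgroup.mem_subgroupOf.mpr m.2)
    rw [this, Units.val_one, one_mul]
  · intro x hx y hy
    rw [Set.mem_ofPred_eq] at hx hy
    have hθ' := isIrrCharacter_subgroupOf M hMT hη
    obtain ⟨f, hf, hfy⟩ := exists_linear_mul_of_abelian_quotient' (M.subgroupOf T)
      (fun u v => Subgroup.mem_subgroupOf.mpr (hab u v)) hθ' (by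
        intro t
        funext m
        rw [conjFun_apply]
        exact (mem_inertia M η t).mp t.2 ⟨m, Subgroup.mem_subgroupOf.mp m.2⟩) y.2 x.2
      (by
        have := classInner_subgroupOf M hMT (fun m : M => (y : T → ℂ) ⟨m, hMT m.2⟩) η
        rw [← this] at hy
        exact hy)
      (by
        have := classInner_subgroupOf M hMT (fun m : M => (x : T → ℂ) ⟨m, hMT m.2⟩) η
        rw [← this] at hx
        exact hx)
    refine ⟨_, ⟨f, hf, rfl⟩, ?_⟩
    apply Subtype.ext
    rw [hfy]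
    rfl

end Cfsg.Agent.Lib.Helper25
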