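import Cfsg.Agent.Lib.Helper25.CopAct4

set_option autoImplicit false

namespace Cfsg.Agent.Lib.Helper25

open scoped ComplexConjugate
open Cfsg

universe u

theorem constituent_trans {A B : Type u} [Group A] [Group B] [Fintype A] [Fintype B] (i : A →* B)
    {f : B → ℂ} (hf : IsCharacter B f) {η : B → ℂ} (hη : IsIrrCharacter B η)
    (h1 : classInner f η ≠ 0) {θ : A → ℂ} (hθ : IsIrrCharacter A θ)
    (h2 : classInner (fun x => η (i x)) θ ≠ 0) : classInner (fun x => f (i x)) θ ≠ 0 := by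
  have hΔ := isCharacter_sub_irr hf hη h1
  have hθc := Helper7.isCharacter_of_irr hθ
  obtain ⟨n₁, hn₁⟩ := Helper7.classInner_char_nat
    (Helper7.isCharacter_comp_hom (Helper7.isCharacter_of_irr hη) i) hθc
  obtain ⟨n₂, hn₂⟩ := Helper7.classInner_char_nat (Helper7.isCharacter_comp_hom hΔ i) hθc
  have e : (fun x => f (i x)) = (η ∘ i) + ((f - η) ∘ i) := by
    funext x
    simp
  rw [e, classInner_add_left, hn₁, hn₂]
  have h3 : n₁ ≠ 0 := by
    rintro rfl
    apply h2
    have : (fun x => η (i x)) = η ∘ i := rfl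
    rw [this, hn₁, Nat.cast_zero]
  have : n₁ + n₂ ≠ 0 := by omega
  exact_mod_cast this

theorem sup_stable {G : Type u} [Group G] (α : MulAut G) (N D : Subgroup G)
    (hN : ∀ l, α l ∈ N ↔ l ∈ N) (hD : ∀ l, α l ∈ D ↔ l ∈ D) (l : G) :
    α l ∈ N ⊔ D ↔ l ∈ N ⊔ D := by
  have e1 : N.comap α.toMonoidHom = N := by
    ext x
    exact hN x
  have e2 : D.comap α.toMonoidHom = D := by
    ext x
    exact hD x
  have e3 : (N ⊔ D).comap α.toMonoidHom = N ⊔ D := by
    rw [Subgroup.comap_equiv_eq_map_symm', Subgroup.map_sup, ← Subgroup.comap_equiv_eq_map_symm',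
      ← Subgroup.comap_equiv_eq_map_symm', e1, e2]
  conv_rhs => rw [← e3]
  rfl

theorem comm_mem_of_sup {G : Type u} [Group G] (N D : Subgroup G) [hN : N.Normal]
    (h : ⁅D, D⁆ ≤ N) {x y : G} (hx : x ∈ N ⊔ D) (hy : y ∈ N ⊔ D) : x * y * x⁻¹ * y⁻¹ ∈ N := by
  have hmap : (N ⊔ D).map (QuotientGroup.mk' N) = D.map (QuotientGroup.mk' N) := by
    rw [Subgroup.map_sup]
    have : N.map (QuotientGroup.mk' N) = ⊥ := by
      rw [Subgroup.map_eq_bot_iff, QuotientGroup.ker_mk']
    rw [this, bot_sup_eq]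
  obtain ⟨d, hd, hdx⟩ : QuotientGroup.mk' N x ∈ D.map (QuotientGroup.mk' N) := by
    rw [← hmap]
    exact Subgroup.mem_map_of_mem _ hx
  obtain ⟨d', hd', hdy⟩ : QuotientGroup.mk' N y ∈ D.map (QuotientGroup.mk' N) := by
    rw [← hmap]
    exact Subgroup.mem_map_of_mem _ hy
  have h1 : d * d' * d⁻¹ * d'⁻¹ ∈ N := h (Subgroup.commutator_mem_commutator hd hd')
  rw [← QuotientGroup.ker_mk' N, MonoidHom.mem_ker] at h1 ⊢
  rw [map_mul, map_mul, map_mul, map_inv, map_inv] at h1 ⊢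
  rw [← hdx, ← hdy]
  exact h1

theorem exists_inv_above_solvable {𝒜 : Type*} [Group 𝒜] [Finite 𝒜] {G : Type u} [Group G]
    [Finite G] (a : 𝒜 →* MulAut G) : ∀ (k : ℕ) (N : Subgroup G) [hN : N.Normal] [Fintype N]
    (hst : ∀ s l, a s l ∈ N ↔ l ∈ N), derivedSeries G k ≤ N →
    (Nat.card 𝒜).Coprime N.index → ∀ θ : N → ℂ, IsIrrCharacter N θ →
    (∀ s (n : N), θ (restrictAutHom a N hst s n) = θ n) →
    ∃ χ : G → ℂ, IsIrrCharacter G χ ∧ classInner (fun n : N => χ n) θ ≠ 0 ∧
      ∀ s g, χ (a s g) = χ g := by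
  classical
  cases nonempty_fintype G
  intro k
  induction k with
  | zero =>
    intro N hN _ hst hD hcop θ hθ hinv
    have htop : ∀ g : G, g ∈ N := fun g => hD (by simp)
    let e : G ≃* N :=
      { toFun := fun g => ⟨g, htop g⟩
        invFun := fun n => n
        left_inv := fun _ => rfl
        right_inv := fun _ => rfl
        map_mul' := fun _ _ => rfl }
    refine ⟨θ ∘ e, isIrrCharacter_comp_equiv e hθ, ?_, ?_⟩
    · have : (fun n : N => (θ ∘ e) n) = θ := by
        funext n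
        rfl
      rw [this, Helper7.classInner_irr_self hθ]
      exact one_ne_zero
    · intro s g
      exact hinv s ⟨g, htop g⟩
  | succ k ih =>
    intro N hN _ hst hD hcop θ hθ hinv
    set D := derivedSeries G k with hDdef
    have hDD : ⁅D, D⁆ ≤ N := hD
    have hDst : ∀ s l, a s l ∈ D ↔ l ∈ D := by
      intro s l
      have := (derivedSeries_characteristic G k).fixed (a s)
      conv_rhs => rw [hDdef, ← this]
      rfl
    set N₁ := N ⊔ D with hN₁
    have hNN₁ : N ≤ N₁ := le_sup_left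
    have hst₁ : ∀ s l, a s l ∈ N₁ ↔ l ∈ N₁ := fun s l =>
      sup_stable (a s) N D (hst s) (hDst s) l
    have : Fintype N₁ := Fintype.ofFinite _
    have : Fintype (N.subgroupOf N₁) := Fintype.ofFinite _
    have hstM : ∀ (s : 𝒜) (l : N₁), restrictAutHom a N₁ hst₁ s l ∈ N.subgroupOf N₁ ↔
        l ∈ N.subgroupOf N₁ := by
      intro s l
      rw [Subgroup.mem_subgroupOf, Subgroup.mem_subgroupOf, restrictAutHom_coe]
      exact hst s l
    obtain ⟨η, hη, hη0, hηinv⟩ := exists_inv_above_abelian (restrictAutHom a N₁ hst₁)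
      (N.subgroupOf N₁) hstM
      (fun x y => Subgroup.mem_subgroupOf.mpr (comm_mem_of_sup N D hDD x.2 y.2))
      (Nat.Coprime.coprime_dvd_right ⟨_, (Subgroup.relIndex_mul_index hNN₁).symm⟩ hcop)
      (isIrrCharacter_subgroupOf N hNN₁ hθ) (by
        intro s m
        have := hinv s ⟨m, Subgroup.mem_subgroupOf.mp m.2⟩
        rw [← this]
        rfl)
    obtain ⟨χ, hχ, hχ0, hχinv⟩ := ih N₁ hst₁ le_sup_right
      (Nat.Coprime.coprime_dvd_right (Subgroup.index_dvd_of_le hNN₁) hcop) η hη hηinv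
    refine ⟨χ, hχ, ?_, hχinv⟩
    have h2 := classInner_subgroupOf N hNN₁ (fun n : N => η ⟨n, hNN₁ n.2⟩) θ
    exact constituent_trans (Subgroup.inclusion hNN₁)
      (Helper7.isCharacter_restrict (Helper7.isCharacter_of_irr hχ) N₁) hη hχ0 hθ
      (by
        have h3 : classInner (fun n : N => η ⟨n, hNN₁ n.2⟩) θ ≠ 0 := by
          rw [← h2]
          exact hη0
        exact h3)

end Cfsg.Agent.Lib.Helper25
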