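import Cfsg.Agent.Lib.Helper25.CopAct5

set_option autoImplicit false

namespace Cfsg.Agent.Lib.Helper25

open scoped ComplexConjugate
open Cfsg

universe u

/-- solvability hypothesis in elementary form -/
def SolvHyp {Γ : Type u} [Group Γ] (G N : Subgroup Γ) : Prop :=
  (∃ k, derivedSeries Γ k ≤ G) ∨ (∃ k, ∀ y ∈ derivedSeries G k, (y : Γ) ∈ N)

/-- there is a `Γ`-invariant irreducible character of `G` over `θ` -/
def HasInvAbove {Γ : Type u} [Group Γ] (G N : Subgroup Γ) [hG : G.Normal] [Fintype N]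
    (hNG : N ≤ G) (θ : N → ℂ) : Prop :=
  ∃ χ : G → ℂ, IsIrrCharacter G χ ∧ classInner (fun n : N => χ ⟨n, hNG n.2⟩) θ ≠ 0 ∧
    ∀ (x : Γ) (g : G), χ ⟨x * g * x⁻¹, hG.conj_mem g g.2 x⟩ = χ g

theorem hasInvAbove_of_coprime {Γ : Type u} [Group Γ] [Finite Γ] (G N : Subgroup Γ)
    [hG : G.Normal] [hN : N.Normal] [Fintype N] (hNG : N ≤ G)
    (hcop : (Nat.card G).Coprime G.index) (hs : SolvHyp G N) {θ : N → ℂ}
    (hθ : IsIrrCharacter N θ)
    (hinv : ∀ (x : Γ) (n : N), θ ⟨x * n * x⁻¹, hN.conj_mem n n.2 x⟩ = θ n) :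
    HasInvAbove G N hNG θ := by
  classical
  obtain ⟨S, hS⟩ := Subgroup.exists_right_complement'_of_coprime hcop
  have hcardS : G.index = Nat.card S := hS.symm.index_eq_card
  have hnorm : ∀ s ∈ S, ∀ g ∈ G, s * g * s⁻¹ ∈ G := fun s _ g hg => hG.conj_mem g hg s
  have hNS : ∀ s ∈ S, ∀ g ∈ N, s * g * s⁻¹ ∈ N := fun s _ g hg => hN.conj_mem g hg s
  have hθi : InvUnder N S θ := by
    intro s _ g g' hg
    have : g' = ⟨s * g * s⁻¹, hN.conj_mem g g.2 s⟩ := Subtype.ext hg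
    rw [this, hinv]
  have hfin : ∀ χ : G → ℂ, IsIrrCharacter G χ → InvUnder G S χ →
      ∀ (x : Γ) (g : G), χ ⟨x * g * x⁻¹, hG.conj_mem g g.2 x⟩ = χ g := by
    intro χ hχ hi x g
    obtain ⟨⟨a, s⟩, hx⟩ := hS.2 x
    have hx' : (a : Γ) * s = x := hx
    have hcf := Helper7.isClassFunction_of_isCharacter (Helper7.isCharacter_of_irr hχ)
    have h1 := hi s s.2 g ⟨s * g * (s : Γ)⁻¹, hG.conj_mem g g.2 s⟩ rfl
    have e : (⟨x * g * x⁻¹, hG.conj_mem g g.2 x⟩ : G)
        = (a : G) * ⟨s * g * (s : Γ)⁻¹, hG.conj_mem g g.2 s⟩ * (a : G)⁻¹ := by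
      apply Subtype.ext
      show x * g * x⁻¹ = (a : Γ) * (s * g * (s : Γ)⁻¹) * (a : Γ)⁻¹
      rw [← hx']
      group
    rw [e, hcf, h1]
  rcases hs with ⟨k, hk⟩ | ⟨k, hk⟩
  · have hsolv : Group.IsSolvable S := by
      rw [Group.isSolvable_def]
      refine ⟨k, ?_⟩
      rw [eq_bot_iff]
      intro y hy
      have h1 : (y : Γ) ∈ derivedSeries Γ k :=
        map_derivedSeries_le_derivedSeries S.subtype k (Subgroup.mem_map_of_mem _ hy)
      have h2 : (y : Γ) ∈ G ⊓ S := ⟨hk h1, y.2⟩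
      rw [hS.disjoint.eq_bot, Subgroup.mem_bot] at h2
      rw [Subgroup.mem_bot]
      exact Subtype.ext h2
    obtain ⟨χ, hχ, h0, hi⟩ := exists_inv_over_aux S hsolv _ G rfl hnorm (hcardS ▸ hcop) N hNG
      (fun g _ x hx => hN.conj_mem x hx g) hNS θ hθ hθi
    exact ⟨χ, hχ, h0, hfin χ hχ hi⟩
  · have : Fintype (N.subgroupOf G) := Fintype.ofFinite _
    have hst : ∀ (s : S) (l : G), conjAutHom G S hnorm s l ∈ N.subgroupOf G ↔
        l ∈ N.subgroupOf G := by
      intro s l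
      rw [Subgroup.mem_subgroupOf, Subgroup.mem_subgroupOf]
      show ((conjAut G (s : Γ) (hnorm s s.2) l : G) : Γ) ∈ N ↔ _
      rw [conjAut_apply]
      constructor
      · intro h
        have := hNS (s : Γ)⁻¹ (S.inv_mem s.2) _ h
        simpa [mul_assoc] using this
      · exact hNS s s.2 l
    obtain ⟨χ, hχ, h1, h2⟩ := exists_inv_above_solvable (conjAutHom G S hnorm) k (N.subgroupOf G)
      hst (fun y hy => Subgroup.mem_subgroupOf.mpr (hk y hy))
      (by
        rw [← hcardS]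
        exact (Nat.Coprime.coprime_dvd_left (Subgroup.index_dvd_card _) hcop).symm) _
      (isIrrCharacter_subgroupOf N hNG hθ) (by
        intro s n
        refine hθi s s.2 ⟨n, Subgroup.mem_subgroupOf.mp n.2⟩ _ ?_
        show (((restrictAutHom (conjAutHom G S hnorm) (N.subgroupOf G) hst s n :
          N.subgroupOf G) : G) : Γ) = _
        rw [restrictAutHom_coe]
        exact conjAut_apply G (s : Γ) (hnorm s s.2) n)
    refine ⟨χ, hχ, ?_, hfin χ hχ ?_⟩
    · rw [← classInner_subgroupOf N hNG]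
      exact h1
    · intro s hs g g' hg
      have h3 := h2 ⟨s, hs⟩ g
      rw [← h3]
      apply congrArg
      apply Subtype.ext
      rw [hg]
      exact (conjAut_apply G s (hnorm s hs) g).symm

end Cfsg.Agent.Lib.Helper25
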