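import Cfsg.Agent.Lib.Helper25.CopAct6
import Cfsg.Agent.Lib.Helper25.Cop1

set_option autoImplicit false

namespace Cfsg.Agent.Lib.Helper25

open scoped ComplexConjugate
open Cfsg

universe u

theorem exists_coprime_split (r : ℕ) : ∀ o : ℕ, 0 < o → ∃ o₁ o₂ : ℕ, o = o₁ * o₂ ∧
    o₁.Coprime o₂ ∧ o₁.Coprime r ∧ ∀ p, p.Prime → p ∣ o₂ → p ∣ r := by
  intro o
  induction o using Nat.strong_induction_on with
  | _ o ih =>
  intro ho
  by_cases h : o.Coprime r
  · refine ⟨o, 1, by simp, by simp, h, ?_⟩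
    intro p hp hp1
    exact absurd (Nat.dvd_one.mp hp1) hp.one_lt.ne'
  · obtain ⟨p, hp, hpo, hpr⟩ := Nat.Prime.not_coprime_iff_dvd.mp h
    obtain ⟨o', rfl⟩ := hpo
    have ho' : 0 < o' := Nat.pos_of_mul_pos_left ho |> fun h => by
      rcases Nat.eq_zero_or_pos o' with h0 | h0
      · subst h0; simp at ho
      · exact h0
    have hlt : o' < p * o' := by
      have := hp.one_lt
      nlinarith
    obtain ⟨a, b, hab, h1, h2, h3⟩ := ih o' hlt ho'
    refine ⟨a, p * b, by rw [hab]; ring, ?_, h2, ?_⟩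
    · exact Nat.Coprime.mul_right (Nat.Coprime.coprime_dvd_right hpr h2) h1
    · intro q hq hqd
      rcases (Nat.Prime.dvd_mul hq).mp hqd with h4 | h4
      · rw [(Nat.prime_dvd_prime_iff_eq hq hp).mp h4]
        exact hpr
      · exact h3 q hq h4

theorem hasInvAbove_of_linear_aux {Γ : Type u} [Group Γ] [Finite Γ] (G N : Subgroup Γ)
    [hG : G.Normal] [hN : N.Normal] [Fintype N] (hNG : N ≤ G)
    (hcop : G.index.Coprime (N.relIndex G)) (hs : SolvHyp G N) (l : N →* ℂˣ)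
    (hinv : ∀ (x : Γ) (n : N), l ⟨x * n * x⁻¹, hN.conj_mem n n.2 x⟩ = l n)
    (o : ℕ) (ho : ∀ n, l n ^ o = 1) (hor : o.Coprime G.index) :
    HasInvAbove G N hNG (fun n => (l n : ℂ)) := by
  classical
  set K : Subgroup Γ := l.ker.map N.subtype with hK
  have hmemK : ∀ n : N, (n : Γ) ∈ K ↔ l n = 1 := by
    intro n
    constructor
    · rintro ⟨n', hn', h⟩
      have : n' = n := Subtype.ext h
      rw [← this]
      exact hn'
    · intro h
      exact ⟨n, h, rfl⟩
  have hKN : K ≤ N := Subgroup.map_subtype_le _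
  have hKn : K.Normal := by
    constructor
    intro k hk x
    have h1 := (hmemK ⟨k, hKN hk⟩).mp hk
    exact (hmemK ⟨x * k * x⁻¹, hN.conj_mem k (hKN hk) x⟩).mpr (by rw [hinv x ⟨k, hKN hk⟩, h1])
  set f := QuotientGroup.mk' K with hf
  have hfs : Function.Surjective f := QuotientGroup.mk'_surjective K
  have hfker : f.ker = K := QuotientGroup.ker_mk' K
  have hGn : (G.map f).Normal := hG.map f hfs
  have hNn : (N.map f).Normal := hN.map f hfs
  have hNG' : N.map f ≤ G.map f := Subgroup.map_mono hNG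
  have : Fintype (N.map f) := Fintype.ofFinite _
  set pG : G →* G.map f := f.subgroupMap G with hpG
  set pN : N →* N.map f := f.subgroupMap N with hpN
  have hpGs : Function.Surjective pG := f.subgroupMap_surjective G
  have hpNs : Function.Surjective pN := f.subgroupMap_surjective N
  have hker : pN.ker ≤ l.ker := by
    intro n hn
    rw [MonoidHom.mem_ker] at hn ⊢
    have h1 : f (n : Γ) = 1 := congrArg Subtype.val hn
    rw [← MonoidHom.mem_ker, hfker] at h1
    exact (hmemK n).mp h1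
  set lb : N.map f →* ℂˣ := (MonoidHom.liftOfSurjective pN hpNs) ⟨l, hker⟩ with hlb
  have hlbp : ∀ n : N, lb (pN n) = l n := fun n =>
    MonoidHom.liftOfRightInverse_comp_apply _ _ _ ⟨l, hker⟩ n
  have hidx : (G.map f).index = G.index :=
    Subgroup.index_map_eq G hfs (by rw [hfker]; exact hKN.trans hNG)
  have hA := hasInvAbove_of_coprime (G.map f) (N.map f) hNG' ?_ ?_
    (Helper7.isIrrCharacter_of_hom lb) ?_
  · obtain ⟨χ, hχ, h0, hi⟩ := hA
    refine ⟨fun g => χ (pG g), isIrrCharacter_comp_surjective pG hpGs hχ, ?_, ?_⟩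
    · have h1 := classInner_comp_surjective pN hpNs (fun y : N.map f => χ ⟨y, hNG' y.2⟩)
        (fun y => (lb y : ℂ))
      simp only [hlbp] at h1
      rw [← h1] at h0
      exact h0
    · intro x g
      have := hi (f x) (pG g)
      show χ (pG ⟨x * g * x⁻¹, hG.conj_mem g g.2 x⟩) = χ (pG g)
      rw [← this]
      congr 1
  · -- coprimality
    rw [hidx]
    apply Nat.coprime_of_dvd
    intro q hq hq1 hq2
    have := Fact.mk hq
    obtain ⟨y, hy⟩ := exists_prime_orderOf_dvd_card' q hq1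
    obtain ⟨g, rfl⟩ := hpGs y
    have h1 : (g : Γ) ^ (N.relIndex G) ∈ N := by
      have h2 := Subgroup.pow_index_mem (N.subgroupOf G) g
      exact Subgroup.mem_subgroupOf.mp h2
    have h3 : (pG g) ^ (N.relIndex G * o) = 1 := by
      apply Subtype.ext
      show (f (g : Γ)) ^ (N.relIndex G * o) = 1
      rw [← map_pow, ← MonoidHom.mem_ker, hfker, pow_mul]
      have h4 := (hmemK (⟨(g : Γ) ^ (N.relIndex G), h1⟩ ^ o)).mpr (by rw [map_pow, ho])
      exact h4
    have h5 : q ∣ N.relIndex G * o := hy ▸ orderOf_dvd_of_pow_eq_one h3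
    rcases (Nat.Prime.dvd_mul hq).mp h5 with h6 | h6
    · exact hq.one_lt.ne' (Nat.dvd_one.1 (hcop ▸ Nat.dvd_gcd hq2 h6))
    · exact hq.one_lt.ne' (Nat.dvd_one.1 (hor ▸ Nat.dvd_gcd h6 hq2))
  · rcases hs with ⟨k, hk⟩ | ⟨k, hk⟩
    · left
      refine ⟨k, ?_⟩
      rw [← map_derivedSeries_eq hfs k]
      exact Subgroup.map_mono hk
    · right
      refine ⟨k, ?_⟩
      intro y hy
      rw [← map_derivedSeries_eq hpGs k] at hy
      obtain ⟨y₀, hy₀, rfl⟩ := hy
      exact Subgroup.mem_map_of_mem f (hk y₀ hy₀)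
  · intro x n
    obtain ⟨x₀, rfl⟩ := hfs x
    obtain ⟨n₀, rfl⟩ := hpNs n
    have e : (⟨f x₀ * ((pN n₀ : N.map f) : Γ ⧸ K) * (f x₀)⁻¹,
        hNn.conj_mem _ (pN n₀).2 _⟩ : N.map f)
        = pN ⟨x₀ * n₀ * x₀⁻¹, hN.conj_mem n₀ n₀.2 x₀⟩ := by
      apply Subtype.ext
      show f x₀ * f n₀ * (f x₀)⁻¹ = f (x₀ * n₀ * x₀⁻¹)
      simp
    rw [e, hlbp, hlbp, hinv]

end Cfsg.Agent.Lib.Helper25
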