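import Cfsg.Agent.Lib.Helper25.CopAct7
import Cfsg.Agent.Lib.Helper25.LinExt

set_option autoImplicit false

namespace Cfsg.Agent.Lib.Helper25

open scoped ComplexConjugate
open Cfsg

universe u

theorem hasInvAbove_of_linear {Γ : Type u} [Group Γ] [Finite Γ] (G N : Subgroup Γ)
    [hG : G.Normal] [hN : N.Normal] [Fintype N] (hNG : N ≤ G)
    (hcop : G.index.Coprime (N.relIndex G)) (hs : SolvHyp G N) (l : N →* ℂˣ)
    (hinv : ∀ (x : Γ) (n : N), l ⟨x * n * x⁻¹, hN.conj_mem n n.2 x⟩ = l n) :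
    HasInvAbove G N hNG (fun n => (l n : ℂ)) := by
  classical
  obtain ⟨o₁, o₂, ho, h12, h1r, hp2⟩ := exists_coprime_split G.index (Nat.card N) Nat.card_pos
  have h2m : (N.relIndex G).Coprime o₂ := by
    apply Nat.coprime_of_dvd
    intro q hq hq1 hq2
    exact hq.one_lt.ne' (Nat.dvd_one.1 (hcop ▸ Nat.dvd_gcd (hp2 q hq hq2) hq1))
  obtain ⟨u, v, huv⟩ : ∃ u v : ℤ, u * o₁ + v * o₂ = 1 := Nat.isCoprime_iff_coprime.2 h12
  have hlo : ∀ n, l n ^ (Nat.card N) = 1 := by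
    intro n
    rw [← map_pow, pow_card_eq_one', map_one]
  set l₁ : N →* ℂˣ := (zpowGroupHom (v * o₂)).comp l with hl₁
  set l₂ : N →* ℂˣ := (zpowGroupHom (u * o₁)).comp l with hl₂
  have hl₁a : ∀ n, l₁ n = l n ^ (v * o₂) := fun n => rfl
  have hl₂a : ∀ n, l₂ n = l n ^ (u * o₁) := fun n => rfl
  have hmul : ∀ n, l n = l₂ n * l₁ n := by
    intro n
    rw [hl₁a, hl₂a, ← zpow_add, huv, zpow_one]
  have h₁ : ∀ n, l₁ n ^ o₁ = 1 := by
    intro n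
    rw [hl₁a, ← zpow_natCast, ← zpow_mul]
    have : v * (o₂ : ℤ) * o₁ = ((Nat.card N : ℕ) : ℤ) * v := by
      rw [ho]; push_cast; ring
    rw [this, zpow_mul, zpow_natCast, hlo, one_zpow]
  have h₂ : ∀ n, l₂ n ^ o₂ = 1 := by
    intro n
    rw [hl₂a, ← zpow_natCast, ← zpow_mul]
    have : u * (o₁ : ℤ) * o₂ = ((Nat.card N : ℕ) : ℤ) * u := by
      rw [ho]; push_cast; ring
    rw [this, zpow_mul, zpow_natCast, hlo, one_zpow]
  have hinv₁ : ∀ (x : Γ) (n : N), l₁ ⟨x * n * x⁻¹, hN.conj_mem n n.2 x⟩ = l₁ n := by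
    intro x n
    rw [hl₁a, hl₁a, hinv]
  have hinv₂ : ∀ (x : Γ) (n : N), l₂ ⟨x * n * x⁻¹, hN.conj_mem n n.2 x⟩ = l₂ n := by
    intro x n
    rw [hl₂a, hl₂a, hinv]
  obtain ⟨χ₁, hχ₁, h0, hi⟩ := hasInvAbove_of_linear_aux G N hNG hcop hs l₁ hinv₁ o₁ h₁ h1r
  -- the extension of `l₂`
  set e := Subgroup.subgroupOfEquivOfLe hNG with he
  obtain ⟨F, hF1, hF2⟩ := exists_coprime_linear_extension (N.subgroupOf G)
    (l₂.comp e.toMonoidHom) (by
      intro g n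
      exact hinv₂ g (e n)) o₂ (fun n => h₂ _) h2m
  have hFN : ∀ n : N, F ⟨n, hNG n.2⟩ = l₂ n := by
    intro n
    exact hF1 ⟨⟨n, hNG n.2⟩, Subgroup.mem_subgroupOf.mpr n.2⟩
  have hFinv : ∀ (x : Γ) (g : G), F ⟨x * g * x⁻¹, hG.conj_mem g g.2 x⟩ = F g := by
    intro x g
    have h3 := linear_extension_unique (N.subgroupOf G) F
      (F.comp (MulAut.conjNormal x : MulAut G).toMonoidHom) (by
        intro n
        have h4 := hFN ⟨x * ((n : G) : Γ) * x⁻¹, hN.conj_mem _ (Subgroup.mem_subgroupOf.mp n.2) x⟩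
        have h5 := hFN ⟨((n : G) : Γ), Subgroup.mem_subgroupOf.mp n.2⟩
        have h6 := hinv₂ x ⟨((n : G) : Γ), Subgroup.mem_subgroupOf.mp n.2⟩
        exact h4.trans (h6.trans h5.symm)) o₂ hF2 (fun g => hF2 _) h2m
    exact DFunLike.congr_fun h3 g
  refine ⟨fun g => (F g : ℂ) * χ₁ g, isIrrCharacter_linear_mul F hχ₁, ?_, ?_⟩
  · have e1 : classInner (fun n : N => (fun g => (F g : ℂ) * χ₁ g) ⟨n, hNG n.2⟩)
        (fun n => (l n : ℂ)) = classInner (fun n : N => χ₁ ⟨n, hNG n.2⟩) (fun n => (l₁ n : ℂ)) := by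
      unfold classInner
      congr 1
      apply Finset.sum_congr rfl
      intro n _
      have h6 : ((l₂ n : ℂˣ) : ℂ) * conj ((l₂ n : ℂˣ) : ℂ) = 1 := by
        rw [Complex.mul_conj, Complex.normSq_eq_norm_sq]
        have h7 : ((l₂ n : ℂˣ) : ℂ) ^ o₂ = 1 := by
          rw [← Units.val_pow_eq_pow_val, h₂, Units.val_one]
        have ho₂ : o₂ ≠ 0 := by
          rintro rfl
          rw [mul_zero] at ho
          exact Nat.card_pos.ne' ho
        rw [Complex.norm_eq_one_of_pow_eq_one h7 ho₂]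
        simp
      show ((F ⟨n, hNG n.2⟩ : ℂˣ) : ℂ) * χ₁ ⟨n, hNG n.2⟩ * conj ((l n : ℂˣ) : ℂ) = _
      rw [hFN, hmul n, Units.val_mul, map_mul]
      linear_combination (χ₁ ⟨n, hNG n.2⟩ * conj ((l₁ n : ℂˣ) : ℂ)) * h6
    rw [e1]
    exact h0
  · intro x g
    show ((F _ : ℂˣ) : ℂ) * χ₁ _ = _
    rw [hFinv, hi]

end Cfsg.Agent.Lib.Helper25
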