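import Cfsg.Agent.Lib.Helper25.CopAct8
import Cfsg.Agent.Lib.Helper25.LinCount
import Cfsg.Agent.Lib.Helper26.ProjExt4

set_option autoImplicit false

namespace Cfsg.Agent.Lib.Helper25

open scoped ComplexConjugate
open Cfsg

universe u

theorem gallagher_mul_irr {X : Type u} [Group X] [Finite X] (M : Subgroup X) [hM : M.Normal]
    {χ β : X → ℂ} (hχ : IsIrrCharacter X χ) (hres : IsIrrCharacter M (fun m : M => χ m))
    (hβ : IsIrrCharacter X β) (hker : ∀ m ∈ M, β m = β 1) : IsIrrCharacter X (β * χ) := by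
  classical
  cases nonempty_fintype X
  have : Fintype M := Fintype.ofFinite _
  have hcfχ := Helper7.isClassFunction_of_isCharacter (Helper7.isCharacter_of_irr hχ)
  have hcfβ := Helper7.isClassFunction_of_isCharacter (Helper7.isCharacter_of_irr hβ)
  have hone : ((fun _ => 1 : M → ℂ) * fun n : M => χ n) = fun n : M => χ n := by
    funext n
    simp
  obtain ⟨g1, -, -⟩ := gallagher_core M
    (φ := fun _ => 1) (ϑ := fun n : M => χ n) Helper7.isIrrCharacter_one
    (fun g => rfl) (fun g => conjFun_restrict M hcfχ g)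
    (by rw [hone]; exact hres) hχ (fun n => rfl)
  refine (g1 β hβ ?_).1
  rw [frobenius_reciprocity M _ β hcfβ]
  have h2 : (fun h : M => β h) = fun _ => β 1 := by
    funext h
    exact hker h h.2
  rw [h2]
  unfold classInner
  have hMc : (Nat.card M : ℂ) ≠ 0 := by exact_mod_cast Nat.card_pos.ne'
  simp only [one_mul, Finset.sum_const, Finset.card_univ, nsmul_eq_mul]
  rw [← Nat.card_eq_fintype_card, ← mul_assoc, inv_mul_cancel₀ hMc, one_mul]
  exact (map_ne_zero _).mpr (Helper7.irr_apply_one_ne_zero hβ)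

theorem descend_char {A B : Type u} [Group A] [Group B] [Finite A] (p : A →* B)
    (hp : Function.Surjective p) {ψ : A → ℂ} (hψ : IsIrrCharacter A ψ)
    (hker : ∀ a ∈ p.ker, ψ a = ψ 1) :
    ∃ χ : B → ℂ, IsIrrCharacter B χ ∧ ∀ a, χ (p a) = ψ a := by
  obtain ⟨m, τ, hτ, rfl⟩ := hψ
  obtain ⟨χ, hχ, h⟩ := Helper26.exists_descend hp τ hτ 1 (by
    intro a ha
    have h1 := hker a ha
    rw [Representation.char_one] at h1
    have h2 := (Helper2.char_eq_finrank_iff τ a).1 h1
    rw [h2]
    simp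
    rfl)
  refine ⟨χ, hχ, fun a => ?_⟩
  rw [h]
  simp

end Cfsg.Agent.Lib.Helper25
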