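import Mathlib
import Cfsg.Agent.Lib.Helper25.HallCompl
import Cfsg.Agent.Lib.Helper7.CharComplete
import Cfsg.Agent.Lib.Helper7.CharColumn
import Cfsg.Agent.Lib.Helper2.CharReg
import Cfsg.Agent.Lib.Helper15.FrobThm

set_option autoImplicit false

namespace Cfsg.Agent.Lib.Helper25

open Cfsg

universe u

section

variable {G : Type u} [Group G] [Finite G] (H : Subgroup G)
  (hHall : Nat.Coprime (Nat.card H) H.index)
  (hfus : ∀ x ∈ H, ∀ y ∈ H, IsConj x y → ∃ h ∈ H, h * x * h⁻¹ = y)
  (helem : ∀ (E : Subgroup G) (p : ℕ), p.Prime → Cfsg.IsElementary p E →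
    Nat.card E ∣ Nat.card H → ∃ g : G, E.map (MulAut.conj g).toMonoidHom ≤ H)
  (s t : ℤ) (hst : s * Nat.card H + t * H.index = 1)
  (τ : G → H) (hτ : ∀ g, IsConj (g ^ (t * H.index)) (τ g : G))

include helem in
theorem bsh_exists_tau (g : G) : ∃ h : H, IsConj (g ^ (t * H.index)) (h : G) := by
  obtain ⟨p, hp, hE⟩ := isElementary_zpowers (g ^ (t * H.index))
  have hcard : Nat.card (Subgroup.zpowers (g ^ (t * H.index))) ∣ Nat.card H := by
    rw [Nat.card_zpowers, orderOf_dvd_iff_pow_eq_one, ← zpow_natCast, ← zpow_mul]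
    have : t * (H.index : ℤ) * (Nat.card H) = ((Nat.card G : ℕ) : ℤ) * t := by
      rw [← H.card_mul_index]; push_cast; ring
    rw [this, zpow_mul, zpow_natCast, pow_card_eq_one', one_zpow]
  obtain ⟨c, hc⟩ := helem _ p hp hE hcard
  have h1 : c * g ^ (t * H.index) * c⁻¹ ∈ H :=
    hc ⟨g ^ (t * H.index), Subgroup.mem_zpowers _, by simp⟩
  exact ⟨⟨_, h1⟩, isConj_iff.2 ⟨c, rfl⟩⟩

include hfus hτ in
theorem bsh_tau_spec {α : H → ℂ} (hα : IsClassFunction H α) (g : G) (h : H)
    (hh : IsConj (g ^ (t * H.index)) (h : G)) : α (τ g) = α h := by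
  obtain ⟨y, hy, hy2⟩ := hfus _ (τ g).2 _ h.2 ((hτ g).symm.trans hh)
  have := hα (τ g) ⟨y, hy⟩
  rw [← this]
  congr 1
  exact Subtype.ext hy2

include hfus hτ in
theorem bsh_classFunction {α : H → ℂ} (hα : IsClassFunction H α) :
    IsClassFunction G (fun g => α (τ g)) := by
  intro g y
  apply bsh_tau_spec H hfus t τ hτ hα
  have h1 : (y * g * y⁻¹) ^ (t * H.index) = y * g ^ (t * H.index) * y⁻¹ := conj_zpow
  rw [h1]
  exact (isConj_iff.2 ⟨y, rfl⟩ : IsConj (g ^ (t * H.index)) _).symm.trans (hτ g)

include hst in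
theorem bsh_zpow_of_mem (h : H) : (h : G) ^ (t * H.index) = h := by
  have h1 : t * (H.index : ℤ) = 1 - s * Nat.card H := by linarith
  have h2 : (h : G) ^ (Nat.card H) = 1 := by
    have : h ^ Nat.card H = 1 := pow_card_eq_one'
    exact_mod_cast congrArg Subtype.val this
  rw [h1, zpow_sub, zpow_one, mul_comm s, zpow_mul, zpow_natCast, h2, one_zpow]
  simp

include hfus hτ hst in
theorem bsh_tau_coe {α : H → ℂ} (hα : IsClassFunction H α) (h : H) : α (τ h) = α h := by
  apply bsh_tau_spec H hfus t τ hτ hα
  rw [bsh_zpow_of_mem H s t hst]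

include hHall hfus helem hst hτ in
theorem bsh_genChar {θ : H → ℂ} (hθ : IsCharacter H θ) :
    IsGeneralizedCharacter G (fun g => θ (τ g)) := by
  have hcf := Helper7.isClassFunction_of_isCharacter hθ
  apply Helper2.brauer_characterization _ (bsh_classFunction H hfus t τ hτ hcf)
  intro E q hq hE
  haveI := Helper2.IsElementary.isNilpotent hq hE
  have hEd : Nat.card E ∣ Nat.card H * H.index := by
    rw [H.card_mul_index]; exact Subgroup.card_subgroup_dvd_card E
  obtain ⟨E1, hE1c, hE1⟩ := exists_hall_zpow_mem (E := E) hHall hEd t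
  have hE1e : IsElementary q (E1.map E.subtype) :=
    Helper2.IsElementary.of_mulEquiv (E1.equivMapOfInjective E.subtype E.subtype_injective)
      (Helper2.IsElementary.subgroup hq hE E1)
  have hcard : Nat.card (E1.map E.subtype) ∣ Nat.card H := by
    rw [Subgroup.card_map_of_injective E.subtype_injective]; exact hE1c
  obtain ⟨c, hc⟩ := helem _ q hq hE1e hcard
  have hmem : ∀ e : E, c * (e : G) ^ (t * H.index) * c⁻¹ ∈ H := by
    intro e
    exact hc ⟨(e : G) ^ (t * H.index), ⟨e ^ (t * H.index), hE1 e, by simp⟩, by simp⟩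
  let F : E →* H :=
    { toFun := fun e => ⟨c * (e : G) ^ (t * H.index) * c⁻¹, hmem e⟩
      map_one' := by
        apply Subtype.ext
        simp
      map_mul' := by
        intro a b
        apply Subtype.ext
        have h1 := zpow_mul_of_nilpotent hHall hEd s t hst a b
        have h2 : ((a : G) * b) ^ (t * H.index) = (a : G) ^ (t * H.index) * (b : G) ^ (t * H.index) := by
          exact_mod_cast congrArg Subtype.val h1
        simp only [Subgroup.coe_mul, h2]
        group }
  have heq : (fun e : E => θ (τ e)) = θ ∘ F := by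
    funext e
    apply bsh_tau_spec H hfus t τ hτ hcf
    exact isConj_iff.2 ⟨c, rfl⟩
  rw [heq]
  exact Helper11.genChar_of_char (Helper7.isCharacter_comp_hom hθ F)

include hHall hfus helem hst hτ in
theorem bsh_avg [Fintype G] [Fintype H] {α : H → ℂ} (hα : IsClassFunction H α) :
    (Nat.card G : ℂ)⁻¹ * ∑ g : G, α (τ g) = (Nat.card H : ℂ)⁻¹ * ∑ h : H, α h := by
  classical
  have : Fintype (IrrCharacter H) := Fintype.ofFinite _
  choose a ha using fun c : IrrCharacter H => Helper11.genChar_inner_char_int
    (bsh_genChar H hHall hfus helem s t hst τ hτ (Helper7.isCharacter_of_irr c.2))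
    (Helper7.isCharacter_one)
  have ha' : ∀ c : IrrCharacter H, (Nat.card G : ℂ)⁻¹ * ∑ g : G, (c : H → ℂ) (τ g) = a c := by
    intro c
    rw [← ha c]
    simp [classInner]
  let γ : H → ℂ := fun h => ∑ c : IrrCharacter H, (a c : ℂ) * (starRingEnd ℂ) ((c : H → ℂ) h)
  have star : ∀ β : H → ℂ, IsClassFunction H β →
      (Nat.card G : ℂ)⁻¹ * ∑ g : G, β (τ g) = (Nat.card H : ℂ)⁻¹ * ∑ h : H, β h * γ h := by
    intro β hβ
    have h1 : (Nat.card G : ℂ)⁻¹ * ∑ g : G, β (τ g) =
        ∑ c : IrrCharacter H, classInner β (c : H → ℂ) * a c := by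
      simp only [Helper7.classFunction_apply_eq_sum hβ (τ _)]
      rw [Finset.sum_comm, Finset.mul_sum]
      apply Finset.sum_congr rfl
      intro c _
      rw [← ha' c, ← Finset.mul_sum]
      ring
    have h2 : (Nat.card H : ℂ)⁻¹ * ∑ h : H, β h * γ h =
        ∑ c : IrrCharacter H, classInner β (c : H → ℂ) * a c := by
      simp only [γ, Finset.mul_sum]
      rw [Finset.sum_comm]
      apply Finset.sum_congr rfl
      intro c _
      simp only [classInner, Finset.mul_sum, Finset.sum_mul]
      apply Finset.sum_congr rfl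
      intro h _
      ring
    rw [h1, h2]
  have hγcf : IsClassFunction H γ := by
    intro g h
    simp only [γ]
    apply Finset.sum_congr rfl
    intro c _
    rw [Helper7.isClassFunction_of_isCharacter (Helper7.isCharacter_of_irr c.2) g h]
  have hγint : ∀ h, IsIntegral ℤ (γ h) := by
    intro h
    apply IsIntegral.sum
    intro c _
    apply IsIntegral.mul
    · exact isIntegral_algebraMap (R := ℤ) (x := a c)
    · exact (Helper7.char_isIntegral (Helper7.isCharacter_of_irr c.2) h).map
        (starRingEnd ℂ).toIntAlgHom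
  have hGC : (Nat.card G : ℂ) ≠ 0 := by exact_mod_cast Nat.card_pos.ne'
  have hHC : (Nat.card H : ℂ) ≠ 0 := by exact_mod_cast Nat.card_pos.ne'
  have hγpos : ∀ x : H, ∃ m : ℤ, 1 ≤ m ∧ γ x = m := by
    intro x
    have hcfx : IsClassFunction H (fun h : H => if IsConj x h then (1 : ℂ) else 0) := by
      intro g h
      have : IsConj x (h * g * h⁻¹) ↔ IsConj x g :=
        ⟨fun h1 => h1.trans (isConj_iff.2 ⟨h, rfl⟩ : IsConj g _).symm,
          fun h1 => h1.trans (isConj_iff.2 ⟨h, rfl⟩)⟩
      simp only [this]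
    have h1 := star _ hcfx
    have h2 := Helper2.sum_indicator_isConj x γ hγcf
    have h2' : ∑ h : H, (if IsConj x h then (1 : ℂ) else 0) * γ h =
        ((Subgroup.centralizer ({x} : Set H)).index : ℂ) * γ x := by
      rw [← h2]
      apply Finset.sum_congr rfl
      intro y _
      congr 1
      split_ifs <;> rfl
    rw [h2'] at h1
    have h3 : ∑ g : G, (if IsConj x (τ g) then (1 : ℂ) else 0) =
        ((Finset.univ.filter fun g : G => IsConj x (τ g)).card : ℂ) := by
      rw [Finset.sum_ite]
      simp
    rw [h3] at h1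
    have hcpos : 0 < (Finset.univ.filter fun g : G => IsConj x (τ g)).card := by
      apply Finset.card_pos.2
      refine ⟨(x : G), ?_⟩
      rw [Finset.mem_filter]
      refine ⟨Finset.mem_univ _, ?_⟩
      have := bsh_tau_coe H hfus s t hst τ hτ hcfx x
      simp only [IsConj.refl, if_true] at this
      by_contra hcon
      rw [if_neg hcon] at this
      exact zero_ne_one this
    have hipos : 0 < (Subgroup.centralizer ({x} : Set H)).index :=
      Nat.pos_of_ne_zero Subgroup.index_ne_zero_of_finite
    have hiC : ((Subgroup.centralizer ({x} : Set H)).index : ℂ) ≠ 0 := by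
      exact_mod_cast hipos.ne'
    have hγx : γ x = (((Nat.card H : ℚ) * (Finset.univ.filter fun g : G => IsConj x (τ g)).card /
        (Nat.card G * (Subgroup.centralizer ({x} : Set H)).index) : ℚ) : ℂ) := by
      push_cast
      field_simp
      field_simp at h1
      linear_combination -h1
    obtain ⟨m, hm⟩ := Helper2.exists_int_of_isIntegral_of_rat (hγint x) _ hγx
    refine ⟨m, ?_, hm⟩
    rw [hm] at hγx
    have h5 : (m : ℚ) = (Nat.card H : ℚ) * (Finset.univ.filter fun g : G => IsConj x (τ g)).card /
        (Nat.card G * (Subgroup.centralizer ({x} : Set H)).index) := by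
      exact_mod_cast hγx
    have h6 : (0 : ℚ) < m := by
      rw [h5]
      have hH0 : (0 : ℚ) < Nat.card H := by exact_mod_cast Nat.card_pos
      have hG0 : (0 : ℚ) < Nat.card G := by exact_mod_cast Nat.card_pos
      have hc0 : (0 : ℚ) < (Finset.univ.filter fun g : G => IsConj x (τ g)).card := by
        exact_mod_cast hcpos
      have hi0 : (0 : ℚ) < (Subgroup.centralizer ({x} : Set H)).index := by exact_mod_cast hipos
      positivity
    have h7 : 0 < m := by exact_mod_cast h6
    omega
  choose m hm1 hm using hγpos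
  have hone := star (fun _ => 1) (fun _ _ => rfl)
  simp only [Finset.sum_const, Finset.card_univ, nsmul_eq_mul, mul_one, one_mul, hm] at hone
  rw [← Nat.card_eq_fintype_card, inv_mul_cancel₀ hGC] at hone
  have hsum : ∑ h : H, m h = Nat.card H := by
    have : ((∑ h : H, m h : ℤ) : ℂ) = ((Nat.card H : ℤ) : ℂ) := by
      push_cast
      field_simp at hone
      exact hone.symm
    exact_mod_cast this
  have hall : ∀ h : H, m h = 1 := by
    have h0 : ∑ h : H, (m h - 1) = 0 := by
      rw [Finset.sum_sub_distrib, hsum]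
      simp [Nat.card_eq_fintype_card]
    have := (Finset.sum_eq_zero_iff_of_nonneg (fun h _ => by have := hm1 h; omega)).1 h0
    intro h
    have := this h (Finset.mem_univ h)
    omega
  rw [star α hα]
  congr 1
  apply Finset.sum_congr rfl
  intro h _
  rw [hm, hall]
  simp

include hHall hfus helem hst hτ in
theorem bsh_irr {θ : H → ℂ} (hθ : IsIrrCharacter H θ) : IsIrrCharacter G (fun g => θ (τ g)) := by
  classical
  have : Fintype G := Fintype.ofFinite G
  have : Fintype H := Fintype.ofFinite H
  have hθc := Helper7.isCharacter_of_irr hθ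
  have hcf := Helper7.isClassFunction_of_isCharacter hθc
  have hgc := bsh_genChar H hHall hfus helem s t hst τ hτ hθc
  have hnorm : classInner (fun g => θ (τ g)) (fun g => θ (τ g)) = 1 := by
    have h1 := bsh_avg H hHall hfus helem s t hst τ hτ
      (α := fun h => θ h * (starRingEnd ℂ) (θ h)) (by
        intro g h
        simp only [hcf g h])
    have h2 := Helper7.classInner_irr_self hθ
    unfold classInner at h2 ⊢
    rw [h1, h2]
  rcases Helper11.genChar_norm_one hgc hnorm with h | h
  · exact h
  · exfalso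
    obtain ⟨d, hd0, hd⟩ := Helper7.irr_apply_one hθ
    obtain ⟨e, he0, he⟩ := Helper7.irr_apply_one h
    have h1 := bsh_tau_coe H hfus s t hst τ hτ hcf 1
    simp only [OneMemClass.coe_one] at h1
    simp only [Pi.neg_apply, h1, hd] at he
    have h2 : ((d + e : ℕ) : ℂ) = 0 := by
      push_cast
      linear_combination -he
    have h3 : d + e = 0 := by exact_mod_cast h2
    omega

end

theorem brauer_suzuki_hall {G : Type u} [Group G] [Finite G] (H : Subgroup G)
    (hHall : Nat.Coprime (Nat.card H) H.index)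
    (hfus : ∀ x ∈ H, ∀ y ∈ H, IsConj x y → ∃ h ∈ H, h * x * h⁻¹ = y)
    (helem : ∀ (E : Subgroup G) (p : ℕ), p.Prime → Cfsg.IsElementary p E →
      Nat.card E ∣ Nat.card H → ∃ g : G, E.map (MulAut.conj g).toMonoidHom ≤ H) :
    ∃ K : Subgroup G, K.Normal ∧ K ⊔ H = ⊤ ∧ K ⊓ H = ⊥ := by
  classical
  obtain ⟨s, t, hst⟩ : ∃ s t : ℤ, s * Nat.card H + t * H.index = 1 :=
    Nat.isCoprime_iff_coprime.2 hHall
  choose τ hτ using bsh_exists_tau H helem t
  have : Fintype G := Fintype.ofFinite G
  have : Fintype H := Fintype.ofFinite H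
  have : Fintype (IrrCharacter H) := Fintype.ofFinite _
  have hτ1 : ∀ g, τ g = 1 ↔ g ^ (t * H.index) = 1 := by
    intro g
    constructor
    · intro h
      have := hτ g
      rw [h] at this
      exact isConj_one_left.1 this
    · intro h
      have := hτ g
      rw [h] at this
      exact Subtype.ext (isConj_one_right.1 this)
  choose d _ hd using fun c : IrrCharacter H => Helper7.irr_apply_one c.2
  have hΘ : IsCharacter G (∑ c : IrrCharacter H, d c • fun g => (c : H → ℂ) (τ g)) := by
    apply Helper7.isCharacter_sum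
    intro c _
    exact Helper7.isCharacter_nsmul
      (Helper7.isCharacter_of_irr (bsh_irr H hHall hfus helem s t hst τ hτ c.2)) _
  have hΘval : ∀ g, (∑ c : IrrCharacter H, d c • fun g => (c : H → ℂ) (τ g)) g =
      if τ g = 1 then (Nat.card H : ℂ) else 0 := by
    intro g
    rw [← Helper2.sum_irr_one_mul (τ g)]
    simp only [Finset.sum_apply, Pi.smul_apply]
    simp only [nsmul_eq_mul, hd]
  obtain ⟨K, hKn, hK⟩ := Helper15.exists_normal_ker_of_isCharacter hΘ
  have hHC : (Nat.card H : ℂ) ≠ 0 := by exact_mod_cast Nat.card_pos.ne'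
  have hGC : (Nat.card G : ℂ) ≠ 0 := by exact_mod_cast Nat.card_pos.ne'
  have hK' : ∀ g, g ∈ K ↔ τ g = 1 := by
    intro g
    rw [hK, hΘval, hΘval, if_pos ((hτ1 1).2 (one_zpow _))]
    constructor
    · intro h
      by_contra hcon
      rw [if_neg hcon] at h
      exact hHC h.symm
    · intro h
      rw [if_pos h]
  have hdisj : Disjoint K H := by
    rw [Subgroup.disjoint_def]
    intro x hx1 hx2
    have h1 := (hτ1 x).1 ((hK' x).1 hx1)
    have h2 := bsh_zpow_of_mem H s t hst ⟨x, hx2⟩
    simp only at h2
    rw [← h2, h1]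
  have hcard : Nat.card K * Nat.card H = Nat.card G := by
    have h1 := bsh_avg H hHall hfus helem s t hst τ hτ
      (α := fun h => if h = 1 then (Nat.card H : ℂ) else 0) (by
        intro g h
        have : h * g * h⁻¹ = 1 ↔ g = 1 := by
          constructor
          · intro h1
            have : g = h⁻¹ * (h * g * h⁻¹) * h := by group
            rw [this, h1]; group
          · rintro rfl; group
        simp only [this])
    simp only [Finset.sum_ite_eq', Finset.mem_univ, if_true] at h1
    rw [inv_mul_cancel₀ hHC, Finset.sum_ite, Finset.sum_const, Finset.sum_const_zero, add_zero,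
      nsmul_eq_mul] at h1
    have h2 : Nat.card K = (Finset.univ.filter fun g : G => τ g = 1).card := by
      apply Nat.subtype_card
      intro x
      rw [Finset.mem_filter, hK' x]
      simp
    rw [← h2] at h1
    have h3 : ((Nat.card K * Nat.card H : ℕ) : ℂ) = (Nat.card G : ℂ) := by
      push_cast
      field_simp at h1
      exact h1
    exact_mod_cast h3
  have hcompl := Subgroup.isComplement'_of_card_mul_and_disjoint hcard hdisj
  exact ⟨K, hKn, hcompl.sup_eq_top, hdisj.eq_bot⟩

end Cfsg.Agent.Lib.Helper25
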