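import Cfsg.Agent.Lib.Helper25.Perm
import Mathlib.LinearAlgebra.Eigenspace.Charpoly
import Mathlib.LinearAlgebra.Matrix.Charpoly.Eigs
import Mathlib.RingTheory.IntegralClosure.IsIntegralClosure.Basic

set_option autoImplicit false

namespace Cfsg.Agent.Lib.Helper25

open Cfsg

universe u v

theorem trace_eq_sum_roots' {V : Type*} [AddCommGroup V] [Module ℂ V] [FiniteDimensional ℂ V]
    (T : Module.End ℂ V) : LinearMap.trace ℂ V T = T.charpoly.roots.sum := by
  classical
  let b := Module.finBasis ℂ V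
  rw [LinearMap.trace_eq_matrix_trace ℂ b T, Matrix.trace_eq_sum_roots_charpoly,
    LinearMap.charpoly_toMatrix]

theorem isIntegral_trace_of_eigen {V : Type*} [AddCommGroup V] [Module ℂ V]
    [FiniteDimensional ℂ V] (T : Module.End ℂ V)
    (h : ∀ μ : ℂ, T.HasEigenvalue μ → IsIntegral ℤ μ) : IsIntegral ℤ (LinearMap.trace ℂ V T) := by
  rw [trace_eq_sum_roots']
  apply IsIntegral.multiset_sum
  intro x hx
  apply h
  rw [Module.End.hasEigenvalue_iff_isRoot_charpoly]
  exact (Polynomial.mem_roots'.1 hx).2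

theorem trace_eq_zero_of_eigen {V : Type*} [AddCommGroup V] [Module ℂ V]
    [FiniteDimensional ℂ V] (T : Module.End ℂ V)
    (h : ∀ μ : ℂ, T.HasEigenvalue μ → μ = 0) : LinearMap.trace ℂ V T = 0 := by
  rw [trace_eq_sum_roots']
  apply Multiset.sum_eq_zero
  intro x hx
  apply h
  rw [Module.End.hasEigenvalue_iff_isRoot_charpoly]
  exact (Polynomial.mem_roots'.1 hx).2

variable {G : Type u} [Group G] [Fintype G] {Ω : Type v} [Fintype Ω] [MulAction G Ω]
  [MulAction.IsPretransitive G Ω]

theorem sum_comp_smul {M : Type*} [AddCommMonoid M] (a : Ω) (F : Ω → M) :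
    ∑ g : G, F (g • a) = Nat.card (MulAction.stabilizer G a) • ∑ y, F y := by
  classical
  rw [← Finset.sum_fiberwise (s := Finset.univ) (g := fun g : G => g • a), Finset.smul_sum]
  apply Finset.sum_congr rfl
  intro y _
  have h1 : ∀ g ∈ Finset.univ.filter (fun g : G => g • a = y), F (g • a) = F y := by
    intro g hg
    rw [(Finset.mem_filter.1 hg).2]
  rw [Finset.sum_congr rfl h1, Finset.sum_const]
  congr 1
  obtain ⟨t, ht⟩ := MulAction.exists_smul_eq G a y
  rw [Nat.card_eq_fintype_card, ← Finset.card_univ]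
  symm
  apply Finset.card_bij (fun (h : MulAction.stabilizer G a) _ => t * (h : G))
  · intro h _
    rw [Finset.mem_filter]
    refine ⟨Finset.mem_univ _, ?_⟩
    rw [mul_smul, h.2, ht]
  · intro h _ k _ e
    exact Subtype.ext (mul_left_cancel e)
  · intro g hg
    have hg' := (Finset.mem_filter.1 hg).2
    refine ⟨⟨t⁻¹ * g, ?_⟩, Finset.mem_univ _, by simp⟩
    rw [MulAction.mem_stabilizer_iff, mul_smul, hg', ← ht, inv_smul_smul]

end Cfsg.Agent.Lib.Helper25
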