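import Cfsg.Agent.Lib.Helper25.Hecke1

set_option autoImplicit false

namespace Cfsg.Agent.Lib.Helper25

open Cfsg

universe u v

variable {G : Type u} [Group G] [Fintype G] {Ω : Type v} [Fintype Ω] [MulAction G Ω]
  [MulAction.IsPretransitive G Ω]
  {V : Type*} [AddCommGroup V] [Module ℂ V] [FiniteDimensional ℂ V]

/-- the Hecke operator attached to a union `O` of suborbits -/
noncomputable def heckeOp (ρ : Representation ℂ G V) (a : Ω) (O : Set Ω) [DecidablePred (· ∈ O)] : Module.End ℂ V :=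
  (Nat.card (MulAction.stabilizer G a) : ℂ)⁻¹ • ∑ g : G, if g • a ∈ O then ρ g else 0

omit [Fintype Ω] [MulAction.IsPretransitive G Ω] [FiniteDimensional ℂ V] in
theorem rho_heckeOp (ρ : Representation ℂ G V) (a : Ω) (O : Set Ω) [DecidablePred (· ∈ O)]
    (hO : ∀ h ∈ MulAction.stabilizer G a, ∀ y, h • y ∈ O ↔ y ∈ O) (h : G)
    (hh : h ∈ MulAction.stabilizer G a) (v : V) : ρ h (heckeOp ρ a O v) = heckeOp ρ a O v := by
  classical
  unfold heckeOp
  simp only [LinearMap.smul_apply, LinearMap.sum_apply, map_smul, map_sum]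
  congr 1
  apply Fintype.sum_equiv (Equiv.mulLeft h)
  intro g
  simp only [Equiv.coe_mulLeft, mul_smul, hO h hh]
  split_ifs with hg
  · rw [map_mul, Module.End.mul_apply]
  · simp

omit [FiniteDimensional ℂ V] in
theorem heckeOp_apply_fixed (ρ : Representation ℂ G V) (a : Ω) (O : Set Ω) [DecidablePred (· ∈ O)] (v : V)
    (hv : ∀ h ∈ MulAction.stabilizer G a, ρ h v = v) (c : Ω → G) (hc : ∀ y, c y • a = y) :
    heckeOp ρ a O v = ∑ y ∈ Finset.univ.filter (fun y => y ∈ O), ρ (c y) v := by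
  classical
  have hH : (Nat.card (MulAction.stabilizer G a) : ℂ) ≠ 0 := by
    exact_mod_cast Nat.card_pos.ne'
  unfold heckeOp
  simp only [LinearMap.smul_apply, LinearMap.sum_apply]
  have h1 : ∀ g : G, (if g • a ∈ O then ρ g else 0) v
      = (fun y => if y ∈ O then ρ (c y) v else 0) (g • a) := by
    intro g
    simp only
    split_ifs with hg
    · have hm : (c (g • a))⁻¹ * g ∈ MulAction.stabilizer G a := by
        rw [MulAction.mem_stabilizer_iff, mul_smul, inv_smul_eq_iff, hc]
      have := hv _ hm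
      calc ρ g v = ρ (c (g • a) * ((c (g • a))⁻¹ * g)) v := by rw [mul_inv_cancel_left]
        _ = ρ (c (g • a)) v := by rw [map_mul, Module.End.mul_apply, this]
    · simp
  rw [Finset.sum_congr rfl (fun g _ => h1 g),
    sum_comp_smul a (fun y => if y ∈ O then ρ (c y) v else 0), ← Nat.cast_smul_eq_nsmul ℂ,
    smul_smul, inv_mul_cancel₀ hH, one_smul, Finset.sum_filter]

omit [Fintype Ω] [MulAction.IsPretransitive G Ω] [FiniteDimensional ℂ V] in
theorem heckeOp_eigen_fixed (ρ : Representation ℂ G V) (a : Ω) (O : Set Ω) [DecidablePred (· ∈ O)]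
    (hO : ∀ h ∈ MulAction.stabilizer G a, ∀ y, h • y ∈ O ↔ y ∈ O) {μ : ℂ} (hμ : μ ≠ 0) {v : V}
    (hv : heckeOp ρ a O v = μ • v) : ∀ h ∈ MulAction.stabilizer G a, ρ h v = v := by
  intro h hh
  have h1 := rho_heckeOp ρ a O hO h hh v
  rw [hv, map_smul] at h1
  exact smul_right_injective V hμ h1

omit [FiniteDimensional ℂ V] in
theorem heckeOp_eigen_integral (ρ : Representation ℂ G V) (a : Ω) (O : Set Ω) [DecidablePred (· ∈ O)]
    (hO : ∀ h ∈ MulAction.stabilizer G a, ∀ y, h • y ∈ O ↔ y ∈ O) {μ : ℂ}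
    (h : (heckeOp ρ a O).HasEigenvalue μ) : IsIntegral ℤ μ := by
  classical
  by_cases hμ : μ = 0
  · rw [hμ]; exact isIntegral_zero
  obtain ⟨v, hv⟩ := h.exists_hasEigenvector
  have hv1 : heckeOp ρ a O v = μ • v := hv.apply_eq_smul
  have hv0 : v ≠ 0 := hv.2
  have hfix := heckeOp_eigen_fixed ρ a O hO hμ hv1
  choose c hc using fun y : Ω => MulAction.exists_smul_eq G a y
  have hT := heckeOp_apply_fixed ρ a O v hfix c hc
  let N : Submodule ℤ V := Submodule.span ℤ (Set.range (fun g : G => ρ g v))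
  apply isIntegral_of_smul_mem_submodule (A := ℂ) (M := V) N
  · intro hN
    apply hv0
    have : v ∈ N := Submodule.subset_span ⟨1, by simp⟩
    rw [hN] at this
    exact (Submodule.mem_bot ℤ).1 this
  · exact Submodule.fg_span (Set.finite_range _)
  · intro n hn
    induction hn using Submodule.span_induction with
    | mem x hx =>
      obtain ⟨g, rfl⟩ := hx
      simp only
      rw [← map_smul, ← hv1, hT, map_sum]
      apply Submodule.sum_mem
      intro y _
      apply Submodule.subset_span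
      exact ⟨g * c y, by simp [map_mul]⟩
    | zero => simp
    | add x y _ _ hx hy => rw [smul_add]; exact N.add_mem hx hy
    | smul r x _ hx => rw [smul_comm]; exact N.smul_mem r hx

omit [Fintype Ω] [MulAction.IsPretransitive G Ω] [FiniteDimensional ℂ V] in
theorem trace_heckeOp (ρ : Representation ℂ G V) (a : Ω) (O : Set Ω) [DecidablePred (· ∈ O)] :
    LinearMap.trace ℂ V (heckeOp ρ a O) = (Nat.card (MulAction.stabilizer G a) : ℂ)⁻¹ *
      ∑ g : G, if g • a ∈ O then ρ.character g else 0 := by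
  classical
  unfold heckeOp
  rw [map_smul, map_sum, smul_eq_mul]
  congr 1
  apply Finset.sum_congr rfl
  intro g _
  split_ifs with hg
  · rfl
  · simp

theorem isIntegral_hecke_sum (ρ : Representation ℂ G V) (a : Ω) (O : Set Ω) [DecidablePred (· ∈ O)]
    (hO : ∀ h ∈ MulAction.stabilizer G a, ∀ y, h • y ∈ O ↔ y ∈ O) :
    IsIntegral ℤ ((Nat.card (MulAction.stabilizer G a) : ℂ)⁻¹ *
      ∑ g : G, if g • a ∈ O then ρ.character g else 0) := by
  rw [← trace_heckeOp]
  apply isIntegral_trace_of_eigen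
  intro μ hμ
  exact heckeOp_eigen_integral ρ a O hO hμ

omit [Fintype Ω] [MulAction.IsPretransitive G Ω] in
theorem eq_zero_of_fixed (ρ : Representation ℂ G V) (H : Subgroup G) [Fintype H]
    (h0 : ∑ h : H, ρ.character h = 0) {v : V} (hv : ∀ h ∈ H, ρ h v = v) : v = 0 := by
  classical
  have hH : (Nat.card H : ℂ) ≠ 0 := by exact_mod_cast Nat.card_pos.ne'
  let e : Module.End ℂ V := (Nat.card H : ℂ)⁻¹ • ∑ h : H, ρ h
  have hmul : ∀ k : H, ρ k * ∑ h : H, ρ h = ∑ h : H, ρ h := by
    intro k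
    rw [Finset.mul_sum]
    apply Fintype.sum_equiv (Equiv.mulLeft k)
    intro h
    simp [map_mul]
  have he : IsIdempotentElem e := by
    show e * e = e
    have : (∑ h : H, ρ (h : G)) * (∑ h : H, ρ (h : G)) = (Nat.card H : ℂ) • ∑ h : H, ρ (h : G) := by
      rw [Finset.sum_mul, Finset.sum_congr rfl (fun k _ => hmul k), Finset.sum_const,
        Finset.card_univ, ← Nat.card_eq_fintype_card, Nat.cast_smul_eq_nsmul]
    simp only [e]
    rw [smul_mul_smul_comm, this, smul_smul, mul_assoc, inv_mul_cancel₀ hH, mul_one]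
  have htr : LinearMap.trace ℂ V e = 0 := by
    simp only [e]
    rw [map_smul, map_sum]
    have : ∑ h : H, LinearMap.trace ℂ V (ρ (h : G)) = ∑ h : H, ρ.character h := rfl
    rw [this, h0, smul_zero]
  have he0 : e = 0 := LinearMap.IsIdempotentElem.eq_zero_of_trace_eq_zero he htr
  have hev : e v = v := by
    simp only [e, LinearMap.smul_apply, LinearMap.sum_apply]
    rw [Finset.sum_congr rfl (fun (h : H) _ => hv h h.2), Finset.sum_const, Finset.card_univ,
      ← Nat.card_eq_fintype_card, ← Nat.cast_smul_eq_nsmul ℂ, smul_smul, inv_mul_cancel₀ hH,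
      one_smul]
  rw [← hev, he0, LinearMap.zero_apply]

omit [Fintype Ω] [MulAction.IsPretransitive G Ω] in
theorem hecke_sum_eq_zero (ρ : Representation ℂ G V) (a : Ω) (O : Set Ω) [DecidablePred (· ∈ O)] [Fintype (MulAction.stabilizer G a)]
    (hO : ∀ h ∈ MulAction.stabilizer G a, ∀ y, h • y ∈ O ↔ y ∈ O)
    (h0 : ∑ h : MulAction.stabilizer G a, ρ.character h = 0) :
    (Nat.card (MulAction.stabilizer G a) : ℂ)⁻¹ *
      ∑ g : G, (if g • a ∈ O then ρ.character g else 0) = 0 := by
  rw [← trace_heckeOp]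
  apply trace_eq_zero_of_eigen
  intro μ hμ
  by_contra hne
  obtain ⟨v, hv⟩ := hμ.exists_hasEigenvector
  exact hv.2 (eq_zero_of_fixed ρ _ h0 (heckeOp_eigen_fixed ρ a O hO hne hv.apply_eq_smul))

end Cfsg.Agent.Lib.Helper25
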