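import Cfsg.Agent.Lib.Helper25.Hecke2
import Cfsg.Agent.Lib.Helper7.CharColumn
import Cfsg.Agent.Lib.Helper24.Integrality

set_option autoImplicit false

namespace Cfsg.Agent.Lib.Helper25

open Cfsg
open scoped ComplexConjugate

universe u v

variable {G : Type u} [Group G] [Fintype G] {Ω : Type v} [Fintype Ω] [MulAction G Ω]
  [MulAction.IsPretransitive G Ω]

/-- `[π, χ] = [1_H, χ_H]` -/
theorem classInner_perm_eq (a : Ω) [Fintype (MulAction.stabilizer G a)] {χ : G → ℂ}
    (hχ : IsClassFunction G χ) :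
    classInner (fun g : G => (Nat.card (MulAction.fixedBy Ω g) : ℂ)) χ
      = (Nat.card (MulAction.stabilizer G a) : ℂ)⁻¹ *
        ∑ h : MulAction.stabilizer G a, conj (χ h) := by
  classical
  have hH : (Nat.card (MulAction.stabilizer G a) : ℂ) ≠ 0 := by
    exact_mod_cast Nat.card_pos.ne'
  have hG : (Nat.card G : ℂ) ≠ 0 := by exact_mod_cast Nat.card_pos.ne'
  unfold classInner
  have h1 : ∀ g : G, (Nat.card (MulAction.fixedBy Ω g) : ℂ) * conj (χ g)
      = ∑ y : Ω, if g • y = y then conj (χ g) else 0 := by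
    intro g
    rw [← Finset.sum_filter, Finset.sum_const, nsmul_eq_mul]
    congr 2
    rw [Nat.card_eq_fintype_card, Fintype.card_subtype]
    rfl
  rw [Finset.sum_congr rfl (fun g _ => h1 g), Finset.sum_comm]
  have h2 : ∀ y : Ω, (∑ g : G, if g • y = y then conj (χ g) else 0)
      = ∑ h : MulAction.stabilizer G a, conj (χ h) := by
    intro y
    obtain ⟨t, rfl⟩ := MulAction.exists_smul_eq G a y
    rw [← Finset.sum_filter]
    symm
    apply Finset.sum_bij (fun (h : MulAction.stabilizer G a) _ => t * (h : G) * t⁻¹)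
    · intro h _
      rw [Finset.mem_filter]
      refine ⟨Finset.mem_univ _, ?_⟩
      rw [← mul_smul, inv_mul_cancel_right, mul_smul, h.2]
    · intro h _ k _ e
      apply Subtype.ext
      exact mul_left_cancel (mul_right_cancel e)
    · intro g hg
      have hg' := (Finset.mem_filter.1 hg).2
      refine ⟨⟨t⁻¹ * g * t, ?_⟩, Finset.mem_univ _, by group⟩
      rw [MulAction.mem_stabilizer_iff, mul_smul, mul_smul, hg', inv_smul_smul]
    · intro h _
      rw [hχ]
  rw [Finset.sum_congr rfl (fun y _ => h2 y), Finset.sum_const, Finset.card_univ, nsmul_eq_mul,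
    ← mul_assoc]
  congr 1
  have h3 : Nat.card G = Fintype.card Ω * Nat.card (MulAction.stabilizer G a) := by
    rw [← (MulAction.stabilizer G a).index_mul_card, MulAction.index_stabilizer_of_transitive,
      Nat.card_eq_fintype_card (α := Ω)]
  rw [h3]
  push_cast
  have hΩ : (Fintype.card Ω : ℂ) ≠ 0 := by
    intro h
    rw [h3] at hG
    apply hG
    push_cast
    rw [h, zero_mul]
  field_simp

omit [Fintype Ω] [MulAction.IsPretransitive G Ω] in
/-- the sum of `χ(1) c_χ` vanishes for a union of nontrivial suborbits -/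
theorem sum_degree_mul_hecke [Fintype (IrrCharacter G)] (a : Ω) (O : Set Ω)
    [DecidablePred (· ∈ O)] (ha : a ∉ O) :
    ∑ χ : IrrCharacter G, (χ : G → ℂ) 1 * ((Nat.card (MulAction.stabilizer G a) : ℂ)⁻¹ *
      ∑ g : G, if g • a ∈ O then (χ : G → ℂ) g else 0) = 0 := by
  classical
  have h1 : ∀ χ : IrrCharacter G, (χ : G → ℂ) 1 * ((Nat.card (MulAction.stabilizer G a) : ℂ)⁻¹ *
      ∑ g : G, if g • a ∈ O then (χ : G → ℂ) g else 0)
      = (Nat.card (MulAction.stabilizer G a) : ℂ)⁻¹ *
        ∑ g : G, if g • a ∈ O then (χ : G → ℂ) g * conj ((χ : G → ℂ) 1) else 0 := by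
    intro χ
    rw [Helper7.conj_irr_one, mul_left_comm, Finset.mul_sum]
    congr 1
    apply Finset.sum_congr rfl
    intro g _
    split_ifs
    · rw [mul_comm]
    · rw [mul_zero]
  rw [Finset.sum_congr rfl (fun χ _ => h1 χ), ← Finset.mul_sum, Finset.sum_comm]
  have h2 : ∀ g : G, (∑ χ : IrrCharacter G,
      if g • a ∈ O then (χ : G → ℂ) g * conj ((χ : G → ℂ) 1) else 0) = 0 := by
    intro g
    split_ifs with hg
    · apply Helper7.column_orthogonality_ne
      intro hc
      have : g = 1 := by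
        rw [isConj_comm, isConj_one_right] at hc
        exact hc
      rw [this, one_smul] at hg
      exact ha hg
    · simp
  rw [Finset.sum_congr rfl (fun g _ => h2 g)]
  simp

theorem hecke_one (a : Ω) (O : Set Ω) [DecidablePred (· ∈ O)] :
    (Nat.card (MulAction.stabilizer G a) : ℂ)⁻¹ * (∑ g : G, if g • a ∈ O then (1 : ℂ) else 0)
      = (Nat.card O : ℂ) := by
  classical
  have hH : (Nat.card (MulAction.stabilizer G a) : ℂ) ≠ 0 := by
    exact_mod_cast Nat.card_pos.ne'
  rw [sum_comp_smul a (fun y => if y ∈ O then (1 : ℂ) else 0), nsmul_eq_mul, ← mul_assoc,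
    inv_mul_cancel₀ hH, one_mul, ← Finset.sum_filter, Finset.sum_const, nsmul_eq_mul, mul_one,
    Nat.card_eq_fintype_card, Fintype.card_subtype]

/-- Frame-type divisibility -/
theorem dvd_card_suborbit (f : ℕ)
    (hf : ∀ χ : G → ℂ, IsIrrCharacter G χ → χ ≠ (fun _ => 1) →
      classInner (fun g : G => (Nat.card (MulAction.fixedBy Ω g) : ℂ)) χ ≠ 0 →
      ∃ m : ℕ, χ 1 = (f : ℂ) * m) (a : Ω) (O : Set Ω) (ha : a ∉ O)
    (hO : ∀ h ∈ MulAction.stabilizer G a, ∀ y, h • y ∈ O ↔ y ∈ O) : f ∣ Nat.card O := by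
  classical
  have : Fintype (IrrCharacter G) := Fintype.ofFinite _
  have hsum := sum_degree_mul_hecke (G := G) a O ha
  let c : IrrCharacter G → ℂ := fun χ => (Nat.card (MulAction.stabilizer G a) : ℂ)⁻¹ *
      ∑ g : G, if g • a ∈ O then (χ : G → ℂ) g else 0
  let χ₁ : IrrCharacter G := ⟨fun _ => 1, Helper7.isIrrCharacter_one⟩
  have hz : ∀ χ : IrrCharacter G, χ ≠ χ₁ → ∃ z : ℂ, IsIntegral ℤ z ∧
      (χ : G → ℂ) 1 * c χ = (f : ℂ) * z := by
    intro χ hne
    obtain ⟨n, ρ, -, hρ⟩ := χ.2
    have hne' : (χ : G → ℂ) ≠ fun _ => 1 := fun h => hne (Subtype.ext h)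
    have hc : c χ = (Nat.card (MulAction.stabilizer G a) : ℂ)⁻¹ *
      ∑ g : G, if g • a ∈ O then ρ.character g else 0 := by
      simp only [c, hρ]
    by_cases hm : classInner (fun g : G => (Nat.card (MulAction.fixedBy Ω g) : ℂ)) χ = 0
    · refine ⟨0, isIntegral_zero, ?_⟩
      rw [classInner_perm_eq a (Helper7.isClassFunction_of_isCharacter (Helper7.isCharacter_of_irr χ.2))] at hm
      have hH : (Nat.card (MulAction.stabilizer G a) : ℂ)⁻¹ ≠ 0 := by
        apply inv_ne_zero
        exact_mod_cast Nat.card_pos.ne'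
      have h0 : ∑ h : MulAction.stabilizer G a, ρ.character h = 0 := by
        have h1 := (mul_eq_zero.1 hm).resolve_left hH
        have h2 := congrArg conj h1
        rw [map_sum, map_zero] at h2
        simpa [hρ] using h2
      rw [hc, hecke_sum_eq_zero ρ a O hO h0]
      simp
    · obtain ⟨m, hm'⟩ := hf χ χ.2 hne' hm
      refine ⟨m * c χ, ?_, by rw [hm']; ring⟩
      have hmi : IsIntegral ℤ (m : ℂ) := by
        have := isIntegral_algebraMap (R := ℤ) (A := ℂ) (x := (m : ℤ))
        simpa using this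
      apply IsIntegral.mul hmi
      rw [hc]
      exact isIntegral_hecke_sum ρ a O hO
  choose! z hz1 hz2 using hz
  have hc1 : (χ₁ : G → ℂ) 1 * c χ₁ = (Nat.card O : ℂ) := by
    simp only [c, χ₁, one_mul]
    exact hecke_one a O
  have hsum' : (Nat.card O : ℂ) + (f : ℂ) * ∑ χ ∈ Finset.univ.erase χ₁, z χ = 0 := by
    rw [← hsum, ← Finset.add_sum_erase _ _ (Finset.mem_univ χ₁), Finset.mul_sum]
    congr 1
    · exact hc1.symm
    · apply Finset.sum_congr rfl
      intro χ hχ
      exact (hz2 χ (Finset.ne_of_mem_erase hχ)).symm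
  by_cases hf0 : f = 0
  · rw [hf0] at hsum' ⊢
    simp only [Nat.cast_zero, zero_mul, add_zero] at hsum'
    have : Nat.card O = 0 := by exact_mod_cast hsum'
    rw [this]
  · apply Helper24.dvd_of_isIntegral_div _ _ hf0
    have hfc : (f : ℂ) ≠ 0 := by exact_mod_cast hf0
    have : (Nat.card O : ℂ) / (f : ℂ) = - ∑ χ ∈ Finset.univ.erase χ₁, z χ := by
      rw [div_eq_iff hfc]
      linear_combination hsum'
    rw [this]
    apply IsIntegral.neg
    apply IsIntegral.sum
    intro χ hχ
    exact hz1 χ (Finset.ne_of_mem_erase hχ)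

end Cfsg.Agent.Lib.Helper25
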