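import Cfsg.Agent.Lib.Helper25.Hecke3

set_option autoImplicit false

namespace Cfsg.Agent.Lib.Helper25

open Cfsg
open scoped ComplexConjugate

universe u v

variable {G : Type u} [Group G] [Fintype G] {Ω : Type v} [Fintype Ω] [MulAction G Ω]
  [MulAction.IsPretransitive G Ω]

/-- multiplicities of the permutation character -/
theorem perm_mult_data (a : Ω) [Fintype (IrrCharacter G)] :
    ∃ m d : IrrCharacter G → ℕ,
      (∀ χ : IrrCharacter G,
        classInner (fun g : G => (Nat.card (MulAction.fixedBy Ω g) : ℂ)) (χ : G → ℂ) = m χ) ∧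
      (∀ χ : IrrCharacter G, 0 < d χ ∧ (χ : G → ℂ) 1 = d χ) ∧
      m ⟨fun _ => 1, Helper7.isIrrCharacter_one⟩ = 1 ∧
      Fintype.card Ω = ∑ χ, m χ * d χ ∧
      Nat.card (MulAction.orbitRel.Quotient (MulAction.stabilizer G a) Ω) = ∑ χ, m χ * m χ := by
  classical
  have hπ : IsCharacter G (fun g : G => (Nat.card (MulAction.fixedBy Ω g) : ℂ)) :=
    isCharacter_permChar (G := G) Ω
  obtain ⟨m, hm, hsum⟩ := Helper7.character_eq_sum_nat hπ
  choose d hd using fun χ : IrrCharacter G => Helper7.irr_apply_one χ.2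
  refine ⟨m, d, hm, hd, ?_, ?_, ?_⟩
  · have h1 := classInner_permChar_one (G := G) Ω
    have h2 := hm ⟨fun _ => 1, Helper7.isIrrCharacter_one⟩
    have h3 : Nat.card (MulAction.orbitRel.Quotient G Ω) = 1 := by
      have : Nonempty Ω := ⟨a⟩
      have := (MulAction.pretransitive_iff_unique_quotient_of_nonempty G Ω).1 inferInstance
      obtain ⟨u⟩ := this
      exact Nat.card_unique
    have h4 : (m ⟨fun _ => 1, Helper7.isIrrCharacter_one⟩ : ℂ) = 1 := by
      rw [← h2]
      have : classInner (fun g : G => (Nat.card (MulAction.fixedBy Ω g) : ℂ)) (fun _ => 1)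
        = (Nat.card (MulAction.orbitRel.Quotient G Ω) : ℂ) := h1
      rw [this, h3, Nat.cast_one]
    exact_mod_cast h4
  · have h1 := congrFun hsum 1
    simp only [Finset.sum_apply, Pi.smul_apply] at h1
    simp only [nsmul_eq_mul] at h1
    have h2 : (Nat.card (MulAction.fixedBy Ω (1 : G)) : ℂ) = Fintype.card Ω := by
      have : MulAction.fixedBy Ω (1 : G) = Set.univ := by
        ext x
        simp [MulAction.mem_fixedBy]
      rw [this, Nat.card_coe_set_eq, Set.ncard_univ, Nat.card_eq_fintype_card]
    rw [h2] at h1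
    have h3 : (Fintype.card Ω : ℂ) = ((∑ χ, m χ * d χ : ℕ) : ℂ) := by
      rw [h1]
      push_cast
      apply Finset.sum_congr rfl
      intro χ _
      rw [(hd χ).2]
    exact_mod_cast h3
  · have hcl := Helper7.isClassFunction_of_isCharacter hπ
    have h1 := Helper7.classInner_eq_sum (f₂ := fun g : G => (Nat.card (MulAction.fixedBy Ω g) : ℂ))
      hcl
    rw [classInner_perm_eq a hcl] at h1
    simp only [hm, map_natCast] at h1
    have h2 := sum_permChar (G := MulAction.stabilizer G a) Ω
    have h3 : ∑ h : MulAction.stabilizer G a, (Nat.card (MulAction.fixedBy Ω (h : G)) : ℂ)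
        = ∑ h : MulAction.stabilizer G a, permChar (MulAction.stabilizer G a) Ω h := rfl
    rw [h3, h2] at h1
    have hH : (Nat.card (MulAction.stabilizer G a) : ℂ) ≠ 0 := by
      exact_mod_cast Nat.card_pos.ne'
    rw [mul_comm, mul_assoc, mul_inv_cancel₀ hH, mul_one] at h1
    exact_mod_cast h1

omit [Fintype G] [MulAction.IsPretransitive G Ω] in
/-- the orbit lengths of a group add up to the degree -/
theorem card_eq_sum_orbits (H : Subgroup G) [Fintype (MulAction.orbitRel.Quotient H Ω)] :
    Fintype.card Ω = ∑ ω : MulAction.orbitRel.Quotient H Ω, Nat.card ω.orbit := by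
  classical
  rw [Fintype.card_congr (MulAction.selfEquivSigmaOrbits' H Ω), Fintype.card_sigma]
  apply Finset.sum_congr rfl
  intro ω _
  rw [Nat.card_eq_fintype_card]

end Cfsg.Agent.Lib.Helper25
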