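import Cfsg.Agent.Lib.Helper25.Hecke4

set_option autoImplicit false

namespace Cfsg.Agent.Lib.Helper25

open Cfsg
open scoped ComplexConjugate

universe u v

variable {G : Type u} [Group G] [Fintype G] {Ω : Type v} [Fintype Ω] [MulAction G Ω]
  [MulAction.IsPretransitive G Ω]

theorem dvd_card_orbit (f : ℕ)
    (hf : ∀ χ : G → ℂ, IsIrrCharacter G χ → χ ≠ (fun _ => 1) →
      classInner (fun g : G => (Nat.card (MulAction.fixedBy Ω g) : ℂ)) χ ≠ 0 →
      ∃ m : ℕ, χ 1 = (f : ℂ) * m) (a b : Ω) (hab : b ≠ a) :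
    f ∣ Nat.card (MulAction.orbit (MulAction.stabilizer G a) b) := by
  classical
  apply dvd_card_suborbit f hf a (MulAction.orbit (MulAction.stabilizer G a) b)
  · rintro ⟨h, hh⟩
    apply hab
    have h1 : (h : G) • b = a := hh
    have h2 : (h : G) • a = a := h.2
    exact smul_left_cancel (h : G) (h1.trans h2.symm)
  · intro h hh y
    constructor
    · rintro ⟨k, hk⟩
      refine ⟨(⟨h, hh⟩ : MulAction.stabilizer G a)⁻¹ * k, ?_⟩
      have hk' : (k : G) • b = h • y := hk
      show ((⟨h, hh⟩ : MulAction.stabilizer G a)⁻¹ * k : MulAction.stabilizer G a).1 • b = y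
      simp only [Subgroup.coe_mul, Subgroup.coe_inv, mul_smul, hk', inv_smul_smul]
    · rintro ⟨k, hk⟩
      refine ⟨(⟨h, hh⟩ : MulAction.stabilizer G a) * k, ?_⟩
      have hk' : (k : G) • b = y := hk
      show ((⟨h, hh⟩ : MulAction.stabilizer G a) * k : MulAction.stabilizer G a).1 • b = h • y
      simp only [Subgroup.coe_mul, mul_smul, hk']

theorem equal_degree (a : Ω) (f : ℕ)
    (hf : ∀ χ : G → ℂ, IsIrrCharacter G χ → χ ≠ (fun _ => 1) →
      classInner (fun g : G => (Nat.card (MulAction.fixedBy Ω g) : ℂ)) χ ≠ 0 → χ 1 = f) :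
    (∀ χ : G → ℂ, IsIrrCharacter G χ →
      classInner (fun g : G => (Nat.card (MulAction.fixedBy Ω g) : ℂ)) χ = 0 ∨
      classInner (fun g : G => (Nat.card (MulAction.fixedBy Ω g) : ℂ)) χ = 1) ∧
    ∀ b : Ω, b ≠ a → Nat.card (MulAction.orbit (MulAction.stabilizer G a) b) = f := by
  classical
  have : Fintype (IrrCharacter G) := Fintype.ofFinite _
  have : Fintype (MulAction.orbitRel.Quotient (MulAction.stabilizer G a) Ω) := Fintype.ofFinite _
  obtain ⟨m, d, hm, hd, hm1, hn, hr⟩ := perm_mult_data (G := G) a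
  set χ₁ : IrrCharacter G := ⟨fun _ => 1, Helper7.isIrrCharacter_one⟩ with hχ₁
  have hdeg : ∀ χ : IrrCharacter G, χ ≠ χ₁ → m χ ≠ 0 → d χ = f := by
    intro χ hne hm0
    have h1 := hf χ χ.2 (fun h => hne (Subtype.ext h)) (by rw [hm]; exact_mod_cast hm0)
    rw [(hd χ).2] at h1
    exact_mod_cast h1
  have hd1 : d χ₁ = 1 := by
    have := (hd χ₁).2
    have h2 : (χ₁ : G → ℂ) 1 = 1 := rfl
    rw [h2] at this
    exact_mod_cast this.symm
  have hn' : Fintype.card Ω = 1 + f * ∑ χ ∈ Finset.univ.erase χ₁, m χ := by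
    rw [hn, ← Finset.add_sum_erase _ _ (Finset.mem_univ χ₁), hm1, hd1, Finset.mul_sum]
    congr 1
    apply Finset.sum_congr rfl
    intro χ hχ
    by_cases h0 : m χ = 0
    · rw [h0]; simp
    · rw [hdeg χ (Finset.ne_of_mem_erase hχ) h0, mul_comm]
  have hr' : Fintype.card (MulAction.orbitRel.Quotient (MulAction.stabilizer G a) Ω)
      = 1 + ∑ χ ∈ Finset.univ.erase χ₁, m χ * m χ := by
    rw [← Nat.card_eq_fintype_card, hr, ← Finset.add_sum_erase _ _ (Finset.mem_univ χ₁), hm1]
  set qa : MulAction.orbitRel.Quotient (MulAction.stabilizer G a) Ω := Quotient.mk'' a with hqa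
  have horb := card_eq_sum_orbits (Ω := Ω) (MulAction.stabilizer G a)
  have hqa1 : Nat.card qa.orbit = 1 := by
    rw [hqa, MulAction.orbitRel.Quotient.orbit_mk]
    have : MulAction.orbit (MulAction.stabilizer G a) a = {a} := by
      ext y
      constructor
      · rintro ⟨h, hh⟩
        have h1 : (h : G) • a = y := hh
        rw [← h1, h.2]
        rfl
      · rintro rfl
        exact MulAction.mem_orbit_self _
    rw [this]
    simp
  rw [← Finset.add_sum_erase _ _ (Finset.mem_univ qa), hqa1] at horb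
  have hf' : ∀ χ : G → ℂ, IsIrrCharacter G χ → χ ≠ (fun _ => 1) →
      classInner (fun g : G => (Nat.card (MulAction.fixedBy Ω g) : ℂ)) χ ≠ 0 →
      ∃ m : ℕ, χ 1 = (f : ℂ) * m := by
    intro χ h1 h2 h3
    exact ⟨1, by rw [hf χ h1 h2 h3]; simp⟩
  have hmk : ∀ b : Ω, b ≠ a →
      (Quotient.mk'' b : MulAction.orbitRel.Quotient (MulAction.stabilizer G a) Ω) ≠ qa := by
    intro b hb h
    have h1 : b ∈ MulAction.orbit (MulAction.stabilizer G a) a := by
      have := Quotient.eq''.1 h
      exact this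
    obtain ⟨k, hk⟩ := h1
    have h2 : (k : G) • a = b := hk
    rw [k.2] at h2
    exact hb h2.symm
  have hle : ∀ ω ∈ Finset.univ.erase qa, f ≤ Nat.card ω.orbit := by
    intro ω hω
    have hne := Finset.ne_of_mem_erase hω
    induction ω using Quotient.inductionOn' with
    | h b =>
      have hb : b ≠ a := by
        rintro rfl
        exact hne rfl
      rw [MulAction.orbitRel.Quotient.orbit_mk]
      apply Nat.le_of_dvd
      · have : Nonempty (MulAction.orbit (MulAction.stabilizer G a) b) :=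
          ⟨⟨b, MulAction.mem_orbit_self _⟩⟩
        exact Nat.card_pos
      · exact dvd_card_orbit f hf' a b hb
  have hcardQ : (Finset.univ.erase qa).card = ∑ χ ∈ Finset.univ.erase χ₁, m χ * m χ := by
    rw [Finset.card_erase_of_mem (Finset.mem_univ _), Finset.card_univ, hr']
    simp
  have hAB : ∑ χ ∈ Finset.univ.erase χ₁, m χ ≤ ∑ χ ∈ Finset.univ.erase χ₁, m χ * m χ := by
    apply Finset.sum_le_sum
    intro χ _
    exact Nat.le_mul_self _
  have hsumle : f * ∑ χ ∈ Finset.univ.erase χ₁, m χ * m χ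
      ≤ ∑ ω ∈ Finset.univ.erase qa, Nat.card ω.orbit := by
    rw [← hcardQ, mul_comm, ← smul_eq_mul, ← Finset.sum_const]
    exact Finset.sum_le_sum hle
  have heq : ∑ ω ∈ Finset.univ.erase qa, Nat.card ω.orbit
      = f * ∑ χ ∈ Finset.univ.erase χ₁, m χ := by
    omega
  by_cases hf0 : f = 0
  · have hm0 : ∀ χ : IrrCharacter G, χ ≠ χ₁ → m χ = 0 := by
      intro χ hne
      by_contra h0
      have := hdeg χ hne h0
      have h2 := (hd χ).1
      omega
    constructor
    · intro χ hχ
      by_cases h1 : (⟨χ, hχ⟩ : IrrCharacter G) = χ₁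
      · right
        have := hm ⟨χ, hχ⟩
        rw [h1, hm1] at this
        have h2 : χ = (χ₁ : G → ℂ) := congrArg Subtype.val h1
        rw [h2, this, Nat.cast_one]
      · left
        have := hm ⟨χ, hχ⟩
        rw [hm0 _ h1] at this
        simpa using this
    · intro b hb
      exfalso
      rw [hf0, zero_mul, add_zero] at hn'
      exact hb ((Fintype.card_le_one_iff.1 hn'.le) b a)
  · have hfpos : 0 < f := Nat.pos_of_ne_zero hf0
    have hBA : ∑ χ ∈ Finset.univ.erase χ₁, m χ * m χ ≤ ∑ χ ∈ Finset.univ.erase χ₁, m χ := by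
      rw [heq] at hsumle
      exact Nat.le_of_mul_le_mul_left hsumle hfpos
    have hABeq := le_antisymm hAB hBA
    have hmm : ∀ χ ∈ Finset.univ.erase χ₁, m χ = m χ * m χ :=
      (Finset.sum_eq_sum_iff_of_le (fun χ _ => Nat.le_mul_self _)).1 hABeq
    constructor
    · intro χ hχ
      have h0 := hm ⟨χ, hχ⟩
      simp only at h0
      rw [h0]
      by_cases h1 : (⟨χ, hχ⟩ : IrrCharacter G) = χ₁
      · right
        rw [h1, hm1, Nat.cast_one]
      · have h2 := hmm ⟨χ, hχ⟩ (Finset.mem_erase.2 ⟨h1, Finset.mem_univ _⟩)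
        rcases Nat.eq_zero_or_pos (m ⟨χ, hχ⟩) with h3 | h3
        · left; rw [h3, Nat.cast_zero]
        · right
          have : m ⟨χ, hχ⟩ = 1 := by nlinarith
          rw [this, Nat.cast_one]
    · intro b hb
      have h1 : ∑ ω ∈ Finset.univ.erase qa, f = ∑ ω ∈ Finset.univ.erase qa, Nat.card ω.orbit := by
        rw [Finset.sum_const, hcardQ, heq, hABeq, smul_eq_mul, mul_comm]
      have h2 := (Finset.sum_eq_sum_iff_of_le hle).1 h1 (Quotient.mk'' b)
        (Finset.mem_erase.2 ⟨hmk b hb, Finset.mem_univ _⟩)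
      rw [MulAction.orbitRel.Quotient.orbit_mk] at h2
      exact h2.symm

end Cfsg.Agent.Lib.Helper25
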