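import Cfsg.Agent.Lib.Helper25.Hecke5

set_option autoImplicit false

namespace Cfsg.Agent.Lib.Helper25

open Cfsg
open scoped ComplexConjugate

universe u v

section avg

variable {G : Type u} [Group G] {V : Type*} [AddCommGroup V] [Module ℂ V]

/-- the averaging operator over a subgroup -/
noncomputable def avgEnd (ρ : Representation ℂ G V) (H : Subgroup G) [Fintype H] :
    Module.End ℂ V := (Nat.card H : ℂ)⁻¹ • ∑ h : H, ρ h

theorem rho_mul_sum (ρ : Representation ℂ G V) (H : Subgroup G) [Fintype H] (k : H) :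
    ρ k * ∑ h : H, ρ h = ∑ h : H, ρ h := by
  rw [Finset.mul_sum]
  apply Fintype.sum_equiv (Equiv.mulLeft k)
  intro h
  simp [map_mul]

theorem avgEnd_idem (ρ : Representation ℂ G V) (H : Subgroup G) [Fintype H] :
    IsIdempotentElem (avgEnd ρ H) := by
  have hH : (Nat.card H : ℂ) ≠ 0 := by exact_mod_cast Nat.card_pos.ne'
  show avgEnd ρ H * avgEnd ρ H = avgEnd ρ H
  have : (∑ h : H, ρ (h : G)) * (∑ h : H, ρ (h : G)) = (Nat.card H : ℂ) • ∑ h : H, ρ (h : G) := by
    rw [Finset.sum_mul, Finset.sum_congr rfl (fun k _ => rho_mul_sum ρ H k), Finset.sum_const,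
      Finset.card_univ, ← Nat.card_eq_fintype_card, Nat.cast_smul_eq_nsmul]
  unfold avgEnd
  rw [smul_mul_smul_comm, this, smul_smul, mul_assoc, inv_mul_cancel₀ hH, mul_one]

theorem trace_avgEnd (ρ : Representation ℂ G V) (H : Subgroup G) [Fintype H] :
    LinearMap.trace ℂ V (avgEnd ρ H) = (Nat.card H : ℂ)⁻¹ * ∑ h : H, ρ.character h := by
  unfold avgEnd
  rw [map_smul, map_sum, smul_eq_mul]
  rfl

/-- an operator absorbed on both sides by a projection of rank at most one -/
theorem trace_sq_of_rank_le_one [FiniteDimensional ℂ V] (e T : Module.End ℂ V)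
    (he : IsIdempotentElem e) (h1 : T * e = T) (h2 : e * T = T)
    (htr : LinearMap.trace ℂ V e = 0 ∨ LinearMap.trace ℂ V e = 1) :
    LinearMap.trace ℂ V (T * T) = LinearMap.trace ℂ V T * LinearMap.trace ℂ V T := by
  rcases htr with htr | htr
  · have he0 : e = 0 := LinearMap.IsIdempotentElem.eq_zero_of_trace_eq_zero he htr
    rw [he0, mul_zero] at h1
    rw [← h1]
    simp
  · have hrank : Module.finrank ℂ (LinearMap.range e) = 1 := by
      have := (LinearMap.IsIdempotentElem.isProj_range e he).trace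
      rw [htr] at this
      exact_mod_cast this.symm
    obtain ⟨⟨v, hvr⟩, hv0, hspan⟩ := finrank_eq_one_iff'.1 hrank
    have hTv : T v ∈ LinearMap.range e := by
      rw [← h2]
      exact ⟨T v, rfl⟩
    obtain ⟨c, hc⟩ := hspan ⟨T v, hTv⟩
    have hc' : c • v = T v := congrArg Subtype.val hc
    have hT : T = c • e := by
      apply LinearMap.ext
      intro w
      obtain ⟨d, hd⟩ := hspan ⟨e w, LinearMap.mem_range_self e w⟩
      have hd' : d • v = e w := congrArg Subtype.val hd
      calc T w = (T * e) w := by rw [h1]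
        _ = T (e w) := rfl
        _ = d • T v := by rw [← hd', map_smul]
        _ = c • (e w) := by rw [← hc', ← hd', smul_comm]
    have hee : e * e = e := he
    rw [hT, smul_mul_smul_comm, hee, map_smul, map_smul, htr]
    simp

end avg

variable {G : Type u} [Group G] [Fintype G] {Ω : Type v} [MulAction G Ω]
  {V : Type*} [AddCommGroup V] [Module ℂ V]

theorem heckeOp_mul_rho (ρ : Representation ℂ G V) (a : Ω) (O : Set Ω) [DecidablePred (· ∈ O)]
    (h : G) (hh : h ∈ MulAction.stabilizer G a) : heckeOp ρ a O * ρ h = heckeOp ρ a O := by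
  unfold heckeOp
  rw [smul_mul_assoc, Finset.sum_mul]
  congr 1
  apply Fintype.sum_equiv (Equiv.mulRight h)
  intro g
  have : (g * h) • a = g • a := by rw [mul_smul, hh]
  simp only [Equiv.coe_mulRight, this]
  split_ifs with hg
  · rw [map_mul]
  · simp

theorem rho_mul_heckeOp (ρ : Representation ℂ G V) (a : Ω) (O : Set Ω) [DecidablePred (· ∈ O)]
    (hO : ∀ h ∈ MulAction.stabilizer G a, ∀ y, h • y ∈ O ↔ y ∈ O)
    (h : G) (hh : h ∈ MulAction.stabilizer G a) : ρ h * heckeOp ρ a O = heckeOp ρ a O := by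
  apply LinearMap.ext
  intro v
  exact rho_heckeOp ρ a O hO h hh v

theorem heckeOp_mul_avg (ρ : Representation ℂ G V) (a : Ω) (O : Set Ω) [DecidablePred (· ∈ O)]
    [Fintype (MulAction.stabilizer G a)] :
    heckeOp ρ a O * avgEnd ρ (MulAction.stabilizer G a) = heckeOp ρ a O := by
  have hH : (Nat.card (MulAction.stabilizer G a) : ℂ) ≠ 0 := by
    exact_mod_cast Nat.card_pos.ne'
  unfold avgEnd
  rw [mul_smul_comm, Finset.mul_sum,
    Finset.sum_congr rfl (fun (h : MulAction.stabilizer G a) _ => heckeOp_mul_rho ρ a O h h.2),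
    Finset.sum_const, Finset.card_univ, ← Nat.card_eq_fintype_card, ← Nat.cast_smul_eq_nsmul ℂ,
    smul_smul, inv_mul_cancel₀ hH, one_smul]

theorem avg_mul_heckeOp (ρ : Representation ℂ G V) (a : Ω) (O : Set Ω) [DecidablePred (· ∈ O)]
    [Fintype (MulAction.stabilizer G a)]
    (hO : ∀ h ∈ MulAction.stabilizer G a, ∀ y, h • y ∈ O ↔ y ∈ O) :
    avgEnd ρ (MulAction.stabilizer G a) * heckeOp ρ a O = heckeOp ρ a O := by
  have hH : (Nat.card (MulAction.stabilizer G a) : ℂ) ≠ 0 := by
    exact_mod_cast Nat.card_pos.ne'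
  unfold avgEnd
  rw [smul_mul_assoc, Finset.sum_mul,
    Finset.sum_congr rfl
      (fun (h : MulAction.stabilizer G a) _ => rho_mul_heckeOp ρ a O hO h h.2),
    Finset.sum_const, Finset.card_univ, ← Nat.card_eq_fintype_card, ← Nat.cast_smul_eq_nsmul ℂ,
    smul_smul, inv_mul_cancel₀ hH, one_smul]

theorem trace_heckeOp_mul (ρ : Representation ℂ G V) (a : Ω) (O : Set Ω)
    [DecidablePred (· ∈ O)] :
    LinearMap.trace ℂ V (heckeOp ρ a O * heckeOp ρ a O)
      = (Nat.card (MulAction.stabilizer G a) : ℂ)⁻¹ * (Nat.card (MulAction.stabilizer G a) : ℂ)⁻¹ *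
        ∑ g : G, ∑ g' : G, if g • a ∈ O ∧ g' • a ∈ O then ρ.character (g * g') else 0 := by
  unfold heckeOp
  rw [smul_mul_smul_comm, map_smul, smul_eq_mul, Finset.sum_mul_sum, map_sum]
  congr 1
  apply Finset.sum_congr rfl
  intro g _
  rw [map_sum]
  apply Finset.sum_congr rfl
  intro g' _
  by_cases h1 : g • a ∈ O <;> by_cases h2 : g' • a ∈ O <;> simp [h1, h2, Representation.character]

end Cfsg.Agent.Lib.Helper25
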