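import Cfsg.Agent.Lib.Helper25.Hecke8

set_option autoImplicit false

namespace Cfsg.Agent.Lib.Helper25

open Cfsg
open scoped ComplexConjugate

universe u v

variable {G : Type u} [Group G] [Fintype G] {Ω : Type v} [Fintype Ω] [MulAction G Ω]
  [MulAction.IsPretransitive G Ω]

omit [Fintype Ω] [MulAction G Ω] [MulAction.IsPretransitive G Ω] in
theorem sum_irr_reg [Fintype (IrrCharacter G)] [DecidableEq G] (x : G) :
    ∑ χ : IrrCharacter G, (χ : G → ℂ) x * conj ((χ : G → ℂ) 1)
      = if x = 1 then (Nat.card G : ℂ) else 0 := by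
  classical
  split_ifs with h
  · rw [h, Helper7.column_orthogonality_self]
    congr 1
    have : Subgroup.centralizer ({1} : Set G) = ⊤ := by
      rw [eq_top_iff]
      intro g _
      rw [Subgroup.mem_centralizer_singleton_iff]
      simp
    rw [this, Subgroup.card_top]
  · apply Helper7.column_orthogonality_ne
    intro hc
    rw [isConj_comm, isConj_one_right] at hc
    exact h hc

theorem sum_degree_mul_hecke_sq [Fintype (IrrCharacter G)] (a : Ω) (O : Set Ω)
    [DecidablePred (· ∈ O)] (hsp : ∀ g : G, g • a ∈ O → g⁻¹ • a ∈ O) :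
    ∑ χ : IrrCharacter G, (χ : G → ℂ) 1 *
      ((Nat.card (MulAction.stabilizer G a) : ℂ)⁻¹ * (Nat.card (MulAction.stabilizer G a) : ℂ)⁻¹ *
        ∑ g : G, ∑ g' : G, if g • a ∈ O ∧ g' • a ∈ O then (χ : G → ℂ) (g * g') else 0)
      = (Fintype.card Ω : ℂ) * (Nat.card O : ℂ) := by
  classical
  have hH : (Nat.card (MulAction.stabilizer G a) : ℂ) ≠ 0 := by
    exact_mod_cast Nat.card_pos.ne'
  have h1 : ∀ χ : IrrCharacter G, (χ : G → ℂ) 1 *
      ((Nat.card (MulAction.stabilizer G a) : ℂ)⁻¹ * (Nat.card (MulAction.stabilizer G a) : ℂ)⁻¹ *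
        ∑ g : G, ∑ g' : G, if g • a ∈ O ∧ g' • a ∈ O then (χ : G → ℂ) (g * g') else 0)
      = (Nat.card (MulAction.stabilizer G a) : ℂ)⁻¹ * (Nat.card (MulAction.stabilizer G a) : ℂ)⁻¹ *
        ∑ g : G, ∑ g' : G, if g • a ∈ O ∧ g' • a ∈ O then
          (χ : G → ℂ) (g * g') * conj ((χ : G → ℂ) 1) else 0 := by
    intro χ
    rw [Helper7.conj_irr_one, mul_left_comm, Finset.mul_sum]
    congr 1
    apply Finset.sum_congr rfl
    intro g _
    rw [Finset.mul_sum]
    apply Finset.sum_congr rfl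
    intro g' _
    split_ifs
    · rw [mul_comm]
    · rw [mul_zero]
  rw [Finset.sum_congr rfl (fun χ _ => h1 χ), ← Finset.mul_sum, Finset.sum_comm]
  have h2 : ∀ g : G, (∑ χ : IrrCharacter G, ∑ g' : G, if g • a ∈ O ∧ g' • a ∈ O then
          (χ : G → ℂ) (g * g') * conj ((χ : G → ℂ) 1) else 0)
      = (Nat.card G : ℂ) * if g • a ∈ O then 1 else 0 := by
    intro g
    rw [Finset.sum_comm]
    have h3 : ∀ g' : G, (∑ χ : IrrCharacter G, if g • a ∈ O ∧ g' • a ∈ O then
          (χ : G → ℂ) (g * g') * conj ((χ : G → ℂ) 1) else 0)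
        = if g' = g⁻¹ then ((Nat.card G : ℂ) * if g • a ∈ O then 1 else 0) else 0 := by
      intro g'
      by_cases hc : g • a ∈ O ∧ g' • a ∈ O
      · simp only [if_pos hc, if_pos hc.1, mul_one]
        rw [sum_irr_reg]
        have : g * g' = 1 ↔ g' = g⁻¹ := by
          constructor
          · intro h; exact eq_inv_of_mul_eq_one_right h
          · intro h; rw [h, mul_inv_cancel]
        simp only [this]
      · simp only [if_neg hc, Finset.sum_const_zero]
        split_ifs with h4 h5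
        · exfalso
          apply hc
          exact ⟨h5, by rw [h4]; exact hsp g h5⟩
        · simp
        · rfl
    rw [Finset.sum_congr rfl (fun g' _ => h3 g'), Finset.sum_ite_eq' Finset.univ g⁻¹]
    simp
  rw [Finset.sum_congr rfl (fun g _ => h2 g), ← Finset.mul_sum]
  have h4 := hecke_one (G := G) a O
  have h5 : (∑ g : G, if g • a ∈ O then (1 : ℂ) else 0)
      = (Nat.card (MulAction.stabilizer G a) : ℂ) * (Nat.card O : ℂ) := by
    rw [← h4, ← mul_assoc, mul_inv_cancel₀ hH, one_mul]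
  rw [h5]
  have h6 : (Nat.card G : ℂ) = (Fintype.card Ω : ℂ) * (Nat.card (MulAction.stabilizer G a) : ℂ) := by
    rw [← (MulAction.stabilizer G a).index_mul_card, MulAction.index_stabilizer_of_transitive,
      Nat.card_eq_fintype_card (α := Ω)]
    push_cast
    rfl
  rw [h6]
  field_simp

/-- second moment of the Hecke eigenvalues in the multiplicity-free case -/
theorem sum_degree_mul_sq [Fintype (IrrCharacter G)]
    (hmf : ∀ χ : G → ℂ, IsIrrCharacter G χ →
      classInner (fun g : G => (Nat.card (MulAction.fixedBy Ω g) : ℂ)) χ = 0 ∨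
      classInner (fun g : G => (Nat.card (MulAction.fixedBy Ω g) : ℂ)) χ = 1)
    (a : Ω) (O : Set Ω) [DecidablePred (· ∈ O)]
    (hO : ∀ h ∈ MulAction.stabilizer G a, ∀ y, h • y ∈ O ↔ y ∈ O)
    (hsp : ∀ g : G, g • a ∈ O → g⁻¹ • a ∈ O) :
    ∑ χ : IrrCharacter G, (χ : G → ℂ) 1 *
      (((Nat.card (MulAction.stabilizer G a) : ℂ)⁻¹ *
        ∑ g : G, if g • a ∈ O then (χ : G → ℂ) g else 0) *
      ((Nat.card (MulAction.stabilizer G a) : ℂ)⁻¹ *
        ∑ g : G, if g • a ∈ O then (χ : G → ℂ) g else 0))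
      = (Fintype.card Ω : ℂ) * (Nat.card O : ℂ) := by
  classical
  rw [← sum_degree_mul_hecke_sq a O hsp]
  apply Finset.sum_congr rfl
  intro χ _
  congr 1
  obtain ⟨n, ρ, -, hρ⟩ := χ.2
  rw [← hρ, ← trace_heckeOp, ← trace_heckeOp_mul]
  symm
  apply trace_sq_of_rank_le_one (avgEnd ρ (MulAction.stabilizer G a)) _ (avgEnd_idem _ _)
    (heckeOp_mul_avg ρ a O) (avg_mul_heckeOp ρ a O hO)
  rw [trace_avgEnd, hρ]
  have h1 := classInner_perm_eq (Ω := Ω) a (Helper7.isClassFunction_of_isCharacter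
    (Helper7.isCharacter_of_irr χ.2))
  have h2 : conj (classInner (fun g : G => (Nat.card (MulAction.fixedBy Ω g) : ℂ)) (χ : G → ℂ))
      = (Nat.card (MulAction.stabilizer G a) : ℂ)⁻¹ *
        ∑ h : MulAction.stabilizer G a, (χ : G → ℂ) h := by
    rw [h1, map_mul, map_inv₀, map_natCast, map_sum]
    simp
  rw [← h2]
  rcases hmf χ χ.2 with h | h
  · left; rw [h, map_zero]
  · right; rw [h, map_one]

end Cfsg.Agent.Lib.Helper25
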