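import Cfsg.Agent.Lib.Helper7.CharColumn

set_option autoImplicit false

namespace Cfsg.Agent.Lib.Helper25

open Cfsg
open scoped ComplexConjugate

/-- Burnside's lemma for an invariant subset and an explicit orbit relation. -/
theorem burnside_quot {G X : Type*} [Group G] [Fintype G] [Fintype X] [DecidableEq X]
    (ρ : G →* Equiv.Perm X) (P : X → Prop) [DecidablePred P] (hP : ∀ g x, P x → P (ρ g x)) :
    Nat.card (Quot (fun a b : {x // P x} => ∃ g : G, (b : X) = ρ g a)) * Nat.card G
      = ∑ g : G, (Finset.univ.filter (fun x : X => P x ∧ ρ g x = x)).card := by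
  classical
  letI : MulAction G {x // P x} :=
    { smul := fun g a => ⟨ρ g a, hP g a a.2⟩
      one_smul := fun a => Subtype.ext (by show ρ 1 a = a; simp)
      mul_smul := fun g h a => Subtype.ext (by show ρ (g * h) a = ρ g (ρ h a); simp) }
  have hsmul : ∀ (g : G) (a : {x // P x}), ((g • a : {x // P x}) : X) = ρ g a := fun _ _ => rfl
  have h1 := MulAction.sum_card_fixedBy_eq_card_orbits_mul_card_group G {x // P x}
  have e1 : Nat.card (Quot (fun a b : {x // P x} => ∃ g : G, (b : X) = ρ g a))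
      = Fintype.card (Quotient (MulAction.orbitRel G {x // P x})) := by
    rw [← Nat.card_eq_fintype_card]
    apply Nat.card_congr
    apply Quot.congrRight
    intro a b
    show _ ↔ a ∈ MulAction.orbit G b
    constructor
    · rintro ⟨g, hg⟩
      refine ⟨g⁻¹, ?_⟩
      have : b = g • a := Subtype.ext hg
      show g⁻¹ • b = a
      rw [this, inv_smul_smul]
    · rintro ⟨g, hg⟩
      refine ⟨g⁻¹, ?_⟩
      have hg' : g • b = a := hg
      rw [← hsmul, ← hg', inv_smul_smul]
  rw [e1, Nat.card_eq_fintype_card, ← h1]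
  apply Finset.sum_congr rfl
  intro g _
  rw [← Fintype.card_coe]
  apply Fintype.card_congr
  refine ⟨fun a => ⟨a.1.1, Finset.mem_filter.mpr ⟨Finset.mem_univ _, a.1.2,
      congrArg Subtype.val a.2⟩⟩,
    fun x => ⟨⟨x.1, (Finset.mem_filter.mp x.2).2.1⟩, Subtype.ext (Finset.mem_filter.mp x.2).2.2⟩,
    fun a => rfl, fun x => rfl⟩

/-- column orthogonality as a count of conjugating elements -/
theorem column_orthogonality_count {K : Type*} [Group K] [Fintype K] [DecidableEq K]
    [Fintype (IrrCharacter K)] (a b : K) :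
    ∑ θ : IrrCharacter K, (θ : K → ℂ) a * conj ((θ : K → ℂ) b)
      = ((Finset.univ.filter (fun u : K => u * a * u⁻¹ = b)).card : ℂ) := by
  classical
  rw [Helper7.column_orthogonality]
  split_ifs with h
  · obtain ⟨u₀, hu₀⟩ := isConj_iff.mp h
    congr 1
    rw [Nat.card_eq_fintype_card, ← Fintype.card_coe]
    apply Fintype.card_congr
    refine ⟨fun c => ⟨u₀ * c, ?_⟩, fun u => ⟨u₀⁻¹ * u, ?_⟩, ?_, ?_⟩
    · rw [Finset.mem_filter]
      refine ⟨Finset.mem_univ _, ?_⟩
      have hc := Subgroup.mem_centralizer_singleton_iff.mp c.2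
      rw [← hu₀]
      calc u₀ * c * a * (u₀ * c)⁻¹ = u₀ * (c * a) * (c : K)⁻¹ * u₀⁻¹ := by group
        _ = u₀ * (a * c) * (c : K)⁻¹ * u₀⁻¹ := by rw [hc]
        _ = u₀ * a * u₀⁻¹ := by group
    · rw [Subgroup.mem_centralizer_singleton_iff]
      have hu := (Finset.mem_filter.mp u.2).2
      have hu' : (u : K) * a * (u : K)⁻¹ = u₀ * a * u₀⁻¹ := hu.trans hu₀.symm
      have h2 : (u : K) * a = u₀ * a * u₀⁻¹ * u := by rw [← hu']; group
      calc u₀⁻¹ * u * a = u₀⁻¹ * (u * a) := by group
        _ = u₀⁻¹ * (u₀ * a * u₀⁻¹ * u) := by rw [h2]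
        _ = a * (u₀⁻¹ * u) := by group
    · intro c
      apply Subtype.ext
      simp
    · intro u
      apply Subtype.ext
      simp
  · symm
    rw [Nat.cast_eq_zero, Finset.card_eq_zero, Finset.filter_eq_empty_iff]
    intro u _ hu
    exact h (isConj_iff.mpr ⟨u, hu⟩)

end Cfsg.Agent.Lib.Helper25
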