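import Cfsg.Agent.Lib.Helper25.OddReal1
import Cfsg.Agent.Lib.Helper25.BrauerPerm
import Cfsg.Agent.Lib.Helper25.FrobSchur3
import Cfsg.Agent.Lib.Helper25.CopAct1

set_option autoImplicit false

namespace Cfsg.Agent.Lib.Helper25

open Cfsg
open scoped ComplexConjugate

universe u

theorem card_twisted_irr_mul {G : Type u} [Group G] [Fintype G] (α : G ≃* G) :
    Nat.card {χ : IrrCharacter G // (χ : G → ℂ) ∘ α = (conjIrr χ : G → ℂ)} * Nat.card G
      = ∑ g : G, Nat.card {x : G // x * α g * x⁻¹ = g⁻¹} := by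
  classical
  have := Helper2.finite_irrCharacter (G := G)
  have : Fintype (IrrCharacter G) := Fintype.ofFinite _
  have hG : (Nat.card G : ℂ) ≠ 0 := by exact_mod_cast Nat.card_pos.ne'
  have key : (Nat.card {χ : IrrCharacter G // (χ : G → ℂ) ∘ α = (conjIrr χ : G → ℂ)} : ℂ)
      * Nat.card G = ∑ g : G, (Nat.card {x : G // x * α g * x⁻¹ = g⁻¹} : ℂ) := by
    simp_rw [← Helper2.column_orthogonality]
    rw [Finset.sum_comm]
    have h1 : ∀ χ : IrrCharacter G, ∑ g : G, (χ : G → ℂ) (α g) * conj ((χ : G → ℂ) g⁻¹)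
        = (if (χ : G → ℂ) ∘ α = (conjIrr χ : G → ℂ) then 1 else 0) * (Nat.card G : ℂ) := by
      intro χ
      have h2 := classInner_irr (isIrrCharacter_comp_surjective α.toMonoidHom α.surjective χ.2)
        (conjIrr χ).2
      unfold classInner at h2
      have h3 : ∑ g : G, (χ : G → ℂ) (α g) * conj ((χ : G → ℂ) g⁻¹)
          = (Nat.card G : ℂ) * ((Nat.card G : ℂ)⁻¹ *
            ∑ g : G, (χ : G → ℂ) (α.toMonoidHom g) * conj ((conjIrr χ : G → ℂ) g)) := by
        rw [← mul_assoc, mul_inv_cancel₀ hG, one_mul]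
        apply Finset.sum_congr rfl
        intro g _
        rw [conjIrr_apply, conj_char (isCharacter_of_irr χ.2) g]
        rfl
      rw [h3, h2, mul_comm]
      rfl
    simp_rw [h1]
    rw [← Finset.sum_mul, Finset.sum_boole, Nat.card_eq_fintype_card, Fintype.card_subtype]
  exact_mod_cast key

end Cfsg.Agent.Lib.Helper25
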