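import Cfsg.Agent.Lib.Helper25.OddReal2

set_option autoImplicit false

namespace Cfsg.Agent.Lib.Helper25

open Cfsg
open scoped ComplexConjugate

universe u

theorem perm_pow_odd_apply {X : Type*} (σ : Equiv.Perm X) (x : X) (h : σ (σ x) = x) {n : ℕ}
    (hn : Odd n) : (σ ^ n) x = σ x := by
  obtain ⟨m, rfl⟩ := hn
  rw [pow_succ, pow_mul, Equiv.Perm.mul_apply]
  apply Equiv.Perm.pow_apply_eq_self_of_apply_eq_self
  rw [pow_two, Equiv.Perm.mul_apply, h]

theorem conj_pow_odd_inv {G : Type*} [Group G] (h k : G) (hk : h * k * h⁻¹ = k⁻¹) {n : ℕ}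
    (hn : Odd n) : h ^ n * k * (h ^ n)⁻¹ = k⁻¹ := by
  obtain ⟨m, rfl⟩ := hn
  have h1 : h * k⁻¹ * h⁻¹ = k := by
    have := congrArg (·⁻¹) hk
    simp only [mul_inv_rev, inv_inv] at this
    rw [mul_assoc]; exact this
  have h2 : Commute (h ^ 2) k := by
    show h ^ 2 * k = k * h ^ 2
    calc h ^ 2 * k = h * (h * k * h⁻¹) * h⁻¹ * h ^ 2 := by
          simp only [pow_two, mul_assoc, inv_mul_cancel_left, inv_mul_cancel, mul_one]
      _ = k * h ^ 2 := by rw [hk, h1]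
  have h3 : Commute ((h ^ 2) ^ m) k⁻¹ := (h2.pow_left m).inv_right
  calc h ^ (2 * m + 1) * k * (h ^ (2 * m + 1))⁻¹
      = (h ^ 2) ^ m * (h * k * h⁻¹) * ((h ^ 2) ^ m)⁻¹ := by
        rw [pow_succ, pow_mul]; group
    _ = (h ^ 2) ^ m * k⁻¹ * ((h ^ 2) ^ m)⁻¹ := by rw [hk]
    _ = k⁻¹ := by rw [h3.eq]; group

variable {G : Type u} [Group G]

theorem sum_inverting_eq [Fintype G] [DecidableEq G] (K : Subgroup G) [K.Normal]
    (hodd : Odd K.index) (k : K) [Decidable (IsConj k k⁻¹)] :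
    ∑ h : G, (if h * (k : G) * h⁻¹ = (k : G)⁻¹ then 1 else 0 : ℕ)
      = ∑ h : G, (if IsConj k k⁻¹ ∧ h * (k : G) * h⁻¹ = k then 1 else 0 : ℕ) := by
  by_cases hc : IsConj k k⁻¹
  · obtain ⟨u, hu⟩ := isConj_iff.mp hc
    have hu' : (u : G) * k * (u : G)⁻¹ = (k : G)⁻¹ := by
      have := congrArg Subtype.val hu
      simpa using this
    rw [← Equiv.sum_comp (Equiv.mulLeft (u : G))]
    apply Finset.sum_congr rfl
    intro h _
    have : ((Equiv.mulLeft (u : G)) h * (k : G) * ((Equiv.mulLeft (u : G)) h)⁻¹ = (k : G)⁻¹)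
        ↔ (IsConj k k⁻¹ ∧ h * (k : G) * h⁻¹ = k) := by
      rw [Equiv.coe_mulLeft]
      constructor
      · intro h1
        refine ⟨hc, ?_⟩
        have h2 : (u : G) * (h * k * h⁻¹) * (u : G)⁻¹ = (u : G) * k * (u : G)⁻¹ := by
          rw [hu', ← h1]; group
        exact mul_left_cancel (mul_right_cancel h2)
      · rintro ⟨_, h1⟩
        calc (u : G) * h * k * ((u : G) * h)⁻¹ = (u : G) * (h * k * h⁻¹) * (u : G)⁻¹ := by group
          _ = (k : G)⁻¹ := by rw [h1, hu']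
    simp only [this]
  · apply Finset.sum_congr rfl
    intro h _
    have h1 : ¬ (h * (k : G) * h⁻¹ = (k : G)⁻¹) := by
      intro h1
      apply hc
      have h2 := conj_pow_odd_inv h k h1 hodd
      rw [isConj_iff]
      refine ⟨⟨h ^ K.index, K.pow_index_mem h⟩, ?_⟩
      apply Subtype.ext
      simpa using h2
    simp only [h1, hc, false_and, if_false]

theorem sum_twisted_eq [Fintype G] [DecidableEq G] (K : Subgroup G) [K.Normal] [Fintype K]
    (hodd : Odd K.index) [DecidablePred (fun k : K => IsConj k k⁻¹)] :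
    ∑ g : G, ∑ k : K, Nat.card {x : K // x * (MulAut.conjNormal g : MulAut K)⁻¹ k * x⁻¹ = k⁻¹}
      = Nat.card K * ∑ h : G, (Finset.univ.filter
          (fun k : K => IsConj k k⁻¹ ∧ (MulAut.conjNormal h : MulAut K) k = k)).card := by
  have h1 : ∀ (g : G) (k : K),
      Nat.card {x : K // x * (MulAut.conjNormal g : MulAut K)⁻¹ k * x⁻¹ = k⁻¹}
        = ∑ x : K, (if ((x : G) * g⁻¹) * (k : G) * ((x : G) * g⁻¹)⁻¹ = (k : G)⁻¹ then 1 else 0 : ℕ) := by
    intro g k
    rw [Nat.card_eq_fintype_card, Fintype.card_subtype, Finset.card_filter]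
    apply Finset.sum_congr rfl
    intro x _
    have : (x * (MulAut.conjNormal g : MulAut K)⁻¹ k * x⁻¹ = k⁻¹)
        ↔ (((x : G) * g⁻¹) * (k : G) * ((x : G) * g⁻¹)⁻¹ = (k : G)⁻¹) := by
      rw [Subtype.ext_iff]
      simp only [Subgroup.coe_mul, Subgroup.coe_inv, MulAut.conjNormal_inv_apply]
      constructor
      · intro h; rw [← h]; group
      · intro h; rw [← h]; group
    simp only [this]
  simp_rw [h1]
  rw [Finset.sum_comm]
  have h2 : ∀ k : K, ∑ g : G, ∑ x : K,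
      (if ((x : G) * g⁻¹) * (k : G) * ((x : G) * g⁻¹)⁻¹ = (k : G)⁻¹ then 1 else 0 : ℕ)
        = Nat.card K * ∑ h : G, (if IsConj k k⁻¹ ∧ h * (k : G) * h⁻¹ = k then 1 else 0 : ℕ) := by
    intro k
    rw [Finset.sum_comm, ← sum_inverting_eq K hodd k]
    have h3 : ∀ x : K, ∑ g : G,
        (if ((x : G) * g⁻¹) * (k : G) * ((x : G) * g⁻¹)⁻¹ = (k : G)⁻¹ then 1 else 0 : ℕ)
          = ∑ h : G, (if h * (k : G) * h⁻¹ = (k : G)⁻¹ then 1 else 0 : ℕ) := by
      intro x
      exact Equiv.sum_comp ((Equiv.inv G).trans (Equiv.mulLeft (x : G)))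
        (fun h => (if h * (k : G) * h⁻¹ = (k : G)⁻¹ then 1 else 0 : ℕ))
    simp_rw [h3]
    rw [Finset.sum_const, Finset.card_univ, Nat.card_eq_fintype_card, smul_eq_mul]
  simp_rw [h2]
  rw [← Finset.mul_sum, Finset.sum_comm]
  congr 1
  apply Finset.sum_congr rfl
  intro h _
  rw [Finset.card_filter]
  apply Finset.sum_congr rfl
  intro k _
  have : ((MulAut.conjNormal h : MulAut K) k = k) ↔ h * (k : G) * h⁻¹ = k := by
    rw [Subtype.ext_iff, MulAut.conjNormal_apply]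
  simp only [this]

end Cfsg.Agent.Lib.Helper25
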