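import Mathlib
import Cfsg.Agent.Lib.Helper25.Glaub14
import Cfsg.Agent.Lib.Helper25.Cop3

set_option autoImplicit false

namespace Cfsg.Agent.Lib.Helper25

open Cfsg

universe u

theorem card_carrier_eq_index {G : Type*} [Group G] (g : G) :
    Nat.card (ConjClasses.mk g).carrier = (Subgroup.centralizer ({g} : Set G)).index := by
  rw [Nat.card_coe_set_eq, ← ConjAct.orbit_eq_carrier_conjClasses, ← MulAction.index_stabilizer,
        Subgroup.centralizer_eq_comap_stabilizer]
  exact (Subgroup.index_comap_of_surjective _ ConjAct.toConjAct.surjective).symm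

/-- In a `p`-nilpotent group with abelian Sylow `p`-subgroup `P`, the classes of size prime to `p`
are parametrised by the classes of `C_N(P)` and the elements of `P`. -/
theorem card_pprime_classes {G : Type u} [Group G] [Finite G] (p : ℕ) [Fact p.Prime]
    (N P : Subgroup G) [hN : N.Normal] (hsup : N ⊔ P = ⊤)
    (hcop : (Nat.card N).Coprime (Nat.card P)) (hP : IsPGroup p P) (hNp : (Nat.card N).Coprime p)
    (hcomm : ∀ a ∈ P, ∀ b ∈ P, a * b = b * a) :
    Nat.card {C : ConjClasses G // ¬ p ∣ Nat.card C.carrier} =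
      Nat.card (ConjClasses (N ⊓ Subgroup.centralizer (P : Set G) : Subgroup G)) * Nat.card P := by
  classical
  obtain ⟨π, hπK, hπH⟩ := exists_retract N P hsup hcop
  have hsolv : Group.IsSolvable P := by
    have := hP.isNilpotent
    infer_instance
  obtain ⟨-, hB⟩ := class_corr_aux _ P rfl hsolv N (fun s _ g hg => hN.conj_mem g hg s) hcop
  set C : Subgroup G := N ⊓ Subgroup.centralizer (P : Set G) with hC
  have hidx : P.index = Nat.card N := by
    have h1 := retract_index N P π hπK hπH
    have h2 := N.card_mul_index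
    have h3 := P.card_mul_index
    rw [h1] at h2
    have hpos : 0 < Nat.card P := Nat.card_pos
    have : Nat.card P * P.index = Nat.card P * Nat.card N := by rw [h3, ← h2, mul_comm]
    exact Nat.eq_of_mul_eq_mul_left hpos this
  have hsize : ∀ (c : C) (u : P), ¬ p ∣ Nat.card (ConjClasses.mk ((c : G) * u)).carrier := by
    intro c u
    rw [card_carrier_eq_index]
    have hle : P ≤ Subgroup.centralizer ({(c : G) * u} : Set G) := by
      intro v hv
      rw [Subgroup.mem_centralizer_singleton_iff]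
      have h1 := (mem_inf_centralizer.1 c.2).2 v hv
      rw [← mul_assoc, h1, mul_assoc, hcomm v hv u u.2, mul_assoc]
    have h2 : (Subgroup.centralizer ({(c : G) * u} : Set G)).index ∣ P.index :=
      Subgroup.index_dvd_of_le hle
    rw [hidx] at h2
    intro h3
    have h4 := Nat.Coprime.coprime_dvd_left (h3.trans h2) hNp
    rw [Nat.coprime_self] at h4
    exact (Fact.out : p.Prime).one_lt.ne' h4
  let f : ConjClasses C × P → {K : ConjClasses G // ¬ p ∣ Nat.card K.carrier} := fun x =>
    Quotient.liftOn x.1 (fun c => (⟨ConjClasses.mk ((c : G) * x.2), hsize c x.2⟩ :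
      {K : ConjClasses G // ¬ p ∣ Nat.card K.carrier})) (by
      intro a b hab
      obtain ⟨d, hd⟩ := isConj_iff.1 (show IsConj a b from hab)
      apply Subtype.ext
      show ConjClasses.mk ((a : G) * x.2) = ConjClasses.mk ((b : G) * x.2)
      rw [ConjClasses.mk_eq_mk_iff_isConj, isConj_iff]
      refine ⟨d, ?_⟩
      have hd' : (d : G) * a * (d : G)⁻¹ = b := congrArg Subtype.val hd
      have h1 := (mem_inf_centralizer.1 d.2).2 x.2 x.2.2
      rw [← hd']
      have h1' : (x.2 : G) * (d : G)⁻¹ = (d : G)⁻¹ * x.2 := by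
        calc (x.2 : G) * (d : G)⁻¹ = (d : G)⁻¹ * ((d : G) * x.2) * (d : G)⁻¹ := by group
          _ = (d : G)⁻¹ * ((x.2 : G) * d) * (d : G)⁻¹ := by rw [h1]
          _ = (d : G)⁻¹ * x.2 := by group
      calc (d : G) * ((a : G) * x.2) * (d : G)⁻¹ = d * a * ((x.2 : G) * (d : G)⁻¹) := by group
        _ = d * a * ((d : G)⁻¹ * x.2) := by rw [h1']
        _ = (d : G) * a * (d : G)⁻¹ * x.2 := by group)
  have hf : ∀ (c : C) (u : P), f (ConjClasses.mk c, u) = ⟨ConjClasses.mk ((c : G) * u), hsize c u⟩ :=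
    fun c u => rfl
  rw [← Nat.card_prod]
  symm
  refine Nat.card_congr (Equiv.ofBijective f ⟨?_, ?_⟩)
  · rintro ⟨a, u⟩ ⟨b, v⟩ hab
    obtain ⟨a, rfl⟩ := ConjClasses.exists_rep a
    obtain ⟨b, rfl⟩ := ConjClasses.exists_rep b
    rw [hf, hf] at hab
    have h1 : ConjClasses.mk ((a : G) * u) = ConjClasses.mk ((b : G) * v) :=
      congrArg Subtype.val hab
    rw [ConjClasses.mk_eq_mk_iff_isConj, isConj_iff] at h1
    obtain ⟨g, hg⟩ := h1
    have haN : (a : G) ∈ N := (mem_inf_centralizer.1 a.2).1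
    have hbN : (b : G) ∈ N := (mem_inf_centralizer.1 b.2).1
    have hπa : π a = 1 := by rw [← MonoidHom.mem_ker, hπK]; exact haN
    have hπb : π b = 1 := by rw [← MonoidHom.mem_ker, hπK]; exact hbN
    have huv : u = v := by
      have h2 := congrArg π hg
      rw [map_mul, map_mul, map_mul, map_mul, map_inv, hπa, hπb, hπH, hπH, one_mul, one_mul] at h2
      have h3 : π g * u = u * π g := Subtype.ext (hcomm _ (π g).2 _ u.2)
      rw [h3, mul_inv_cancel_right] at h2
      exact h2
    subst huv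
    set w : P := π g with hw
    have hn : g * (w : G)⁻¹ ∈ N := retract_mul_inv_mem N P π hπK hπH g
    set n : G := g * (w : G)⁻¹ with hndef
    have hwa := (mem_inf_centralizer.1 a.2).2 w w.2
    have hwu := hcomm w w.2 u u.2
    have hg2 : n * ((a : G) * u) * n⁻¹ = b * u := by
      rw [← hg, hndef]
      have : (w : G)⁻¹ * ((a : G) * u) * w = a * u := by
        rw [mul_assoc, mul_assoc, ← hwu, ← mul_assoc (a : G), ← hwa]
        group
      calc g * (w : G)⁻¹ * ((a : G) * u) * (g * (w : G)⁻¹)⁻¹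
          = g * ((w : G)⁻¹ * ((a : G) * u) * w) * g⁻¹ := by group
        _ = g * ((a : G) * u) * g⁻¹ := by rw [this]
    have hupow : (u : G) ^ Nat.card P = 1 := by
      have := pow_card_eq_one' (x := u)
      exact_mod_cast congrArg Subtype.val this
    have hau : Commute (a : G) u := ((mem_inf_centralizer.1 a.2).2 u u.2).symm
    have hbu : Commute (b : G) u := ((mem_inf_centralizer.1 b.2).2 u u.2).symm
    have hg3 : (n * (a : G) * n⁻¹) ^ Nat.card P = (b : G) ^ Nat.card P := by
      have := congrArg (· ^ Nat.card P) hg2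
      simp only [conj_pow, hau.mul_pow, hbu.mul_pow, hupow, mul_one] at this
      rw [conj_pow]
      exact this
    have hg4 : n * (a : G) * n⁻¹ = b := by
      have hinj := (Nat.Coprime.pow_left_bijective (G := N) hcop).1
      have : (⟨n * (a : G) * n⁻¹, hN.conj_mem _ haN n⟩ : N) = ⟨b, hbN⟩ := by
        apply hinj
        apply Subtype.ext
        exact hg3
      exact congrArg Subtype.val this
    obtain ⟨c, hc, hcx⟩ := hB a a.2 n hn (by rw [hg4]; exact b.2)
    have : ConjClasses.mk a = ConjClasses.mk b := by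
      rw [ConjClasses.mk_eq_mk_iff_isConj, isConj_iff]
      exact ⟨⟨c, hc⟩, Subtype.ext (hcx.trans hg4)⟩
    rw [this]
  · rintro ⟨K, hK⟩
    obtain ⟨g, rfl⟩ := ConjClasses.exists_rep K
    have hK' := hK
    rw [card_carrier_eq_index] at hK'
    obtain ⟨y, hy⟩ := hP.nonempty_fixed_point_of_prime_not_dvd_card
      (G ⧸ Subgroup.centralizer ({g} : Set G)) hK'
    obtain ⟨x, rfl⟩ := QuotientGroup.mk_surjective y
    have hfix : ∀ s ∈ P, s * (x * g * x⁻¹) = (x * g * x⁻¹) * s := by
      intro s hs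
      have h1 : ((⟨s⁻¹, P.inv_mem hs⟩ : P) • (x : G ⧸ Subgroup.centralizer ({g} : Set G))) = x :=
        hy ⟨s⁻¹, P.inv_mem hs⟩
      have h2 : ((s⁻¹ * x : G) : G ⧸ Subgroup.centralizer ({g} : Set G)) = x := h1
      rw [QuotientGroup.eq, Subgroup.mem_centralizer_singleton_iff] at h2
      have h3 : x⁻¹ * s * x * g = g * (x⁻¹ * s * x) := by
        have : (s⁻¹ * x)⁻¹ * x = x⁻¹ * s * x := by group
        rw [this] at h2
        exact h2
      calc s * (x * g * x⁻¹) = x * (x⁻¹ * s * x * g) * x⁻¹ := by group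
        _ = x * (g * (x⁻¹ * s * x)) * x⁻¹ := by rw [h3]
        _ = (x * g * x⁻¹) * s := by group
    set g' : G := x * g * x⁻¹ with hg'
    set w : P := π g' with hw
    have hn : g' * (w : G)⁻¹ ∈ N := retract_mul_inv_mem N P π hπK hπH g'
    have hnC : g' * (w : G)⁻¹ ∈ C := by
      refine mem_inf_centralizer.2 ⟨hn, ?_⟩
      intro s hs
      have h1 : s * (w : G)⁻¹ = (w : G)⁻¹ * s := by
        have := hcomm s hs w w.2
        calc s * (w : G)⁻¹ = (w : G)⁻¹ * ((w : G) * s) * (w : G)⁻¹ := by group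
          _ = (w : G)⁻¹ * (s * (w : G)) * (w : G)⁻¹ := by rw [this]
          _ = (w : G)⁻¹ * s := by group
      calc s * (g' * (w : G)⁻¹) = (s * g') * (w : G)⁻¹ := (mul_assoc _ _ _).symm
        _ = (g' * s) * (w : G)⁻¹ := by rw [hfix s hs]
        _ = g' * (s * (w : G)⁻¹) := mul_assoc _ _ _
        _ = g' * ((w : G)⁻¹ * s) := by rw [h1]
        _ = g' * (w : G)⁻¹ * s := (mul_assoc _ _ _).symm
    refine ⟨(ConjClasses.mk ⟨_, hnC⟩, w), ?_⟩
    rw [hf]
    apply Subtype.ext
    show ConjClasses.mk (g' * (w : G)⁻¹ * w) = ConjClasses.mk g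
    rw [inv_mul_cancel_right, ConjClasses.mk_eq_mk_iff_isConj, isConj_comm, isConj_iff]
    exact ⟨x, rfl⟩

end Cfsg.Agent.Lib.Helper25
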