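import Mathlib
import Cfsg.Agent.Lib.Helper25.PRes1

set_option autoImplicit false

namespace Cfsg.Agent.Lib.Helper25

open Cfsg

universe u

theorem not_dvd_card_coprime_order {Λ : Type*} [CommGroup Λ] [Finite Λ] {p : ℕ} (hp : p.Prime) :
    ¬ p ∣ Nat.card {x : Λ // (orderOf x).Coprime p} := by
  have : Fact p.Prime := ⟨hp⟩
  let K : Subgroup Λ :=
    { carrier := {x | (orderOf x).Coprime p}
      mul_mem' := by
        intro a b ha hb
        exact Nat.Coprime.coprime_dvd_left (Commute.all a b).orderOf_mul_dvd_mul_orderOf
          (Nat.Coprime.mul_left ha hb)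
      one_mem' := by simp
      inv_mem' := by
        intro a ha
        show (orderOf a⁻¹).Coprime p
        rw [orderOf_inv]
        exact ha }
  intro hdvd
  have hdvd' : p ∣ Nat.card K := hdvd
  obtain ⟨x, hx⟩ := exists_prime_orderOf_dvd_card' p hdvd'
  have h1 : (orderOf (x : Λ)).Coprime p := x.2
  rw [Subgroup.orderOf_coe, hx] at h1
  exact hp.one_lt.ne' ((Nat.coprime_self p).1 h1)

theorem detOrder_hom {G : Type u} [Group G] [Finite G] (f : G →* ℂˣ) :
    detOrder (fun g => (f g : ℂ)) = orderOf f := by
  unfold detOrder
  rw [detChar_linear, orderOf_eq_orderOf_iff]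
  intro n
  constructor
  · intro h
    ext g
    have := congrFun h g
    simpa using this
  · intro h
    funext g
    have := congrArg Units.val (DFunLike.congr_fun h g)
    simpa using this

theorem finite_hom_units {G : Type u} [Group G] [Finite G] : Finite (G →* ℂˣ) := by
  have := Helper2.finite_irrCharacter (G := G)
  apply Finite.of_injective (fun f : G →* ℂˣ =>
    (⟨fun g => (f g : ℂ), Helper7.isIrrCharacter_of_hom f⟩ : IrrCharacter G))
  intro f f' h
  ext g
  exact congrFun (congrArg Subtype.val h) g

end Cfsg.Agent.Lib.Helper25
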