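import Mathlib
import Cfsg.Agent.Lib.Helper25.PRes2
import Cfsg.Agent.Lib.Helper7.CharColumn

set_option autoImplicit false

namespace Cfsg.Agent.Lib.Helper25

open Cfsg
open scoped ComplexConjugate

universe u

/-- A finite group all of whose irreducible characters are linear is commutative. -/
theorem comm_of_forall_linear {G : Type u} [Group G] [Finite G]
    (h : ∀ χ : IrrCharacter G, (χ : G → ℂ) 1 = 1) (a b : G) : a * b = b * a := by
  classical
  cases nonempty_fintype G
  have := Helper2.finite_irrCharacter (G := G)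
  cases nonempty_fintype (IrrCharacter G)
  by_contra hne
  have hg : ¬ IsConj (a * b * a⁻¹ * b⁻¹) 1 := by
    intro hc
    rw [isConj_one_left] at hc
    apply hne
    calc a * b = (a * b * a⁻¹ * b⁻¹) * (b * a) := by group
      _ = b * a := by rw [hc, one_mul]
  have h0 := Helper7.column_orthogonality_ne hg
  have h1 : ∀ χ : IrrCharacter G, (χ : G → ℂ) (a * b * a⁻¹ * b⁻¹) * conj ((χ : G → ℂ) 1) = 1 := by
    intro χ
    obtain ⟨f, hf⟩ := Helper7.exists_hom_of_linear (Helper7.isCharacter_of_irr χ.2) (h χ)
    rw [h χ, hf]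
    simp [mul_comm (f a) (f b)]
  rw [Finset.sum_congr rfl fun χ _ => h1 χ, Finset.sum_const, Finset.card_univ] at h0
  have h2 : Fintype.card (IrrCharacter G) = 0 := by
    simpa using h0
  have : IsEmpty (IrrCharacter G) := Fintype.card_eq_zero_iff.1 h2
  exact this.elim ⟨_, Helper7.isIrrCharacter_one⟩

end Cfsg.Agent.Lib.Helper25
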