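import Cfsg.Agent.Lib.Helper25.CliffordCorr

set_option autoImplicit false

namespace Cfsg.Agent.Lib.Helper25

open scoped ComplexConjugate
open Cfsg

universe u

variable {G : Type u} [Group G]

open Classical in
theorem card_mul_classInner_restrict [Fintype G] (N : Subgroup G) [Fintype N] (χ : G → ℂ) :
    (Nat.card G : ℂ) * classInner χ χ
      = (Nat.card N : ℂ) * classInner (fun n : N => χ n) (fun n : N => χ n)
        + ((∑ y : G, if y ∈ N then 0 else ‖χ y‖ ^ 2 : ℝ) : ℂ) := by
  have hG : (Nat.card G : ℂ) ≠ 0 := by exact_mod_cast Nat.card_pos.ne'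
  have hN : (Nat.card N : ℂ) ≠ 0 := by exact_mod_cast Nat.card_pos.ne'
  unfold classInner
  rw [← mul_assoc, mul_inv_cancel₀ hG, one_mul, ← mul_assoc, mul_inv_cancel₀ hN, one_mul,
    ← sum_extendByZero_mul N (fun n : N => χ n) (fun y => conj (χ y)), Complex.ofReal_sum,
    ← Finset.sum_add_distrib]
  apply Finset.sum_congr rfl
  intro y _
  by_cases hy : y ∈ N
  · rw [extendByZero_mem N _ hy, if_pos hy]
    simp
  · rw [extendByZero_not_mem N _ hy, if_neg hy, Complex.mul_conj, Complex.normSq_eq_norm_sq]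
    simp

/-- An irreducible character vanishes off `N` iff the norm of its restriction is the index. -/
theorem vanish_off_iff [Fintype G] (N : Subgroup G) [Fintype N] {χ : G → ℂ}
    (hχ : IsIrrCharacter G χ) :
    (∀ g : G, g ∉ N → χ g = 0) ↔
      classInner (fun n : N => χ n) (fun n : N => χ n) = (N.index : ℂ) := by
  classical
  have hN : (Nat.card N : ℂ) ≠ 0 := by exact_mod_cast Nat.card_pos.ne'
  have h := card_mul_classInner_restrict N χ
  rw [Helper7.classInner_irr_self hχ, mul_one, ← N.card_mul_index] at h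
  push_cast at h
  constructor
  · intro hv
    have h0 : (∑ y : G, if y ∈ N then 0 else ‖χ y‖ ^ 2 : ℝ) = 0 := by
      apply Finset.sum_eq_zero
      intro y _
      split_ifs with hy
      · rfl
      · rw [hv y hy]; simp
    have h0' : (∑ y : G, ((if y ∈ N then 0 else ‖χ y‖ ^ 2 : ℝ) : ℂ)) = 0 := by
      exact_mod_cast h0
    rw [h0', add_zero] at h
    exact (mul_left_cancel₀ hN h).symm
  · intro he g hg
    rw [he] at h
    have h0' : (∑ y : G, ((if y ∈ N then 0 else ‖χ y‖ ^ 2 : ℝ) : ℂ)) = 0 := by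
      linear_combination -h
    have h0 : (∑ y : G, if y ∈ N then 0 else ‖χ y‖ ^ 2 : ℝ) = 0 := by
      exact_mod_cast h0'
    have h1 := (Finset.sum_eq_zero_iff_of_nonneg (fun y _ => by
      split_ifs
      · exact le_refl _
      · positivity)).mp h0 g (Finset.mem_univ _)
    rw [if_neg hg] at h1
    simpa using h1

/-- If `χ` accounts for the whole degree of a character `f`, then `f` is a multiple of `χ`. -/
theorem eq_smul_of_degree [Fintype G] {f χ : G → ℂ} (hf : IsCharacter G f)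
    (hχ : IsIrrCharacter G χ) (hdeg : f 1 = classInner f χ * χ 1) :
    f = classInner f χ • χ := by
  classical
  have : Fintype (IrrCharacter G) := Fintype.ofFinite _
  obtain ⟨m, hm, hfm⟩ := Helper7.character_eq_sum_nat hf
  choose d hd0 hd using fun ψ : IrrCharacter G => Helper7.irr_apply_one ψ.2
  have h1 : f 1 = ∑ ψ : IrrCharacter G, ((m ψ * d ψ : ℕ) : ℂ) := by
    conv_lhs => rw [hfm]
    rw [Finset.sum_apply]
    apply Finset.sum_congr rfl
    intro ψ _
    rw [Pi.smul_apply, hd, nsmul_eq_mul]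
    push_cast
    ring
  rw [hdeg, hm ⟨χ, hχ⟩, show χ 1 = (d ⟨χ, hχ⟩ : ℂ) from hd ⟨χ, hχ⟩,
    ← Finset.add_sum_erase _ _ (Finset.mem_univ (⟨χ, hχ⟩ : IrrCharacter G))] at h1
  have h2 : ∑ ψ ∈ Finset.univ.erase (⟨χ, hχ⟩ : IrrCharacter G), (m ψ * d ψ) = 0 := by
    have : ((∑ ψ ∈ Finset.univ.erase (⟨χ, hχ⟩ : IrrCharacter G), (m ψ * d ψ) : ℕ) : ℂ) = 0 := by
      push_cast
      push_cast at h1
      linear_combination -h1
    exact_mod_cast this
  have h3 : ∀ ψ ∈ Finset.univ.erase (⟨χ, hχ⟩ : IrrCharacter G), m ψ = 0 := by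
    intro ψ hψ
    have := (Finset.sum_eq_zero_iff.mp h2) ψ hψ
    rcases Nat.mul_eq_zero.mp this with h | h
    · exact h
    · exact absurd h (hd0 ψ).ne'
  conv_lhs => rw [hfm]
  rw [← Finset.add_sum_erase _ _ (Finset.mem_univ (⟨χ, hχ⟩ : IrrCharacter G)),
    Finset.sum_eq_zero (fun ψ hψ => by rw [h3 ψ hψ, zero_smul]), add_zero, hm ⟨χ, hχ⟩]
  funext g
  simp

end Cfsg.Agent.Lib.Helper25
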