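import Cfsg.Agent.Lib.Helper25.Glaub14
import Cfsg.Agent.Lib.Helper25.FrobSchur3

set_option autoImplicit false

namespace Cfsg.Agent.Lib.Helper25

open Cfsg
open scoped ComplexConjugate

universe u

theorem corr_conjIrr {G C : Type u} [Group G] [Group C] [Finite G] [Fintype C] {p : ℕ} (ι : C →* G)
    (χ : IrrCharacter G) (β : IrrCharacter C) (h : Corr p ι (χ : G → ℂ) (β : C → ℂ)) :
    Corr p ι (conjIrr χ : G → ℂ) (conjIrr β : C → ℂ) := by
  obtain ⟨m, hm, hpm⟩ := h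
  refine ⟨m, ?_, hpm⟩
  have h1 : classInner ((conjIrr χ : G → ℂ) ∘ ι) (conjIrr β : C → ℂ)
      = conj (classInner ((χ : G → ℂ) ∘ ι) (β : C → ℂ)) := by
    unfold classInner
    simp only [map_mul, map_inv₀, Complex.conj_natCast, map_sum, Function.comp_apply,
      conjIrr_apply]
  rw [h1, hm, Complex.conj_natCast]

theorem real_iff_conjIrr_eq {G : Type u} [Group G] [Finite G] (χ : IrrCharacter G) :
    (∀ g, ((χ : G → ℂ) g).im = 0) ↔ conjIrr χ = χ := by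
  constructor
  · intro h
    apply Subtype.ext
    funext g
    rw [conjIrr_apply]
    exact Complex.conj_eq_iff_im.mpr (h g)
  · intro h g
    have := congrFun (congrArg Subtype.val h) g
    rw [conjIrr_apply] at this
    exact Complex.conj_eq_iff_im.mp this

variable {Γ : Type u} [Group Γ]

theorem card_real_inv_irr [Finite Γ] {p : ℕ} (hp : p.Prime) (K P : Subgroup Γ)
    (hnorm : ∀ s ∈ P, ∀ g ∈ K, s * g * s⁻¹ ∈ K) (hcop : (Nat.card K).Coprime (Nat.card P))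
    (hP : IsPGroup p P) :
    Nat.card {θ : IrrCharacter K // (∀ k, ((θ : K → ℂ) k).im = 0) ∧ InvUnder K P (θ : K → ℂ)}
      = Nat.card {β : IrrCharacter (K ⊓ Subgroup.centralizer (P : Set Γ) : Subgroup Γ) //
          ∀ c, ((β : (K ⊓ Subgroup.centralizer (P : Set Γ) : Subgroup Γ) → ℂ) c).im = 0} := by
  classical
  set C : Subgroup Γ := K ⊓ Subgroup.centralizer (P : Set Γ) with hC
  have hCK : C ≤ K := inf_le_left
  have : Fintype C := Fintype.ofFinite _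
  have GP := glaub_pgroup hp K P hnorm hcop hP C hC hCK
  have hinvc : ∀ χ : IrrCharacter K, InvUnder K P (χ : K → ℂ) →
      InvUnder K P (conjIrr χ : K → ℂ) := by
    intro χ h s hs g g' hg
    rw [conjIrr_apply, conjIrr_apply, h s hs g g' hg]
  choose f hf1 hf2 using fun θ : {θ : IrrCharacter K //
      (∀ k, ((θ : K → ℂ) k).im = 0) ∧ InvUnder K P (θ : K → ℂ)} => GP.ex θ.1 θ.1.2 θ.2.2
  have hreal : ∀ θ, ∀ c, ((f θ) c).im = 0 := by
    intro θ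
    have h1 := corr_conjIrr (Subgroup.inclusion hCK) θ.1 ⟨f θ, hf1 θ⟩ (hf2 θ)
    rw [(real_iff_conjIrr_eq θ.1).mp θ.2.1] at h1
    have h2 := GP.uniq θ.1 θ.1.2 θ.2.2 _ _ (conjIrr ⟨f θ, hf1 θ⟩).2 (hf1 θ) h1 (hf2 θ)
    exact (real_iff_conjIrr_eq ⟨f θ, hf1 θ⟩).mpr (Subtype.ext h2)
  refine Nat.card_congr (Equiv.ofBijective (fun θ => ⟨⟨f θ, hf1 θ⟩, hreal θ⟩) ⟨?_, ?_⟩)
  · intro θ θ' h
    have h1 : f θ = f θ' := congrArg (fun z => (z.1 : C → ℂ)) h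
    have h2 := GP.inj θ.1 θ'.1 θ.1.2 θ'.1.2 θ.2.2 θ'.2.2 (f θ) (hf1 θ) (hf2 θ) (h1 ▸ hf2 θ')
    exact Subtype.ext (Subtype.ext h2)
  · rintro ⟨β, hβ⟩
    obtain ⟨χ, hχ, hinv, hcorr⟩ := GP.surj β β.2
    have h1 := corr_conjIrr (Subgroup.inclusion hCK) ⟨χ, hχ⟩ β hcorr
    rw [(real_iff_conjIrr_eq β).mp hβ] at h1
    have h2 := GP.inj _ _ (conjIrr ⟨χ, hχ⟩).2 hχ (hinvc ⟨χ, hχ⟩ hinv) hinv β β.2 h1 hcorr
    have h3 : ∀ k, (χ k).im = 0 := (real_iff_conjIrr_eq ⟨χ, hχ⟩).mpr (Subtype.ext h2)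
    refine ⟨⟨⟨χ, hχ⟩, h3, hinv⟩, ?_⟩
    apply Subtype.ext
    apply Subtype.ext
    exact GP.uniq χ hχ hinv (f ⟨⟨χ, hχ⟩, h3, hinv⟩) β (hf1 ⟨⟨χ, hχ⟩, h3, hinv⟩) β.2
      (hf2 ⟨⟨χ, hχ⟩, h3, hinv⟩) hcorr

theorem card_real_inv_classes [Finite Γ] (K P : Subgroup Γ) (hsolv : Group.IsSolvable P)
    (hnorm : ∀ s ∈ P, ∀ g ∈ K, s * g * s⁻¹ ∈ K) (hcop : (Nat.card K).Coprime (Nat.card P)) :
    Nat.card {c : ConjClasses (K ⊓ Subgroup.centralizer (P : Set Γ) : Subgroup Γ) //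
        ∀ g, ConjClasses.mk g = c → IsConj g g⁻¹}
      = Nat.card {c : ConjClasses K // (∀ k : K, ConjClasses.mk k = c → IsConj k k⁻¹) ∧
          ∀ k : K, ConjClasses.mk k = c → ∀ x ∈ P, ∀ k' : K, (k' : Γ) = x * (k : Γ) * x⁻¹ →
            ConjClasses.mk k' = c} := by
  obtain ⟨hA, hB⟩ := class_corr_aux _ P rfl hsolv K hnorm hcop
  set C : Subgroup Γ := K ⊓ Subgroup.centralizer (P : Set Γ) with hC
  have hCK : C ≤ K := inf_le_left
  have hrealconj : ∀ {X : Type u} [Group X] (a b : X), IsConj a b → IsConj a a⁻¹ → IsConj b b⁻¹ := by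
    intro X _ a b hab ha
    have h1 : IsConj a⁻¹ b⁻¹ := by
      obtain ⟨y, hy⟩ := isConj_iff.mp hab
      rw [isConj_iff]
      exact ⟨y, by rw [← hy]; group⟩
    exact (hab.symm.trans ha).trans h1
  let f : {c : ConjClasses C // ∀ g, ConjClasses.mk g = c → IsConj g g⁻¹} →
      {c : ConjClasses K // (∀ k : K, ConjClasses.mk k = c → IsConj k k⁻¹) ∧
          ∀ k : K, ConjClasses.mk k = c → ∀ x ∈ P, ∀ k' : K, (k' : Γ) = x * (k : Γ) * x⁻¹ →
            ConjClasses.mk k' = c} := fun c =>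
    ⟨ConjClasses.map (Subgroup.inclusion hCK) c.1, by
      obtain ⟨c, hc⟩ := c
      obtain ⟨c, rfl⟩ := ConjClasses.exists_rep c
      have hcr : IsConj c c⁻¹ := hc c rfl
      constructor
      · intro k hk
        have hk' : ConjClasses.mk k = ConjClasses.mk (Subgroup.inclusion hCK c) := hk
        rw [ConjClasses.mk_eq_mk_iff_isConj] at hk'
        apply hrealconj _ _ hk'.symm
        have := MonoidHom.map_isConj (Subgroup.inclusion hCK) hcr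
        rwa [map_inv] at this
      · intro g hK s hs g' hg
        have hK' : ConjClasses.mk g = ConjClasses.mk (Subgroup.inclusion hCK c) := hK
        show ConjClasses.mk g' = ConjClasses.mk (Subgroup.inclusion hCK c)
        rw [ConjClasses.mk_eq_mk_iff_isConj, isConj_comm, isConj_iff] at hK' ⊢
        obtain ⟨h, hh⟩ := hK'
        have hh' : (h : Γ) * c * (h : Γ)⁻¹ = g := congrArg Subtype.val hh
        have hcs := (mem_inf_centralizer.1 c.2).2 s hs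
        refine ⟨⟨s * h * s⁻¹, hnorm s hs h h.2⟩, Subtype.ext ?_⟩
        show s * h * s⁻¹ * (c : Γ) * (s * h * s⁻¹)⁻¹ = g'
        rw [hg, ← hh']
        calc s * h * s⁻¹ * (c : Γ) * (s * h * s⁻¹)⁻¹
            = s * h * (s⁻¹ * (s * c)) * (h : Γ)⁻¹ * s⁻¹ := by rw [hcs]; group
          _ = s * (h * c * (h : Γ)⁻¹) * s⁻¹ := by group⟩
  refine Nat.card_congr (Equiv.ofBijective f ⟨?_, ?_⟩)
  · rintro ⟨a, ha⟩ ⟨b, hb⟩ hab
    obtain ⟨a, rfl⟩ := ConjClasses.exists_rep a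
    obtain ⟨b, rfl⟩ := ConjClasses.exists_rep b
    have h1 : ConjClasses.mk (Subgroup.inclusion hCK a) =
        ConjClasses.mk (Subgroup.inclusion hCK b) := congrArg Subtype.val hab
    rw [ConjClasses.mk_eq_mk_iff_isConj, isConj_iff] at h1
    obtain ⟨g, hg⟩ := h1
    have hg' : (g : Γ) * a * (g : Γ)⁻¹ = b := congrArg Subtype.val hg
    obtain ⟨c, hc, hcx⟩ := hB a a.2 g g.2 (by rw [hg']; exact b.2)
    apply Subtype.ext
    show ConjClasses.mk a = ConjClasses.mk b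
    rw [ConjClasses.mk_eq_mk_iff_isConj, isConj_iff]
    refine ⟨⟨c, hc⟩, Subtype.ext ?_⟩
    show c * (a : Γ) * c⁻¹ = b
    rw [hcx, hg']
  · rintro ⟨Kc, hK1, hK2⟩
    obtain ⟨x, rfl⟩ := ConjClasses.exists_rep Kc
    obtain ⟨k, hk, hkx⟩ := hA x x.2 (by
      intro s hs
      have h1 := hK2 x rfl s hs ⟨s * x * s⁻¹, hnorm s hs x x.2⟩ rfl
      rw [ConjClasses.mk_eq_mk_iff_isConj, isConj_comm, isConj_iff] at h1
      obtain ⟨g, hg⟩ := h1
      exact ⟨g, g.2, (congrArg Subtype.val hg).symm⟩)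
    have hconj : IsConj x (Subgroup.inclusion hCK ⟨k * x * k⁻¹, hkx⟩) := by
      rw [isConj_iff]
      exact ⟨⟨k, hk⟩, Subtype.ext rfl⟩
    have hr0 : IsConj (⟨k * x * k⁻¹, hkx⟩ : C) (⟨k * x * k⁻¹, hkx⟩ : C)⁻¹ := by
      have h1 := hrealconj _ _ hconj (hK1 x rfl)
      obtain ⟨g, hg⟩ := isConj_iff.mp h1
      have hg' : (g : Γ) * (k * x * k⁻¹) * (g : Γ)⁻¹ = (k * x * k⁻¹)⁻¹ := congrArg Subtype.val hg
      obtain ⟨c, hc, hcx⟩ := hB _ hkx g g.2 (by rw [hg']; exact C.inv_mem hkx)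
      rw [isConj_iff]
      refine ⟨⟨c, hc⟩, Subtype.ext ?_⟩
      show c * (k * x * k⁻¹) * c⁻¹ = (k * x * k⁻¹)⁻¹
      rw [hcx, hg']
    refine ⟨⟨ConjClasses.mk ⟨k * x * k⁻¹, hkx⟩, ?_⟩, Subtype.ext ?_⟩
    · intro g hg
      rw [ConjClasses.mk_eq_mk_iff_isConj] at hg
      exact hrealconj _ _ hg.symm hr0
    · show ConjClasses.mk (Subgroup.inclusion hCK ⟨k * x * k⁻¹, hkx⟩) = ConjClasses.mk x
      rw [ConjClasses.mk_eq_mk_iff_isConj]
      exact hconj.symm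

end Cfsg.Agent.Lib.Helper25
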