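import Mathlib

set_option autoImplicit false

namespace Cfsg.Agent.Lib.Helper25

open Matrix

variable {F : Type*} [Field F] {n : ℕ}

theorem exists_sl_transvection (a b c : Fin n → F)
    (h : b ∉ Submodule.span F {a, c - b}) :
    ∃ g : SpecialLinearGroup (Fin n) F,
      (g : Matrix (Fin n) (Fin n) F) *ᵥ a = a ∧ (g : Matrix (Fin n) (Fin n) F) *ᵥ b = c := by
  obtain ⟨f, hfb, hf⟩ := Submodule.exists_dual_map_eq_bot_of_notMem h inferInstance
  have hker : ∀ x ∈ Submodule.span F {a, c - b}, f x = 0 := by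
    intro x hx
    have : f x ∈ (Submodule.span F {a, c - b}).map f := ⟨x, hx, rfl⟩
    rwa [hf, Submodule.mem_bot] at this
  have hfa : f a = 0 := hker a (Submodule.subset_span (by simp))
  have hfu : f (c - b) = 0 := hker _ (Submodule.subset_span (by simp))
  let w : Fin n → F := fun i => (f b)⁻¹ * f (Pi.single i 1)
  have hw : ∀ x : Fin n → F, w ⬝ᵥ x = (f b)⁻¹ * f x := by
    intro x
    have hx : x = ∑ i, x i • (Pi.single i (1 : F) : Fin n → F) := by
      ext j
      simp [Finset.sum_apply, Pi.single_apply]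
    conv_rhs => rw [hx, map_sum, Finset.mul_sum]
    simp only [dotProduct, w, map_smul, smul_eq_mul]
    refine Finset.sum_congr rfl (fun i _ => by ring)
  have hdet : (1 + vecMulVec (c - b) w : Matrix (Fin n) (Fin n) F).det = 1 := by
    rw [vecMulVec_eq Unit, det_one_add_replicateCol_mul_replicateRow, hw, hfu, mul_zero, add_zero]
  refine ⟨⟨1 + vecMulVec (c - b) w, hdet⟩, ?_, ?_⟩
  · show (1 + vecMulVec (c - b) w : Matrix (Fin n) (Fin n) F) *ᵥ a = a
    rw [add_mulVec, one_mulVec, vecMulVec_mulVec, hw, hfa]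
    simp
  · show (1 + vecMulVec (c - b) w : Matrix (Fin n) (Fin n) F) *ᵥ b = c
    rw [add_mulVec, one_mulVec, vecMulVec_mulVec, hw, inv_mul_cancel₀ hfb]
    simp

end Cfsg.Agent.Lib.Helper25
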