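import Mathlib
import Cfsg.Agent.Lib.Helper25.SLPerm1

set_option autoImplicit false

namespace Cfsg.Agent.Lib.Helper25

open Matrix

variable {F : Type*} [Field F] {n : ℕ}

theorem exists_notMem_two {V : Type*} [AddCommGroup V] [Module F V] (W₁ W₂ : Submodule F V)
    (h₁ : W₁ ≠ ⊤) (h₂ : W₂ ≠ ⊤) : ∃ c : V, c ∉ W₁ ∧ c ∉ W₂ := by
  obtain ⟨x, hx⟩ : ∃ x, x ∉ W₁ := by
    by_contra h; push Not at h; exact h₁ (eq_top_iff.2 (fun x _ => h x))
  obtain ⟨y, hy⟩ : ∃ y, y ∉ W₂ := by
    by_contra h; push Not at h; exact h₂ (eq_top_iff.2 (fun x _ => h x))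
  by_cases hx2 : x ∈ W₂
  · by_cases hy1 : y ∈ W₁
    · refine ⟨x + y, fun h => hx ?_, fun h => hy ?_⟩
      · have := W₁.sub_mem h hy1; simpa using this
      · have := W₂.sub_mem h hx2; simpa using this
    · exact ⟨y, hy1, hy⟩
  · exact ⟨x, hx, hx2⟩

theorem span_pair_ne_top (hn : 3 ≤ n) (a b : Fin n → F) :
    Submodule.span F {a, b} ≠ ⊤ := by
  classical
  intro h
  have h1 : Module.finrank F (Submodule.span F (({a, b} : Finset (Fin n → F)) : Set (Fin n → F)))
      ≤ ({a, b} : Finset (Fin n → F)).card := finrank_span_finset_le_card _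
  rw [Finset.coe_insert, Finset.coe_singleton, h, finrank_top, Module.finrank_fin_fun] at h1
  have h2 : ({a, b} : Finset (Fin n → F)).card ≤ 2 := Finset.card_le_two
  omega

theorem span_singleton_ne_top (hn : 3 ≤ n) (a : Fin n → F) :
    Submodule.span F {a} ≠ ⊤ := by
  have := span_pair_ne_top hn a a
  simpa using this

theorem sl_trans_pair (hn : 3 ≤ n) (a b b' : Fin n → F) (hb : b ∉ Submodule.span F {a})
    (hb' : b' ∉ Submodule.span F {a}) :
    ∃ g : SpecialLinearGroup (Fin n) F,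
      (g : Matrix (Fin n) (Fin n) F) *ᵥ a = a ∧ (g : Matrix (Fin n) (Fin n) F) *ᵥ b = b' := by
  obtain ⟨c, hc1, hc2⟩ := exists_notMem_two _ _ (span_pair_ne_top hn a b) (span_pair_ne_top hn a b')
  obtain ⟨g₁, h1a, h1b⟩ := exists_sl_transvection a b c (by
    intro h
    obtain ⟨l, m, hlm⟩ := Submodule.mem_span_pair.1 h
    by_cases hm : m = 0
    · apply hb
      rw [Submodule.mem_span_singleton]
      exact ⟨l, by rw [← hlm, hm]; simp⟩
    · apply hc1
      rw [Submodule.mem_span_pair]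
      refine ⟨-(m⁻¹ * l), m⁻¹ * (1 + m), ?_⟩
      have : m • c = (1 + m) • b - l • a := by
        rw [add_smul, one_smul]
        nth_rewrite 1 [← hlm]
        rw [smul_sub]; abel
      calc -(m⁻¹ * l) • a + (m⁻¹ * (1 + m)) • b = m⁻¹ • ((1 + m) • b - l • a) := by
            rw [smul_sub, smul_smul, smul_smul, neg_smul]; abel
        _ = c := by rw [← this, smul_smul, inv_mul_cancel₀ hm, one_smul])
  obtain ⟨g₂, h2a, h2b⟩ := exists_sl_transvection a c b' (by
    intro h
    obtain ⟨l, m, hlm⟩ := Submodule.mem_span_pair.1 h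
    by_cases hm : 1 + m = 0
    · apply hb'
      rw [Submodule.mem_span_singleton]
      refine ⟨l, ?_⟩
      have hm' : m = -1 := by linear_combination hm
      rw [hm'] at hlm
      have : l • a - b' = 0 := by
        have h3 : l • a + (-1 : F) • (b' - c) - c = 0 := by rw [hlm, sub_self]
        rw [← h3, neg_smul, one_smul]; abel
      exact sub_eq_zero.1 this
    · apply hc2
      rw [Submodule.mem_span_pair]
      refine ⟨(1 + m)⁻¹ * l, (1 + m)⁻¹ * m, ?_⟩
      have : (1 + m) • c = l • a + m • b' := by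
        rw [add_smul, one_smul]
        nth_rewrite 1 [← hlm]
        rw [smul_sub]; abel
      calc ((1 + m)⁻¹ * l) • a + ((1 + m)⁻¹ * m) • b' = (1 + m)⁻¹ • (l • a + m • b') := by
            rw [smul_add, smul_smul, smul_smul]
        _ = c := by rw [← this, smul_smul, inv_mul_cancel₀ hm, one_smul])
  refine ⟨g₂ * g₁, ?_, ?_⟩
  · show ((g₂ : Matrix (Fin n) (Fin n) F) * (g₁ : Matrix (Fin n) (Fin n) F)) *ᵥ a = a
    rw [← mulVec_mulVec, h1a, h2a]
  · show ((g₂ : Matrix (Fin n) (Fin n) F) * (g₁ : Matrix (Fin n) (Fin n) F)) *ᵥ b = b'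
    rw [← mulVec_mulVec, h1b, h2b]

theorem sl_trans_of_notMem (x y : Fin n → F) (hx : x ≠ 0) (hy : y ∉ Submodule.span F {x}) :
    ∃ g : SpecialLinearGroup (Fin n) F, (g : Matrix (Fin n) (Fin n) F) *ᵥ x = y := by
  obtain ⟨g, -, hg⟩ := exists_sl_transvection 0 x y (by
    intro h
    obtain ⟨l, m, hlm⟩ := Submodule.mem_span_pair.1 h
    by_cases hm : m = 0
    · apply hx
      rw [← hlm, hm]; simp
    · apply hy
      rw [Submodule.mem_span_singleton]
      refine ⟨m⁻¹ * (1 + m), ?_⟩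
      have : m • y = (1 + m) • x := by
        rw [add_smul, one_smul]
        nth_rewrite 1 [← hlm]
        rw [smul_zero, zero_add, smul_sub]; abel
      rw [mul_smul, ← this, smul_smul, inv_mul_cancel₀ hm, one_smul])
  exact ⟨g, hg⟩

theorem sl_trans (hn : 3 ≤ n) (x y : Fin n → F) (hx : x ≠ 0) (hy : y ≠ 0) :
    ∃ g : SpecialLinearGroup (Fin n) F, (g : Matrix (Fin n) (Fin n) F) *ᵥ x = y := by
  by_cases h : y ∈ Submodule.span F {x}
  · obtain ⟨z, hz, -⟩ := exists_notMem_two _ _ (span_singleton_ne_top hn x)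
      (span_singleton_ne_top hn x)
    have hz0 : z ≠ 0 := by
      rintro rfl; exact hz (Submodule.zero_mem _)
    obtain ⟨g₁, h1⟩ := sl_trans_of_notMem x z hx hz
    obtain ⟨g₂, h2⟩ := sl_trans_of_notMem z y hz0 (by
      intro h'
      obtain ⟨γ, hγ⟩ := Submodule.mem_span_singleton.1 h
      obtain ⟨δ, hδ⟩ := Submodule.mem_span_singleton.1 h'
      have hδ0 : δ ≠ 0 := by
        rintro rfl; apply hy; rw [← hδ, zero_smul]
      apply hz
      rw [Submodule.mem_span_singleton]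
      refine ⟨δ⁻¹ * γ, ?_⟩
      rw [mul_smul, hγ, ← hδ, smul_smul, inv_mul_cancel₀ hδ0, one_smul])
    refine ⟨g₂ * g₁, ?_⟩
    show ((g₂ : Matrix (Fin n) (Fin n) F) * (g₁ : Matrix (Fin n) (Fin n) F)) *ᵥ x = y
    rw [← mulVec_mulVec, h1, h2]
  · exact sl_trans_of_notMem x y hx h

end Cfsg.Agent.Lib.Helper25
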