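import Mathlib
import Cfsg.Agent.Lib.Helper25.SLPerm2

set_option autoImplicit false

namespace Cfsg.Agent.Lib.Helper25

open Matrix

variable {F : Type*} [Field F] {n : ℕ}

/-- The nonzero vectors. -/
abbrev NZ (F : Type*) [Field F] (n : ℕ) := {v : Fin n → F // v ≠ 0}

theorem sl_inv_mulVec (g : SpecialLinearGroup (Fin n) F) (v : Fin n → F) :
    ((g⁻¹ : SpecialLinearGroup (Fin n) F) : Matrix (Fin n) (Fin n) F) *ᵥ
      ((g : Matrix (Fin n) (Fin n) F) *ᵥ v) = v := by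
  rw [mulVec_mulVec]
  have : ((g⁻¹ : SpecialLinearGroup (Fin n) F) : Matrix (Fin n) (Fin n) F) *
      (g : Matrix (Fin n) (Fin n) F) = 1 := congrArg Subtype.val (inv_mul_cancel g)
  rw [this, one_mulVec]

instance slNZ : MulAction (SpecialLinearGroup (Fin n) F) (NZ F n) where
  smul g v := ⟨(g : Matrix (Fin n) (Fin n) F) *ᵥ v.1, fun h => v.2 (by
    rw [← sl_inv_mulVec g v.1, h, mulVec_zero])⟩
  one_smul v := Subtype.ext (one_mulVec v.1)
  mul_smul g h v := Subtype.ext (mulVec_mulVec v.1 (g : Matrix (Fin n) (Fin n) F)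
    (h : Matrix (Fin n) (Fin n) F)).symm

theorem slNZ_coe (g : SpecialLinearGroup (Fin n) F) (v : NZ F n) :
    (g • v).1 = (g : Matrix (Fin n) (Fin n) F) *ᵥ v.1 := rfl

open Classical in
/-- The ratio of two nonzero vectors (zero if independent). -/
noncomputable def kap (x y : NZ F n) : F :=
  if h : ∃ c : F, c • x.1 = y.1 then h.choose else 0

theorem kap_eq (x y : NZ F n) (c : F) (h : c • x.1 = y.1) : kap x y = c := by
  have hex : ∃ c : F, c • x.1 = y.1 := ⟨c, h⟩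
  rw [kap, dif_pos hex]
  have h1 := hex.choose_spec
  have h2 : (hex.choose - c) • x.1 = 0 := by rw [sub_smul, h1, h, sub_self]
  rcases smul_eq_zero.1 h2 with h3 | h3
  · exact sub_eq_zero.1 h3
  · exact absurd h3 x.2

theorem kap_eq_zero (x y : NZ F n) (h : y.1 ∉ Submodule.span F {x.1}) : kap x y = 0 := by
  rw [kap, dif_neg]
  rintro ⟨c, hc⟩
  exact h (Submodule.mem_span_singleton.2 ⟨c, hc⟩)

theorem kap_cases (x y : NZ F n) :
    (kap x y ≠ 0 ∧ kap x y • x.1 = y.1) ∨ (kap x y = 0 ∧ y.1 ∉ Submodule.span F {x.1}) := by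
  by_cases h : y.1 ∈ Submodule.span F {x.1}
  · left
    obtain ⟨c, hc⟩ := Submodule.mem_span_singleton.1 h
    rw [kap_eq x y c hc]
    refine ⟨?_, hc⟩
    rintro rfl
    exact y.2 (by rw [← hc, zero_smul])
  · exact Or.inr ⟨kap_eq_zero x y h, h⟩

theorem notMem_span_smul (g : SpecialLinearGroup (Fin n) F) (x y : NZ F n)
    (h : y.1 ∉ Submodule.span F {x.1}) : (g • y).1 ∉ Submodule.span F {(g • x).1} := by
  intro h'
  obtain ⟨c, hc⟩ := Submodule.mem_span_singleton.1 h'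
  apply h
  rw [Submodule.mem_span_singleton]
  refine ⟨c, ?_⟩
  rw [slNZ_coe, slNZ_coe, ← mulVec_smul] at hc
  have := congrArg (fun v => ((g⁻¹ : SpecialLinearGroup (Fin n) F) :
    Matrix (Fin n) (Fin n) F) *ᵥ v) hc
  simpa only [sl_inv_mulVec] using this

theorem kap_smul (g : SpecialLinearGroup (Fin n) F) (x y : NZ F n) :
    kap (g • x) (g • y) = kap x y := by
  rcases kap_cases x y with ⟨-, h⟩ | ⟨h0, h⟩
  · apply kap_eq
    rw [slNZ_coe, slNZ_coe, ← mulVec_smul, h]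
  · rw [h0]
    exact kap_eq_zero _ _ (notMem_span_smul g x y h)

theorem exists_smul_of_kap_eq (hn : 3 ≤ n) (x y x' y' : NZ F n) (h : kap x y = kap x' y') :
    ∃ g : SpecialLinearGroup (Fin n) F, g • x = x' ∧ g • y = y' := by
  obtain ⟨g₀, hg₀⟩ := sl_trans hn x.1 x'.1 x.2 x'.2
  have hg₀' : g₀ • x = x' := Subtype.ext hg₀
  rcases kap_cases x y with ⟨hne, h1⟩ | ⟨h0, h1⟩
  · rcases kap_cases x' y' with ⟨-, h2⟩ | ⟨h0', -⟩
    · refine ⟨g₀, hg₀', Subtype.ext ?_⟩
      rw [slNZ_coe, ← h1, mulVec_smul, hg₀, h, h2]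
    · rw [h, h0'] at hne; exact absurd rfl hne
  · rcases kap_cases x' y' with ⟨hne, -⟩ | ⟨-, h2⟩
    · rw [← h, h0] at hne; exact absurd rfl hne
    · have h3 := notMem_span_smul g₀ x y h1
      rw [hg₀'] at h3
      obtain ⟨k, hk1, hk2⟩ := sl_trans_pair hn x'.1 (g₀ • y).1 y'.1 h3 h2
      refine ⟨k * g₀, ?_, ?_⟩
      · rw [mul_smul, hg₀']; exact Subtype.ext hk1
      · rw [mul_smul]; exact Subtype.ext hk2

theorem isPretransitive_slNZ (hn : 3 ≤ n) :
    MulAction.IsPretransitive (SpecialLinearGroup (Fin n) F) (NZ F n) :=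
  ⟨fun x y => by
    obtain ⟨g, hg⟩ := sl_trans hn x.1 y.1 x.2 y.2
    exact ⟨g, Subtype.ext hg⟩⟩

theorem kap_surj (hn : 3 ≤ n) (a : NZ F n) (c : F) : ∃ y : NZ F n, kap a y = c := by
  by_cases hc : c = 0
  · obtain ⟨z, hz, -⟩ := exists_notMem_two _ _ (span_singleton_ne_top hn a.1)
      (span_singleton_ne_top hn a.1)
    refine ⟨⟨z, ?_⟩, ?_⟩
    · rintro rfl; exact hz (Submodule.zero_mem _)
    · rw [hc]; exact kap_eq_zero _ _ hz
  · exact ⟨⟨c • a.1, smul_ne_zero hc a.2⟩, kap_eq _ _ c rfl⟩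

theorem card_orbits_stabilizer (hn : 3 ≤ n) (a : NZ F n) :
    Nat.card (MulAction.orbitRel.Quotient
      (MulAction.stabilizer (SpecialLinearGroup (Fin n) F) a) (NZ F n)) = Nat.card F := by
  apply Nat.card_congr
  refine Equiv.ofBijective (Quotient.lift (fun y => kap a y) ?_) ⟨?_, ?_⟩
  · intro y z hyz
    obtain ⟨h, rfl⟩ := hyz
    show kap a (h • z) = kap a z
    have h1 : ((h : SpecialLinearGroup (Fin n) F)) • a = a := h.2
    have h2 := kap_smul (h : SpecialLinearGroup (Fin n) F) a z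
    rw [h1] at h2
    exact h2
  · intro u v
    induction u using Quotient.inductionOn
    induction v using Quotient.inductionOn
    rename_i y z
    intro hyz
    obtain ⟨g, hga, hgy⟩ := exists_smul_of_kap_eq hn a z a y (Eq.symm hyz)
    apply Quotient.sound
    exact ⟨⟨g, hga⟩, hgy⟩
  · intro c
    obtain ⟨y, hy⟩ := kap_surj hn a c
    exact ⟨Quotient.mk _ y, hy⟩

end Cfsg.Agent.Lib.Helper25
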