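import Mathlib
import Cfsg.Agent.Lib.Helper25.SLPerm3
import Cfsg.Agent.Lib.Helper25.CentRing2

set_option autoImplicit false

namespace Cfsg.Agent.Lib.Helper25

open Matrix Cfsg

variable {F : Type*} [Field F] [Fintype F] [DecidableEq F] {n : ℕ}

/-- Scalar multiplication on nonzero vectors. -/
def scal (c : Fˣ) (x : NZ F n) : NZ F n := ⟨(c : F) • x.1, smul_ne_zero c.ne_zero x.2⟩

theorem scal_scal (c d : Fˣ) (x : NZ F n) : scal c (scal d x) = scal d (scal c x) :=
  Subtype.ext (smul_comm _ _ _)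

theorem scal_bij (c : Fˣ) : Function.Bijective (scal c : NZ F n → NZ F n) := by
  refine Function.bijective_iff_has_inverse.2 ⟨scal c⁻¹, fun x => Subtype.ext ?_,
    fun x => Subtype.ext ?_⟩
  · show ((c⁻¹ : Fˣ) : F) • ((c : F) • x.1) = x.1
    rw [smul_smul, Units.inv_mul, one_smul]
  · show (c : F) • (((c⁻¹ : Fˣ) : F) • x.1) = x.1
    rw [smul_smul, Units.mul_inv, one_smul]

/-- The operator of a scalar. -/
noncomputable def Pc (c : Fˣ) : Module.End ℂ (NZ F n → ℂ) := LinearMap.funLeft ℂ ℂ (scal c)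

theorem Pc_apply (c : Fˣ) (f : NZ F n → ℂ) (x : NZ F n) : Pc c f x = f (scal c x) := rfl

/-- The all-ones operator. -/
noncomputable def Jop : Module.End ℂ (NZ F n → ℂ) where
  toFun f := fun _ => ∑ y, f y
  map_add' f g := by funext _; simp [Finset.sum_add_distrib]
  map_smul' c f := by funext _; simp [Finset.mul_sum]

theorem Jop_apply (f : NZ F n → ℂ) (x : NZ F n) : Jop f x = ∑ y, f y := rfl

theorem commute_Pc_Pc (c d : Fˣ) : Commute (Pc c : Module.End ℂ (NZ F n → ℂ)) (Pc d) := by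
  apply LinearMap.ext; intro f; funext x
  show f (scal d (scal c x)) = f (scal c (scal d x))
  rw [scal_scal]

theorem commute_Pc_Jop (c : Fˣ) : Commute (Pc c : Module.End ℂ (NZ F n → ℂ)) Jop := by
  apply LinearMap.ext; intro f; funext x
  show ∑ y, f y = ∑ y, f (scal c y)
  exact (Function.Bijective.sum_comp (scal_bij c) f).symm

theorem decomp_of_invariant (hn : 3 ≤ n) (S : (NZ F n → ℂ) →ₗ[ℂ] (NZ F n → ℂ))
    (hS : S ∈ ((permRep ℂ (SpecialLinearGroup (Fin n) F) (NZ F n)).linHom
      (permRep ℂ (SpecialLinearGroup (Fin n) F) (NZ F n))).invariants) :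
    ∃ (α : Fˣ → ℂ) (β : ℂ), S = ∑ c, α c • (Pc c : Module.End ℂ (NZ F n → ℂ)) + β • Jop := by
  classical
  rw [mem_inv_iff] at hS
  have hδ : ∀ (g : SpecialLinearGroup (Fin n) F) (y : NZ F n),
      permRep ℂ (SpecialLinearGroup (Fin n) F) (NZ F n) g (Pi.single y 1) = Pi.single (g • y) 1 := by
    intro g y
    funext x
    rw [permRep_apply]
    by_cases h : x = g • y
    · rw [h, inv_smul_smul, Pi.single_eq_same, Pi.single_eq_same]
    · rw [Pi.single_eq_of_ne h, Pi.single_eq_of_ne]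
      intro h'
      exact h (by rw [← h', smul_inv_smul])
  have hM : ∀ (g : SpecialLinearGroup (Fin n) F) (x y : NZ F n),
      S (Pi.single (g • y) 1) (g • x) = S (Pi.single y 1) x := by
    intro g x y
    have h1 := LinearMap.congr_fun (hS g) (Pi.single y 1)
    simp only [LinearMap.comp_apply] at h1
    rw [hδ] at h1
    rw [h1, permRep_apply, inv_smul_smul]
  obtain ⟨a⟩ : Nonempty (NZ F n) := by
    obtain ⟨z, hz, -⟩ := exists_notMem_two _ _ (span_singleton_ne_top (F := F) hn 0)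
      (span_singleton_ne_top hn 0)
    exact ⟨⟨z, by rintro rfl; exact hz (Submodule.zero_mem _)⟩⟩
  choose yc hyc using kap_surj hn a
  have hσ : ∀ x y : NZ F n, S (Pi.single y 1) x = S (Pi.single (yc (kap x y)) 1) a := by
    intro x y
    obtain ⟨g, hg1, hg2⟩ := exists_smul_of_kap_eq hn a (yc (kap x y)) x y (hyc _)
    rw [← hg1, ← hg2, hM, hg1, hg2]
  obtain ⟨σ, hσdef⟩ : ∃ σ : F → ℂ, ∀ c, σ c = S (Pi.single (yc c) 1) a := ⟨_, fun _ => rfl⟩
  refine ⟨fun c => σ c - σ 0, σ 0, ?_⟩
  apply LinearMap.ext; intro f; funext x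
  have h1 : S f x = ∑ y, f y * σ (kap x y) := by
    have hf : f = ∑ y, f y • (Pi.single y (1 : ℂ) : NZ F n → ℂ) := by
      funext z
      simp [Finset.sum_apply, Pi.single_apply]
    conv_lhs => rw [hf, map_sum]
    rw [Finset.sum_apply]
    refine Finset.sum_congr rfl (fun y _ => ?_)
    rw [map_smul, Pi.smul_apply, smul_eq_mul, hσ, hσdef]
  rw [h1]
  simp only [LinearMap.add_apply, LinearMap.sum_apply, LinearMap.smul_apply, Pi.add_apply,
    Finset.sum_apply, Pi.smul_apply, smul_eq_mul, Pc_apply, Jop_apply]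
  have h2 : ∑ c : Fˣ, (σ c - σ 0) * f (scal c x) = ∑ y, f y * (σ (kap x y) - σ 0) := by
    apply Fintype.sum_of_injective (fun c : Fˣ => scal c x)
    · intro c d hcd
      have h3 : kap x (scal c x) = kap x (scal d x) := by
        have : scal c x = scal d x := hcd
        rw [this]
      rw [kap_eq x (scal c x) c rfl, kap_eq x (scal d x) d rfl] at h3
      exact Units.ext h3
    · intro y hy
      rcases kap_cases x y with ⟨hne, h⟩ | ⟨h0, -⟩
      · exfalso
        apply hy
        exact ⟨Units.mk0 _ hne, Subtype.ext h⟩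
      · rw [h0, sub_self, mul_zero]
    · intro c
      rw [kap_eq x (scal c x) c rfl, mul_comm]
  rw [h2, Finset.mul_sum, ← Finset.sum_add_distrib]
  refine Finset.sum_congr rfl (fun y _ => by ring)

theorem commute_of_invariant (hn : 3 ≤ n) (S T : (NZ F n → ℂ) →ₗ[ℂ] (NZ F n → ℂ))
    (hS : S ∈ ((permRep ℂ (SpecialLinearGroup (Fin n) F) (NZ F n)).linHom
      (permRep ℂ (SpecialLinearGroup (Fin n) F) (NZ F n))).invariants)
    (hT : T ∈ ((permRep ℂ (SpecialLinearGroup (Fin n) F) (NZ F n)).linHom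
      (permRep ℂ (SpecialLinearGroup (Fin n) F) (NZ F n))).invariants) :
    S ∘ₗ T = T ∘ₗ S := by
  obtain ⟨α, β, rfl⟩ := decomp_of_invariant hn S hS
  obtain ⟨α', β', rfl⟩ := decomp_of_invariant hn T hT
  have hJ : ∀ (γ : Fˣ → ℂ) (δ : ℂ), Commute (Jop : Module.End ℂ (NZ F n → ℂ))
      (∑ c, γ c • (Pc c : Module.End ℂ (NZ F n → ℂ)) + δ • Jop) := by
    intro γ δ
    apply Commute.add_right
    · apply Commute.sum_right
      intro c _
      exact ((commute_Pc_Jop c).symm).smul_right _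
    · exact (Commute.refl _).smul_right _
  have hP : ∀ (d : Fˣ) (γ : Fˣ → ℂ) (δ : ℂ), Commute (Pc d : Module.End ℂ (NZ F n → ℂ))
      (∑ c, γ c • (Pc c : Module.End ℂ (NZ F n → ℂ)) + δ • Jop) := by
    intro d γ δ
    apply Commute.add_right
    · apply Commute.sum_right
      intro c _
      exact (commute_Pc_Pc d c).smul_right _
    · exact (commute_Pc_Jop d).smul_right _
  have : Commute (∑ c, α c • (Pc c : Module.End ℂ (NZ F n → ℂ)) + β • Jop)
      (∑ c, α' c • (Pc c : Module.End ℂ (NZ F n → ℂ)) + β' • Jop) := by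
    apply Commute.add_left
    · apply Commute.sum_left
      intro c _
      exact (hP c α' β').smul_left _
    · exact (hJ α' β').smul_left _
  exact this.eq

end Cfsg.Agent.Lib.Helper25
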