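import Cfsg.Agent.Lib.Helper25.Monomial
import Cfsg.Agent.Lib.Helper25.LinExt
import Cfsg.Agent.Lib.Helper25.DetExt
import Cfsg.Agent.Lib.Helper25.PRes3
import Cfsg.Agent.Lib.Helper25.AbelianIndex

set_option autoImplicit false

namespace Cfsg.Agent.Lib.Helper25

open Cfsg
open scoped ComplexConjugate

universe u

variable {G : Type u} [Group G]

/-- The conjugation action of `G` on the linear characters of a normal subgroup. -/
noncomputable def cjHom (H : Subgroup G) [H.Normal] : G →* MulAut (H →* ℂˣ) where
  toFun g :=
    { toFun := fun l => l.comp (MulAut.conjNormal g⁻¹ : MulAut H).toMonoidHom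
      invFun := fun l => l.comp (MulAut.conjNormal g : MulAut H).toMonoidHom
      left_inv := fun l => by
        ext h
        simp [map_inv]
      right_inv := fun l => by
        ext h
        simp [map_inv]
      map_mul' := fun l l' => rfl }
  map_one' := by
    ext l h
    simp
  map_mul' a b := by
    ext l h
    simp [mul_inv_rev, map_mul]

theorem cjHom_apply (H : Subgroup G) [H.Normal] (g : G) (l : H →* ℂˣ) (h : H) :
    cjHom H g l h = l ((MulAut.conjNormal g⁻¹ : MulAut H) h) := rfl

/-- The stabilizer of a linear character. -/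
def linStab (H : Subgroup G) [H.Normal] (l : H →* ℂˣ) : Subgroup G :=
  inertia H (fun h => (l h : ℂ))

theorem mem_linStab (H : Subgroup G) [hN : H.Normal] (l : H →* ℂˣ) (g : G) :
    g ∈ linStab H l ↔ ∀ h : H, l (MulAut.conjNormal g h) = l h := by
  unfold linStab
  rw [mem_inertia]
  constructor
  · intro h x
    exact Units.ext (h x)
  · intro h x
    exact congrArg Units.val (h x)

theorem mem_linStab_iff (H : Subgroup G) [hN : H.Normal] (l : H →* ℂˣ) (g : G) :
    g ∈ linStab H l ↔ cjHom H g l = l := by
  rw [← inv_mem_iff, mem_linStab]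
  constructor
  · intro h
    ext x
    rw [cjHom_apply, h]
  · intro h x
    have := DFunLike.congr_fun h x
    rw [cjHom_apply] at this
    exact this

theorem le_linStab (H : Subgroup G) [hN : H.Normal] (l : H →* ℂˣ) : H ≤ linStab H l := by
  intro g hg
  rw [mem_linStab]
  intro h
  have : (MulAut.conjNormal g : MulAut H) h = ⟨g, hg⟩ * h * ⟨g, hg⟩⁻¹ := by
    apply Subtype.ext
    simp
  rw [this, map_mul, map_mul, map_inv, mul_comm, inv_mul_cancel_left]

theorem cjHom_of_mem (H : Subgroup G) [hN : H.Normal] {g : G} (hg : g ∈ H) : cjHom H g = 1 := by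
  ext l : 1
  exact (mem_linStab_iff H l g).mp (le_linStab H l hg)

theorem hom_pow_card {H : Type*} [Group H] [Finite H] (l : H →* ℂˣ) : l ^ Nat.card H = 1 := by
  ext h
  rw [MonoidHom.pow_apply, ← map_pow, pow_card_eq_one', map_one, MonoidHom.one_apply]

end Cfsg.Agent.Lib.Helper25
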