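import Cfsg.Agent.Lib.Helper25.TwoDeg1

set_option autoImplicit false

namespace Cfsg.Agent.Lib.Helper25

open Cfsg
open scoped ComplexConjugate

universe u

variable {G : Type u} [Group G]

/-- Data on the stabilizer of a non-invariant linear character of a normal Hall subgroup in a
group with character degrees `1, m`. -/
theorem linStab_data [Finite G] (H : Subgroup G) [hN : H.Normal]
    (hcop : Nat.Coprime (Nat.card H) H.index) (m : ℕ)
    (hcd : ∀ χ : G → ℂ, IsIrrCharacter G χ → χ 1 = 1 ∨ χ 1 = m)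
    (l : H →* ℂˣ) (hl : linStab H l ≠ ⊤) :
    (linStab H l).index = m ∧
      ∀ a ∈ linStab H l, ∀ b ∈ linStab H l, a * b * a⁻¹ * b⁻¹ ∈ H := by
  classical
  cases nonempty_fintype G
  set T := linStab H l with hT
  have hHT : H ≤ T := le_linStab H l
  have hnorm : (H.subgroupOf T).Normal := inferInstance
  let e : H.subgroupOf T ≃* H := Subgroup.subgroupOfEquivOfLe hHT
  let l' : H.subgroupOf T →* ℂˣ := l.comp e.toMonoidHom
  have hl' : ∀ n : H.subgroupOf T, l' n = l ⟨n.1.1, n.2⟩ := fun n => rfl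
  have hinv : ∀ (g : T) (n : H.subgroupOf T), l' (MulAut.conjNormal g n) = l' n := by
    intro g n
    rw [hl', hl']
    have h1 := (mem_linStab H l g.1).mp g.2 ⟨n.1.1, n.2⟩
    rw [← h1]
    congr 1
  have ho : ∀ n, l' n ^ Nat.card H = 1 := by
    intro n
    rw [hl', ← map_pow, pow_card_eq_one', map_one]
  have hcop' : Nat.Coprime (H.subgroupOf T).index (Nat.card H) := by
    have h1 : (H.subgroupOf T).index ∣ H.index := Subgroup.relIndex_dvd_index_of_le hHT
    exact (Nat.Coprime.coprime_dvd_right h1 hcop).symm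
  obtain ⟨F, hF, -⟩ := exists_coprime_linear_extension (H.subgroupOf T) l' hinv (Nat.card H) ho hcop'
  have hθ : IsIrrCharacter H (fun h => (l h : ℂ)) := Helper7.isIrrCharacter_of_hom l
  have hTmem : ∀ g : G, g ∈ T ↔ ∀ h : H,
      (fun h => (l h : ℂ)) ⟨g * h * g⁻¹, hN.conj_mem h h.2 g⟩ = (fun h => (l h : ℂ)) h :=
    fun g => mem_inertia H _ g
  have hidx1 : T.index ≠ 1 := fun h => hl (Subgroup.index_eq_one.mp h)
  have key : ∀ β : T → ℂ, IsIrrCharacter T β → (∀ n : H, β ⟨n, hHT n.2⟩ = β 1) →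
      ∀ d : ℕ, β 1 = d → T.index * d = m := by
    intro β hβ hker d hd
    have hψ : IsIrrCharacter T (fun t => (F t : ℂ) * β t) := isIrrCharacter_linear_mul F hβ
    have hres : (fun n : H => (fun t => (F t : ℂ) * β t) ⟨n, hHT n.2⟩)
        = (d : ℂ) • (fun h : H => (l h : ℂ)) := by
      funext n
      have h1 : F ⟨n, hHT n.2⟩ = l n := hF ⟨⟨n, hHT n.2⟩, n.2⟩
      simp only [Pi.smul_apply, smul_eq_mul]
      rw [h1, hker, hd, mul_comm]
    have hd0 : (d : ℂ) ≠ 0 := by
      rw [← hd]
      exact Helper7.irr_apply_one_ne_zero hβ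
    have hψθ : classInner (fun n : H => (fun t => (F t : ℂ) * β t) ⟨n, hHT n.2⟩)
        (fun h => (l h : ℂ)) ≠ 0 := by
      rw [hres, classInner_smul_left, classInner_irr hθ hθ, if_pos rfl, mul_one]
      exact hd0
    have hirr := isIrrCharacter_indFun_of_inertia H T hθ hTmem hHT hψ hψθ
    have h1 : indFun T (fun t => (F t : ℂ) * β t) 1 = ((T.index * d : ℕ) : ℂ) := by
      rw [indFun_one, map_one, hd]
      simp
    rcases hcd _ hirr with h | h
    · exfalso
      rw [h1] at h
      have h2 : T.index * d = 1 := by exact_mod_cast h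
      exact hidx1 (Nat.eq_one_of_mul_eq_one_right h2)
    · rw [h1] at h
      exact_mod_cast h
  have hm : T.index = m := by
    have := key (fun _ => 1) Helper7.isIrrCharacter_one (fun _ => rfl) 1 (by simp)
    simpa using this
  refine ⟨hm, ?_⟩
  have hcomm := comm_of_forall_linear (G := T ⧸ H.subgroupOf T) (by
    intro χ
    obtain ⟨d, -, hd⟩ := Helper7.irr_apply_one χ.2
    have hβ := isIrrCharacter_comp_surjective (QuotientGroup.mk' (H.subgroupOf T))
      (QuotientGroup.mk'_surjective _) χ.2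
    have h1 := key _ hβ (by
      intro n
      have : (QuotientGroup.mk' (H.subgroupOf T)) ⟨n, hHT n.2⟩ = 1 := by
        rw [QuotientGroup.mk'_apply, QuotientGroup.eq_one_iff]
        exact n.2
      simp only [this, map_one]) d (by simp only [map_one]; exact hd)
    rw [← hm] at h1
    have hpos : 0 < T.index := Nat.pos_of_ne_zero T.index_ne_zero_of_finite
    have h2 : d = 1 := by
      have : T.index * d = T.index * 1 := by rw [h1, mul_one]
      exact Nat.eq_of_mul_eq_mul_left hpos this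
    rw [hd, h2, Nat.cast_one])
  intro a ha b hb
  have h1 := hcomm (QuotientGroup.mk ⟨a, ha⟩) (QuotientGroup.mk ⟨b, hb⟩)
  have h2 : ((⟨a, ha⟩ * ⟨b, hb⟩ * ⟨a, ha⟩⁻¹ * ⟨b, hb⟩⁻¹ : T) : T ⧸ H.subgroupOf T) = 1 := by
    simp only [QuotientGroup.mk_mul, QuotientGroup.mk_inv]
    rw [h1]
    group
  rw [QuotientGroup.eq_one_iff] at h2
  exact h2

end Cfsg.Agent.Lib.Helper25
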