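import Cfsg.Agent.Lib.Helper25.TwoDeg2

set_option autoImplicit false

namespace Cfsg.Agent.Lib.Helper25

open Cfsg
open scoped ComplexConjugate

universe u

section abstract

variable {L : Type*} [CommGroup L]

/-- The norm map of a cyclic group of automorphisms. -/
noncomputable def cycNorm (σ : MulAut L) (r : ℕ) : L →* L :=
  ∏ i ∈ Finset.range r, ((σ ^ i : MulAut L) : L ≃* L).toMonoidHom

theorem cycNorm_apply (σ : MulAut L) (r : ℕ) (l : L) :
    cycNorm σ r l = ∏ i ∈ Finset.range r, (σ ^ i) l := by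
  simp [cycNorm]

theorem pow_apply_fixed (σ : MulAut L) {l : L} (h : σ l = l) (i : ℕ) : (σ ^ i) l = l := by
  induction i with
  | zero => simp
  | succ k ih => rw [pow_succ, MulAut.mul_apply, h, ih]

theorem cycNorm_fixed (σ : MulAut L) (r : ℕ) {l : L} (h : σ l = l) : cycNorm σ r l = l ^ r := by
  rw [cycNorm_apply, Finset.prod_congr rfl (fun i _ => pow_apply_fixed σ h i), Finset.prod_const,
    Finset.card_range]

theorem apply_cycNorm (σ : MulAut L) {r : ℕ} (hr : σ ^ r = 1) (l : L) :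
    σ (cycNorm σ r l) = cycNorm σ r l := by
  rw [cycNorm_apply, map_prod]
  have h1 : ∀ i, σ ((σ ^ i) l) = (σ ^ (i + 1)) l := by
    intro i
    rw [pow_succ', MulAut.mul_apply]
  simp_rw [h1]
  have h2 := Finset.prod_range_succ (fun i => (σ ^ i) l) r
  have h3 := Finset.prod_range_succ' (fun i => (σ ^ i) l) r
  rw [h2, hr] at h3
  simp only [pow_zero, MulAut.one_apply] at h3
  exact (mul_right_cancel h3).symm

theorem cycNorm_comm (σ τ : MulAut L) (h : Commute τ σ) (r : ℕ) (l : L) :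
    τ (cycNorm σ r l) = cycNorm σ r (τ l) := by
  rw [cycNorm_apply, cycNorm_apply, map_prod]
  apply Finset.prod_congr rfl
  intro i _
  have := (h.pow_right i).eq
  rw [← MulAut.mul_apply, this, MulAut.mul_apply]

theorem norm_trick {n r : ℕ} (hn : ∀ l : L, l ^ n = 1) (hcop : Nat.Coprime r n) (σ : MulAut L)
    (hr : σ ^ r = 1) (lam μ : L) (hlam : σ lam = lam) (hμ : σ μ ≠ μ) :
    ∃ μ₂ : L, σ μ₂ ≠ μ₂ ∧ ∀ τ : MulAut L, Commute τ σ → τ (lam * μ₂) = lam * μ₂ → τ lam = lam := by
  obtain ⟨s, t, hst⟩ : ∃ s t : ℤ, s * r + t * n = 1 := Nat.isCoprime_iff_coprime.2 hcop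
  have hx : ∀ x : L, (x ^ r) ^ s = x := by
    intro x
    rw [← zpow_natCast, ← zpow_mul, mul_comm]
    have : s * (r : ℤ) = 1 - t * n := by linarith
    rw [this, zpow_sub, zpow_one, mul_comm t, zpow_mul, zpow_natCast, hn, one_zpow]
    simp
  set N := cycNorm σ r with hN
  refine ⟨μ * (N μ ^ s)⁻¹, ?_, ?_⟩
  · intro h
    rw [map_mul, map_inv, map_zpow, apply_cycNorm σ hr] at h
    exact hμ (mul_right_cancel h)
  · intro τ hτ h
    have h1 : N (μ * (N μ ^ s)⁻¹) = 1 := by
      rw [map_mul, map_inv, map_zpow, hN, cycNorm_fixed σ r (apply_cycNorm σ hr μ), hx]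
      simp
    have h2 : N (lam * (μ * (N μ ^ s)⁻¹)) = lam ^ r := by
      rw [map_mul, h1, mul_one, hN, cycNorm_fixed σ r hlam]
    have h3 : τ (lam ^ r) = lam ^ r := by
      rw [← h2, hN, cycNorm_comm σ τ hτ, h]
    rw [map_pow] at h3
    rw [← hx (τ lam), h3, hx]

end abstract

variable {G : Type u} [Group G]

theorem linStab_le_ker [Finite G] (H : Subgroup G) [hN : H.Normal]
    (hcop : Nat.Coprime (Nat.card H) H.index)
    (hcomm : ∀ a b : G, Commute (cjHom H a) (cjHom H b)) (m : ℕ)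
    (hidx : ∀ l, linStab H l ≠ ⊤ → (linStab H l).index = m) (l : H →* ℂˣ)
    (hl : linStab H l ≠ ⊤) : linStab H l ≤ (cjHom H).ker := by
  intro t ht
  rw [MonoidHom.mem_ker]
  by_contra hne
  obtain ⟨μ, hμ⟩ : ∃ μ, cjHom H t μ ≠ μ := by
    by_contra hall
    push Not at hall
    apply hne
    ext μ : 1
    exact hall μ
  have hr : (cjHom H t) ^ H.index = 1 := by
    rw [← map_pow]
    exact cjHom_of_mem H (H.pow_index_mem t)
  obtain ⟨μ₂, h1, h2⟩ := norm_trick (fun x : H →* ℂˣ => hom_pow_card x) hcop.symm (cjHom H t) hr l μ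
    ((mem_linStab_iff H l t).mp ht) hμ
  have hle : linStab H (l * μ₂) ≤ linStab H l := by
    intro g hg
    rw [mem_linStab_iff] at hg ⊢
    exact h2 _ (hcomm g t) hg
  have hne2 : linStab H (l * μ₂) ≠ ⊤ := by
    intro h
    rw [h] at hle
    exact hl (top_le_iff.mp hle)
  have hi1 := hidx _ hne2
  have hi2 := hidx _ hl
  have h3 := Subgroup.relIndex_mul_index hle
  rw [hi1, hi2] at h3
  have hm : 0 < m := by
    rw [← hi2]
    exact Nat.pos_of_ne_zero (Subgroup.index_ne_zero_of_finite)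
  have h4 : (linStab H (l * μ₂)).relIndex (linStab H l) = 1 := by
    have : (linStab H (l * μ₂)).relIndex (linStab H l) * m = 1 * m := by rw [h3, one_mul]
    exact Nat.eq_of_mul_eq_mul_right hm this
  have h5 : linStab H l ≤ linStab H (l * μ₂) := Subgroup.relIndex_eq_one.mp h4
  have h6 := (mem_linStab_iff H _ t).mp (h5 ht)
  rw [map_mul, (mem_linStab_iff H l t).mp ht] at h6
  exact h1 (mul_left_cancel h6)

end Cfsg.Agent.Lib.Helper25
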