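import Cfsg.Agent.Lib.Helper25.TwoDeg3

set_option autoImplicit false

namespace Cfsg.Agent.Lib.Helper25

open Cfsg
open scoped ComplexConjugate

universe u

theorem eq_of_forall_hom_eq {A : Type*} [Group A] [Finite A] (hA : ∀ a b : A, a * b = b * a)
    (x y : A) (h : ∀ l : A →* ℂˣ, l x = l y) : x = y := by
  letI : CommGroup A := { ‹Group A› with mul_comm := hA }
  by_contra hne
  have hne' : x * y⁻¹ ≠ 1 := fun h1 => hne (mul_inv_eq_one.mp h1)
  obtain ⟨φ, hφ⟩ := CommGroup.exists_apply_ne_one_of_hasEnoughRootsOfUnity A ℂ hne'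
  apply hφ
  rw [map_mul, map_inv, h φ, mul_inv_cancel]

variable {G : Type u} [Group G]

theorem comm_of_mem_ker_cjHom [Finite G] (H : Subgroup G) [hN : H.Normal]
    (hHab : ∀ a ∈ H, ∀ b ∈ H, a * b = b * a) {g : G} (hg : g ∈ (cjHom H).ker) (h : G)
    (hh : h ∈ H) : g * h = h * g := by
  have h1 : (MulAut.conjNormal g⁻¹ : MulAut H) ⟨h, hh⟩ = ⟨h, hh⟩ := by
    apply eq_of_forall_hom_eq (fun a b => Subtype.ext (hHab a a.2 b b.2))
    intro l
    have := DFunLike.congr_fun (DFunLike.congr_fun (MonoidHom.mem_ker.mp hg) l) ⟨h, hh⟩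
    rw [cjHom_apply] at this
    exact this
  have h2 := congrArg Subtype.val h1
  rw [MulAut.conjNormal_apply] at h2
  simp only [inv_inv] at h2
  calc g * h = g * (g⁻¹ * h * g) := by rw [h2]
    _ = h * g := by group

theorem ker_cjHom_le_linStab (H : Subgroup G) [hN : H.Normal] (l : H →* ℂˣ) :
    (cjHom H).ker ≤ linStab H l := by
  intro g hg
  rw [mem_linStab_iff, MonoidHom.mem_ker.mp hg]
  rfl

theorem le_ker_cjHom (H : Subgroup G) [hN : H.Normal] : H ≤ (cjHom H).ker :=
  fun _ hg => MonoidHom.mem_ker.mpr (cjHom_of_mem H hg)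

theorem comm_of_central_hall [Finite G] (H : Subgroup G) [hN : H.Normal]
    (hcop : Nat.Coprime (Nat.card H) H.index) (C : Subgroup G)
    (hcent : ∀ c ∈ C, ∀ h ∈ H, c * h = h * c)
    (hder : ∀ a ∈ C, ∀ b ∈ C, a * b * a⁻¹ * b⁻¹ ∈ H) : ∀ a ∈ C, ∀ b ∈ C, a * b = b * a := by
  intro a ha b hb
  set c := a * b * a⁻¹ * b⁻¹ with hc
  have hcH : c ∈ H := hder a ha b hb
  have hcb : Commute c b := (hcent b hb c hcH).symm
  have h1 : a * b * a⁻¹ = c * b := by rw [hc]; group
  have h2 : a * b ^ H.index * a⁻¹ = c ^ H.index * b ^ H.index := by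
    rw [← hcb.mul_pow, ← h1, conj_pow]
  have h3 : a * b ^ H.index * a⁻¹ = b ^ H.index := by
    rw [hcent a ha _ (H.pow_index_mem b)]
    group
  have h4 : c ^ H.index = 1 := by
    rw [h3] at h2
    exact (mul_eq_right.mp h2.symm)
  have h5 : c ^ Nat.card H = 1 := by
    have := pow_card_eq_one' (G := H) (x := ⟨c, hcH⟩)
    exact congrArg Subtype.val this
  have h6 : orderOf c = 1 :=
    Nat.eq_one_of_dvd_coprimes hcop (orderOf_dvd_of_pow_eq_one h5) (orderOf_dvd_of_pow_eq_one h4)
  have h7 : c = 1 := orderOf_eq_one_iff.mp h6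
  calc a * b = c * (b * a) := by rw [hc]; group
    _ = b * a := by rw [h7, one_mul]

theorem cjHom_comm_of_pGroup [Finite G] (H : Subgroup G) [hN : H.Normal]
    (hcop : Nat.Coprime (Nat.card H) H.index) (m : ℕ)
    (hcd : ∀ χ : G → ℂ, IsIrrCharacter G χ → χ 1 = 1 ∨ χ 1 = m)
    {p : ℕ} [hp : Fact p.Prime] (hpG : IsPGroup p (G ⧸ H)) :
    ∀ a b : G, Commute (cjHom H a) (cjHom H b) := by
  classical
  set C := (cjHom H).ker with hC
  have hHC : H ≤ C := le_ker_cjHom H
  have hpC : IsPGroup p (G ⧸ C) := by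
    apply IsPGroup.of_surjective hpG (QuotientGroup.map H C (MonoidHom.id G) hHC)
    intro x
    obtain ⟨g, rfl⟩ := QuotientGroup.mk_surjective x
    exact ⟨QuotientGroup.mk g, rfl⟩
  have hmain : ∀ x y : G ⧸ C, x * y = y * x := by
    by_contra hnc
    have hex : ∃ χ : IrrCharacter (G ⧸ C), (χ : G ⧸ C → ℂ) 1 ≠ 1 := by
      by_contra hall
      push Not at hall
      exact hnc (comm_of_forall_linear hall)
    obtain ⟨χ, hχ⟩ := hex
    have hβ := isIrrCharacter_comp_surjective (QuotientGroup.mk' C)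
      (QuotientGroup.mk'_surjective _) χ.2
    have hχm : (χ : G ⧸ C → ℂ) 1 = m := by
      rcases hcd _ hβ with h | h
      · exfalso
        apply hχ
        simpa using h
      · simpa using h
    have hnt : Nontrivial (G ⧸ C) := by
      by_contra hnt
      rw [not_nontrivial_iff_subsingleton] at hnt
      exact hnc (fun x y => Subsingleton.elim _ _)
    have hcn := hpC.center_nontrivial
    obtain ⟨⟨zb, hzb⟩, hz1⟩ := exists_ne (1 : Subgroup.center (G ⧸ C))
    have hzb1 : zb ≠ 1 := fun h => hz1 (Subtype.ext h)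
    obtain ⟨z, rfl⟩ := QuotientGroup.mk_surjective zb
    have hzC : z ∉ C := fun h => hzb1 ((QuotientGroup.eq_one_iff z).mpr h)
    obtain ⟨l, hl⟩ : ∃ l, cjHom H z l ≠ l := by
      by_contra hall
      push Not at hall
      apply hzC
      rw [hC, MonoidHom.mem_ker]
      ext μ : 1
      exact hall μ
    have hzT : z ∉ linStab H l := fun h => hl ((mem_linStab_iff H l z).mp h)
    have hT : linStab H l ≠ ⊤ := fun h => hzT (h ▸ Subgroup.mem_top z)
    obtain ⟨hidx, hder⟩ := linStab_data H hcop m hcd l hT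
    set T := linStab H l with hTdef
    have hCT : C ≤ T := ker_cjHom_le_linStab H l
    set Tb := T.map (QuotientGroup.mk' C) with hTb
    have hTbidx : Tb.index = m := by
      rw [hTb, Subgroup.index_map_eq T (QuotientGroup.mk'_surjective C)
        (by rw [QuotientGroup.ker_mk']; exact hCT), hidx]
    have hzTb : (QuotientGroup.mk z : G ⧸ C) ∉ Tb := by
      rintro ⟨t, ht, hte⟩
      apply hzT
      have h1 : t⁻¹ * z ∈ C := QuotientGroup.eq.mp hte
      have h2 := T.mul_mem ht (hCT h1)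
      simpa using h2
    set S : Set (G ⧸ C) := (Tb : Set (G ⧸ C)) ∪ {(QuotientGroup.mk z : G ⧸ C)} with hS
    have hScomm : ∀ x ∈ S, ∀ y ∈ S, x * y = y * x := by
      have hcen : ∀ y : G ⧸ C, (QuotientGroup.mk z : G ⧸ C) * y = y * QuotientGroup.mk z :=
        fun y => (Subgroup.mem_center_iff.mp hzb y).symm
      rintro x (hx | hx) y (hy | hy)
      · obtain ⟨a, ha, rfl⟩ := hx
        obtain ⟨b, hb, rfl⟩ := hy
        have h1 : a * b * a⁻¹ * b⁻¹ ∈ C := hHC (hder a ha b hb)
        have h2 : ((a * b * a⁻¹ * b⁻¹ : G) : G ⧸ C) = 1 := (QuotientGroup.eq_one_iff _).mpr h1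
        simp only [QuotientGroup.mk_mul, QuotientGroup.mk_inv] at h2
        simp only [QuotientGroup.mk'_apply]
        calc (a : G ⧸ C) * b = ((a : G ⧸ C) * b * (a : G ⧸ C)⁻¹ * (b : G ⧸ C)⁻¹) * (b * a) := by
              group
          _ = b * a := by rw [h2, one_mul]
      · rw [Set.mem_singleton_iff.mp hy]
        exact (hcen x).symm
      · rw [Set.mem_singleton_iff.mp hx]
        exact hcen y
      · rw [Set.mem_singleton_iff.mp hx, Set.mem_singleton_iff.mp hy]
    have hAc : IsMulCommutative (Subgroup.closure S) := Subgroup.isMulCommutative_closure hScomm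
    have hle := degree_le_index_of_comm χ.2 (Subgroup.closure S) hχm
    have hTA : Tb ≤ Subgroup.closure S := fun x hx => Subgroup.subset_closure (Or.inl hx)
    have hrel := Subgroup.relIndex_mul_index hTA
    rw [hTbidx] at hrel
    have hr1 : Tb.relIndex (Subgroup.closure S) ≠ 1 := by
      intro h
      exact hzTb (Subgroup.relIndex_eq_one.mp h (Subgroup.subset_closure (Or.inr rfl)))
    have hm0 : m ≠ 0 := by
      rw [← hidx]
      exact Subgroup.index_ne_zero_of_finite
    have hr0 : Tb.relIndex (Subgroup.closure S) ≠ 0 := by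
      intro h
      rw [h, zero_mul] at hrel
      exact hm0 hrel.symm
    have hi0 : (Subgroup.closure S).index ≠ 0 := Subgroup.index_ne_zero_of_finite
    have h2 : 2 ≤ Tb.relIndex (Subgroup.closure S) := by omega
    nlinarith [Nat.pos_of_ne_zero hi0]
  intro a b
  show cjHom H a * cjHom H b = cjHom H b * cjHom H a
  rw [← map_mul, ← map_mul]
  have h1 := hmain (QuotientGroup.mk a) (QuotientGroup.mk b)
  rw [← QuotientGroup.mk_mul, ← QuotientGroup.mk_mul] at h1
  have h2 : (a * b)⁻¹ * (b * a) ∈ C := QuotientGroup.eq.mp h1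
  rw [hC, MonoidHom.mem_ker, map_mul, map_inv] at h2
  exact (inv_mul_eq_one.mp h2)

end Cfsg.Agent.Lib.Helper25
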