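import Cfsg.Agent.Lib.Helper25.TwoDeg4
import Cfsg.Agent.Lib.Helper7.BlockDefect

set_option autoImplicit false

namespace Cfsg.Agent.Lib.Helper25

open Cfsg
open scoped ComplexConjugate

universe u

variable {G : Type u} [Group G]

/-- The degree of an irreducible character of a normal subgroup divides the degree of some
irreducible character of the group. -/
theorem exists_irr_degree_dvd [Finite G] (N : Subgroup G) [hN : N.Normal] {θ : N → ℂ}
    (hθ : IsIrrCharacter N θ) {d : ℕ} (hd : θ 1 = d) :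
    ∃ (χ : G → ℂ) (c : ℕ), IsIrrCharacter G χ ∧ χ 1 = c ∧ d ∣ c := by
  classical
  cases nonempty_fintype G
  have hInd : IsCharacter G (indFun N θ) := isCharacter_indFun N θ (isCharacter_of_irr hθ)
  have hne : indFun N θ ≠ 0 := by
    intro h0
    have h1 := congrFun h0 1
    rw [indFun_one] at h1
    have h2 : (N.index : ℂ) ≠ 0 := by exact_mod_cast N.index_ne_zero_of_finite
    exact mul_ne_zero h2 (Helper7.irr_apply_one_ne_zero hθ) h1
  obtain ⟨χ, hχ, hc⟩ := exists_irr_constituent hInd hne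
  have hc' : classInner (fun n : N => χ n) θ ≠ 0 := by
    rw [frobenius_reciprocity N θ χ (isClassFunction_of_isCharacter (isCharacter_of_irr hχ))] at hc
    rw [← classInner_conj_symm]
    simpa using hc
  have h1 := clifford_degree N hχ hθ hc' (inertia N θ) (mem_inertia N θ)
  obtain ⟨e, he⟩ := Helper7.classInner_char_nat
    (Helper7.isCharacter_restrict (isCharacter_of_irr hχ) N) (isCharacter_of_irr hθ)
  obtain ⟨c, -, hc1⟩ := Helper7.irr_apply_one hχ
  refine ⟨χ, c, hχ, hc1, ?_⟩
  have he' : classInner (fun n : N => χ n) θ = e := he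
  rw [he', hd, hc1] at h1
  have h2 : c = e * ((inertia N θ).index * d) := by exact_mod_cast h1
  rw [h2]
  exact ⟨e * (inertia N θ).index, by ring⟩

theorem comm_of_coprime_card [Finite G] (N : Subgroup G) [hN : N.Normal] (m : ℕ)
    (hcd : ∀ χ : G → ℂ, IsIrrCharacter G χ → χ 1 = 1 ∨ χ 1 = m)
    (hcop : Nat.Coprime (Nat.card N) m) : ∀ a ∈ N, ∀ b ∈ N, a * b = b * a := by
  have h := comm_of_forall_linear (G := N) (by
    intro θ
    obtain ⟨d, -, hd⟩ := Helper7.irr_apply_one θ.2
    obtain ⟨χ, c, hχ, hc, hdc⟩ := exists_irr_degree_dvd N θ.2 hd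
    have h1 := Helper7.charDegree_dvd_card θ
    rw [charDegree_eq hd] at h1
    have h2 : d = 1 := by
      rcases hcd χ hχ with h | h
      · rw [hc] at h
        have : c = 1 := by exact_mod_cast h
        rw [this] at hdc
        exact Nat.dvd_one.mp hdc
      · rw [hc] at h
        have : c = m := by exact_mod_cast h
        rw [this] at hdc
        exact Nat.eq_one_of_dvd_coprimes hcop h1 hdc
    rw [hd, h2, Nat.cast_one])
  intro a ha b hb
  exact congrArg Subtype.val (h ⟨a, ha⟩ ⟨b, hb⟩)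

theorem two_deg_main [Finite G] (H : Subgroup G) [hN : H.Normal]
    (hHab : ∀ a ∈ H, ∀ b ∈ H, a * b = b * a)
    (hcop : Nat.Coprime (Nat.card H) H.index) (m : ℕ)
    (hcd : ∀ χ : G → ℂ, IsIrrCharacter G χ → χ 1 = 1 ∨ χ 1 = m)
    (hcomm : ∀ a b : G, Commute (cjHom H a) (cjHom H b))
    (hnc : ¬ ∀ g : G, ∀ h ∈ H, g * h = h * g) :
    ∃ A : Subgroup G, A.Normal ∧ (∀ a ∈ A, ∀ b ∈ A, a * b = b * a) ∧ A.index = m ∧
      ∀ a b : G, a * b * a⁻¹ * b⁻¹ ∈ A := by
  obtain ⟨l, hl⟩ : ∃ l, linStab H l ≠ ⊤ := by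
    by_contra hall
    push Not at hall
    apply hnc
    intro g h hh
    apply comm_of_mem_ker_cjHom H hHab _ h hh
    rw [MonoidHom.mem_ker]
    ext μ : 1
    exact (mem_linStab_iff H μ g).mp (hall μ ▸ Subgroup.mem_top g)
  have hdata := fun l hl => linStab_data H hcop m hcd l hl
  have h1 := linStab_le_ker H hcop hcomm m (fun l hl => (hdata l hl).1) l hl
  have h2 : linStab H l = (cjHom H).ker := le_antisymm h1 (ker_cjHom_le_linStab H l)
  obtain ⟨hidx, hder⟩ := hdata l hl
  rw [h2] at hidx hder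
  refine ⟨(cjHom H).ker, inferInstance, ?_, hidx, ?_⟩
  · exact comm_of_central_hall H hcop _ (fun c hc h hh => comm_of_mem_ker_cjHom H hHab hc h hh) hder
  · intro a b
    rw [MonoidHom.mem_ker, map_mul, map_mul, map_mul, map_inv, map_inv, (hcomm a b).eq]
    group

end Cfsg.Agent.Lib.Helper25
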