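import Cfsg.Agent.Lib.Helper25.TwoDeg5

set_option autoImplicit false

namespace Cfsg.Agent.Lib.Helper25

open Cfsg
open scoped ComplexConjugate

universe u

variable {G : Type u} [Group G]

theorem two_deg_structure [Finite G] (m : ℕ)
    (hcd : ∀ χ : G → ℂ, IsIrrCharacter G χ → χ 1 = 1 ∨ χ 1 = m)
    (hm : ∃ χ : G → ℂ, IsIrrCharacter G χ ∧ χ 1 = m) (hm1 : m ≠ 1)
    (hN : ∀ q : ℕ, q.Prime → q ∣ m → ∃ N : Subgroup G, N.Normal ∧ (Nat.card N).Coprime q ∧
      ∃ k : ℕ, N.index = q ^ k) :
    (∃ A : Subgroup G, A.Normal ∧ (∀ a ∈ A, ∀ b ∈ A, a * b = b * a) ∧ A.index = m ∧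
      ∀ a b : G, a * b * a⁻¹ * b⁻¹ ∈ A) ∨
    ∃ p e : ℕ, p.Prime ∧ m = p ^ e ∧ ∃ P A : Subgroup G, P.Normal ∧ A.Normal ∧ IsPGroup p P ∧
      (∀ a ∈ A, ∀ b ∈ A, a * b = b * a) ∧ P ⊓ A = ⊥ ∧ P ⊔ A = ⊤ := by
  classical
  have hm0 : m ≠ 0 := by
    obtain ⟨χ, hχ, h1⟩ := hm
    obtain ⟨d, hd0, hd⟩ := Helper7.irr_apply_one hχ
    rw [hd] at h1
    have : d = m := by exact_mod_cast h1
    omega
  choose! N hN' using hN
  set H : Subgroup G := ⨅ q ∈ m.primeFactors, N q with hH
  have hpf : ∀ q, q.Prime → q ∣ m → q ∈ m.primeFactors := fun q hq hqm =>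
    Nat.mem_primeFactors.mpr ⟨hq, hqm, hm0⟩
  have hHle : ∀ q, q.Prime → q ∣ m → H ≤ N q := fun q hq hqm => iInf₂_le q (hpf q hq hqm)
  have hHmem : ∀ g : G, (∀ q, q.Prime → q ∣ m → g ∈ N q) → g ∈ H := by
    intro g hg
    rw [hH]
    simp only [Subgroup.mem_iInf]
    intro q hq
    exact hg q (Nat.prime_of_mem_primeFactors hq) (Nat.dvd_of_mem_primeFactors hq)
  have hHn : H.Normal := by
    constructor
    intro n hn g
    apply hHmem
    intro q hq hqm
    exact (hN' q hq hqm).1.conj_mem n (hHle q hq hqm hn) g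
  have hcopm : Nat.Coprime (Nat.card H) m := by
    apply Nat.coprime_of_dvd
    intro q hq hqH hqm
    have h1 : q ∣ Nat.card (N q) := hqH.trans (Subgroup.card_dvd_of_le (hHle q hq hqm))
    have h2 := (hN' q hq hqm).2.1
    exact hq.one_lt.ne' (Nat.eq_one_of_dvd_coprimes h2 h1 dvd_rfl)
  have hidxp : ∀ q, q.Prime → q ∣ H.index → q ∣ m := by
    intro q hq hqi
    by_contra hqm
    have : Fact q.Prime := ⟨hq⟩
    rw [Subgroup.index_eq_card] at hqi
    obtain ⟨x, hx⟩ := exists_prime_orderOf_dvd_card' q hqi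
    obtain ⟨g, rfl⟩ := QuotientGroup.mk_surjective x
    have hgq : g ^ q ∈ H := by
      rw [← QuotientGroup.eq_one_iff, QuotientGroup.mk_pow, ← hx, pow_orderOf_eq_one]
    have hgH : g ∈ H := by
      apply hHmem
      intro r hr hrm
      obtain ⟨hn, -, k, hk⟩ := hN' r hr hrm
      have h1 : ((g : G ⧸ N r)) ^ q = 1 := by
        rw [← QuotientGroup.mk_pow, QuotientGroup.eq_one_iff]
        exact hHle r hr hrm hgq
      have h2 : ((g : G ⧸ N r)) ^ (r ^ k) = 1 := by
        rw [← QuotientGroup.mk_pow, QuotientGroup.eq_one_iff, ← hk]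
        exact (N r).pow_index_mem g
      have hqr : Nat.Coprime q (r ^ k) := by
        apply Nat.Coprime.pow_right
        rw [Nat.coprime_primes hq hr]
        rintro rfl
        exact hqm hrm
      have h3 := Nat.eq_one_of_dvd_coprimes hqr (orderOf_dvd_of_pow_eq_one h1)
        (orderOf_dvd_of_pow_eq_one h2)
      rw [orderOf_eq_one_iff, QuotientGroup.eq_one_iff] at h3
      exact h3
    rw [(QuotientGroup.eq_one_iff g).mpr hgH, orderOf_one] at hx
    exact hq.one_lt.ne hx
  have hcop : Nat.Coprime (Nat.card H) H.index := by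
    apply Nat.coprime_of_dvd
    intro q hq hqH hqi
    exact hq.one_lt.ne' (Nat.eq_one_of_dvd_coprimes hcopm hqH (hidxp q hq hqi))
  have hHab := comm_of_coprime_card H m hcd hcopm
  by_cases hpp : ∃ p e : ℕ, p.Prime ∧ m = p ^ e
  · obtain ⟨p, e, hp, hme⟩ := hpp
    have : Fact p.Prime := ⟨hp⟩
    have hidx : H.index = p ^ H.index.primeFactorsList.length := by
      apply Nat.eq_prime_pow_of_unique_prime_dvd Subgroup.index_ne_zero_of_finite
      intro d hd hdi
      have h1 := hidxp d hd hdi
      rw [hme] at h1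
      exact (Nat.prime_dvd_prime_iff_eq hd hp).mp (hd.dvd_of_dvd_pow h1)
    have hpG : IsPGroup p (G ⧸ H) := IsPGroup.of_card (by rw [← Subgroup.index_eq_card]; exact hidx)
    have hcomm := cjHom_comm_of_pGroup H hcop m hcd hpG
    by_cases hcentral : ∀ g : G, ∀ h ∈ H, g * h = h * g
    · right
      obtain ⟨P⟩ : Nonempty (Sylow p G) := inferInstance
      have hsup : (P : Subgroup G) ⊔ H = ⊤ := by
        rw [← Subgroup.index_eq_one]
        have h1 : ((P : Subgroup G) ⊔ H).index ∣ H.index := Subgroup.index_dvd_of_le le_sup_right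
        have h2 : ((P : Subgroup G) ⊔ H).index ∣ (P : Subgroup G).index :=
          Subgroup.index_dvd_of_le le_sup_left
        rw [hidx] at h1
        obtain ⟨i, -, hi⟩ := (Nat.dvd_prime_pow hp).mp h1
        rcases Nat.eq_zero_or_pos i with rfl | hi0
        · simpa using hi
        · exfalso
          apply P.not_dvd_index
          refine dvd_trans ?_ h2
          rw [hi]
          exact dvd_pow_self p hi0.ne'
      have he0 : e ≠ 0 := by
        rintro rfl
        exact hm1 (by simpa using hme)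
      have hcopp : Nat.Coprime (Nat.card H) p := by
        rw [hme] at hcopm
        exact (Nat.coprime_pow_right_iff (Nat.pos_of_ne_zero he0) _ _).mp hcopm
      have hinf : (P : Subgroup G) ⊓ H = ⊥ := by
        apply Subgroup.inf_eq_bot_of_coprime
        obtain ⟨n, hn⟩ := IsPGroup.iff_card.mp P.2
        rw [hn]
        exact (Nat.Coprime.pow_right n hcopp).symm
      have hPn : (P : Subgroup G).Normal := by
        rw [← Subgroup.normalizer_eq_top_iff, ← top_le_iff, ← hsup]
        apply sup_le Subgroup.le_normalizer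
        intro h hh
        rw [Subgroup.mem_normalizer_iff]
        intro x
        have : h * x * h⁻¹ = x := by
          rw [← hcentral x h hh]
          group
        rw [this]
      exact ⟨p, e, hp, hme, P, H, hPn, hHn, P.2, hHab, hinf, hsup⟩
    · left
      exact two_deg_main H hHab hcop m hcd hcomm hcentral
  · have hder : ∀ a b : G, a * b * a⁻¹ * b⁻¹ ∈ H := by
      intro a b
      apply hHmem
      intro r hr hrm
      obtain ⟨hn, -, k, hk⟩ := hN' r hr hrm
      have hc := comm_of_forall_linear (G := G ⧸ N r) (by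
        intro χ
        have hβ := isIrrCharacter_comp_surjective (QuotientGroup.mk' (N r))
          (QuotientGroup.mk'_surjective _) χ.2
        rcases hcd _ hβ with h | h
        · simpa using h
        · exfalso
          have h1 : (χ : G ⧸ N r → ℂ) 1 = m := by simpa using h
          have h2 := Helper7.charDegree_dvd_card χ
          rw [charDegree_eq h1, ← Subgroup.index_eq_card, hk] at h2
          obtain ⟨i, -, hi⟩ := (Nat.dvd_prime_pow hr).mp h2
          exact hpp ⟨r, i, hr, hi⟩)
      have h1 := hc (QuotientGroup.mk a) (QuotientGroup.mk b)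
      rw [← QuotientGroup.eq_one_iff]
      simp only [QuotientGroup.mk_mul, QuotientGroup.mk_inv]
      rw [h1]
      group
    have hcomm : ∀ a b : G, Commute (cjHom H a) (cjHom H b) := by
      intro a b
      have h1 := MonoidHom.mem_ker.mp (le_ker_cjHom H (hder a b))
      rw [map_mul, map_mul, map_mul, map_inv, map_inv] at h1
      show cjHom H a * cjHom H b = cjHom H b * cjHom H a
      calc cjHom H a * cjHom H b
          = (cjHom H a * cjHom H b * (cjHom H a)⁻¹ * (cjHom H b)⁻¹) * (cjHom H b * cjHom H a) := by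
            group
        _ = cjHom H b * cjHom H a := by rw [h1, one_mul]
    by_cases hcentral : ∀ g : G, ∀ h ∈ H, g * h = h * g
    · exfalso
      have h1 := comm_of_central_hall H hcop ⊤ (fun c _ h hh => hcentral c h hh)
        (fun a _ b _ => hder a b)
      have : IsMulCommutative G := ⟨⟨fun a b => h1 a (Subgroup.mem_top a) b (Subgroup.mem_top b)⟩⟩
      obtain ⟨χ, hχ, h2⟩ := hm
      rw [Helper7.irr_apply_one_of_comm hχ] at h2
      apply hm1
      exact_mod_cast h2.symm
    · left
      exact two_deg_main H hHab hcop m hcd hcomm hcentral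

end Cfsg.Agent.Lib.Helper25
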