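import Cfsg.Agent.Lib.Helper25.TwoDeg6
import Cfsg.Agent.Lib.Helper25.NilpMonomial
import Cfsg.Agent.Lib.Helper25.Perm
import Cfsg.Agent.Lib.Helper7.CharComplete

set_option autoImplicit false

namespace Cfsg.Agent.Lib.Helper25

open Cfsg
open scoped ComplexConjugate

universe u

variable {G : Type u} [Group G]

theorem linear_apply_commutator {ψ : G → ℂ} (hψ : IsIrrCharacter G ψ) (h1 : ψ 1 = 1) {g : G}
    (hg : g ∈ commutator G) : ψ g = 1 := by
  obtain ⟨f, hf⟩ := Helper7.exists_hom_of_linear (isCharacter_of_irr hψ) h1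
  have h2 : f g = 1 := MonoidHom.mem_ker.mp (Abelianization.commutator_subset_ker f hg)
  rw [hf, h2, Units.val_one]

theorem commutator_le_of_index_eq [Fintype G] (m : ℕ)
    (hcd : ∀ χ : G → ℂ, IsIrrCharacter G χ → χ 1 = 1 ∨ χ 1 = m) (U : Subgroup G)
    (hU : U.index = m) : commutator G ≤ U := by
  classical
  have := Helper2.finite_irrCharacter (G := G)
  have : Fintype (IrrCharacter G) := Fintype.ofFinite _
  set π : G → ℂ := indFun U (fun _ => 1) with hπdef
  have hπ : IsCharacter G π := isCharacter_indFun U _ Helper7.isCharacter_one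
  have h1 : classInner π (fun _ => 1) = 1 := by
    rw [hπdef, frobenius_reciprocity U (fun _ => 1) (fun _ => 1) (fun _ _ => rfl)]
    exact (classInner_irr Helper7.isIrrCharacter_one Helper7.isIrrCharacter_one).trans (if_pos rfl)
  have hΔ : IsCharacter G (π - fun _ => 1) :=
    isCharacter_sub_irr hπ Helper7.isIrrCharacter_one (by rw [h1]; exact one_ne_zero)
  have hπ1 : π 1 = m := by rw [hπdef, indFun_one, hU, mul_one]
  have hlin : ∀ ψ : IrrCharacter G, classInner (π - fun _ => 1) (ψ : G → ℂ) ≠ 0 →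
      (ψ : G → ℂ) 1 = 1 := by
    intro ψ hne
    have h2 := isCharacter_sub_irr hΔ ψ.2 hne
    obtain ⟨r, hr⟩ := Helper7.isCharacter_apply_one h2
    rcases hcd _ ψ.2 with h | h
    · exact h
    · exfalso
      simp only [Pi.sub_apply] at hr
      rw [hπ1, h] at hr
      have h3 : ((r + 1 : ℕ) : ℂ) = 0 := by
        push_cast
        linear_combination -hr
      exact Nat.succ_ne_zero r (by exact_mod_cast h3)
  intro g hg
  have hΔg : (π - fun _ => (1 : ℂ) : G → ℂ) g = (π - fun _ => (1 : ℂ) : G → ℂ) 1 := by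
    rw [Helper7.classFunction_apply_eq_sum (isClassFunction_of_isCharacter hΔ) g,
      Helper7.classFunction_apply_eq_sum (isClassFunction_of_isCharacter hΔ) 1]
    apply Finset.sum_congr rfl
    intro ψ _
    by_cases h0 : classInner (π - fun _ => 1) (ψ : G → ℂ) = 0
    · rw [h0, zero_mul, zero_mul]
    · rw [linear_apply_commutator ψ.2 (hlin ψ h0) hg, hlin ψ h0]
  have hπg : π g = m := by
    simp only [Pi.sub_apply] at hΔg
    rw [← hπ1]
    linear_combination hΔg
  rw [hπdef, indFun_apply] at hπg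
  have hext : ∀ y : G, extendByZero U (fun _ => (1 : ℂ)) y = if y ∈ U then 1 else 0 := by
    intro y
    by_cases hy : y ∈ U
    · rw [extendByZero_mem U _ hy, if_pos hy]
    · rw [extendByZero_not_mem U _ hy, if_neg hy]
  simp_rw [hext] at hπg
  rw [Finset.sum_boole] at hπg
  have hUc : (Nat.card U : ℂ) ≠ 0 := by exact_mod_cast Nat.card_pos.ne'
  have h3 : ((Finset.univ.filter (fun x : G => x⁻¹ * g * x ∈ U)).card : ℂ)
      = ((m * Nat.card U : ℕ) : ℂ) := by
    push_cast
    rw [← hπg]
    field_simp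
  have h4 : (Finset.univ.filter (fun x : G => x⁻¹ * g * x ∈ U)).card = m * Nat.card U := by
    exact_mod_cast h3
  rw [← hU, mul_comm, Subgroup.card_mul_index, Nat.card_eq_fintype_card, ← Finset.card_univ] at h4
  have h5 := Finset.eq_of_subset_of_card_le (Finset.filter_subset _ _) h4.ge
  have h6 : (1 : G) ∈ Finset.univ.filter (fun x : G => x⁻¹ * g * x ∈ U) := by
    rw [h5]
    exact Finset.mem_univ _
  simpa using h6

theorem eq_one_of_forall_irr [Finite G] (c : G)
    (h : ∀ χ : G → ℂ, IsIrrCharacter G χ → χ c = χ 1) : c = 1 := by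
  classical
  cases nonempty_fintype G
  have := Helper2.finite_irrCharacter (G := G)
  cases nonempty_fintype (IrrCharacter G)
  by_contra hne
  have hg : ¬ IsConj c 1 := by
    intro hc
    rw [isConj_one_left] at hc
    exact hne hc
  have h0 := Helper7.column_orthogonality_ne hg
  have h1 := Helper7.sum_sq_degrees (G := G)
  have h2 : ∑ χ : IrrCharacter G, (χ : G → ℂ) c * conj ((χ : G → ℂ) 1)
      = ∑ χ : IrrCharacter G, ((χ : G → ℂ) 1) ^ 2 := by
    apply Finset.sum_congr rfl
    intro χ _
    obtain ⟨d, -, hd⟩ := Helper7.irr_apply_one χ.2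
    rw [h _ χ.2, hd, Complex.conj_natCast, sq]
  rw [h2, h1] at h0
  have : (Nat.card G : ℂ) ≠ 0 := by exact_mod_cast Nat.card_pos.ne'
  exact this h0

theorem derived_comm_of_monomial [Finite G] (m : ℕ)
    (hcd : ∀ χ : G → ℂ, IsIrrCharacter G χ → χ 1 = 1 ∨ χ 1 = m)
    (hmono : ∀ [Fintype G] (χ : G → ℂ), IsIrrCharacter G χ →
      ∃ (U : Subgroup G) (lam : U →* ℂˣ), χ = indFun U (fun h => (lam h : ℂ))) :
    ∀ a ∈ commutator G, ∀ b ∈ commutator G, a * b = b * a := by
  classical
  cases nonempty_fintype G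
  intro a ha b hb
  have hc : a * b * a⁻¹ * b⁻¹ = 1 := by
    apply eq_one_of_forall_irr
    intro χ hχ
    rcases hcd χ hχ with h1 | h1
    · obtain ⟨f, hf⟩ := Helper7.exists_hom_of_linear (isCharacter_of_irr hχ) h1
      rw [hf, hf]
      simp [mul_comm (f a) (f b)]
    · obtain ⟨U, lam, hU⟩ := hmono χ hχ
      have hidx : U.index = m := by
        have h2 := congrFun hU 1
        rw [indFun_one, h1, map_one, Units.val_one, mul_one] at h2
        exact_mod_cast h2.symm
      have hle := commutator_le_of_index_eq m hcd U hidx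
      have hterm : ∀ x : G, extendByZero U (fun h => (lam h : ℂ)) (x⁻¹ * (a * b * a⁻¹ * b⁻¹) * x)
          = 1 := by
        intro x
        have hnorm : (commutator G).Normal := inferInstance
        have hax : x⁻¹ * a * x ∈ U := hle (by
          have := hnorm.conj_mem a ha x⁻¹
          simpa using this)
        have hbx : x⁻¹ * b * x ∈ U := hle (by
          have := hnorm.conj_mem b hb x⁻¹
          simpa using this)
        have he : x⁻¹ * (a * b * a⁻¹ * b⁻¹) * x
            = ((⟨_, hax⟩ * ⟨_, hbx⟩ * ⟨_, hax⟩⁻¹ * ⟨_, hbx⟩⁻¹ : U) : G) := by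
          simp only [Subgroup.coe_mul, Subgroup.coe_inv]
          group
        rw [he, extendByZero_coe, map_mul, map_mul, map_mul, map_inv, map_inv,
          mul_comm (lam ⟨_, hax⟩) (lam ⟨_, hbx⟩)]
        simp
      rw [h1, hU, indFun_apply]
      simp_rw [hterm]
      rw [Finset.sum_const, Finset.card_univ, ← Nat.card_eq_fintype_card, ← hidx,
        ← Subgroup.card_mul_index U]
      have hUc : (Nat.card U : ℂ) ≠ 0 := by exact_mod_cast Nat.card_pos.ne'
      simp only [nsmul_eq_mul, mul_one, Nat.cast_mul]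
      field_simp
  calc a * b = (a * b * a⁻¹ * b⁻¹) * (b * a) := by group
    _ = b * a := by rw [hc, one_mul]

end Cfsg.Agent.Lib.Helper25
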